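/-
Vector geometry for the minimal index of the orthogonal groups: non-degenerate subspaces `R` of a quadratic space,
hyperbolic pairs, spanning by singular vectors, and the constancy of functions invariant under Eichler moves.
-/
import Cfsg.Agent.Lib.GeoOmega.Eichler
set_option autoImplicit false

namespace Cfsg.Agent.Lib.MinOmega

open Cfsg Cfsg.Geo Cfsg.Agent.Lib.Geo.QForm Cfsg.Agent.Lib.GeoOmega.Basic
open Cfsg.Agent.Lib.GeoOmega.Eichler
open scoped MatrixGroups Matrix

variable {ι : Type} [Fintype ι] [DecidableEq ι] {F : Type*} [Field F] {Q : (ι → F) → F}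

/-- The Eichler formula. -/
def eE (Q : (ι → F) → F) (a c x : ι → F) : ι → F :=
  x + pol Q x c • a - pol Q x a • c - (Q c * pol Q x a) • a

/-- A subspace on which the polar form is non-degenerate. -/
def Nd (Q : (ι → F) → F) (R : Submodule F (ι → F)) : Prop :=
  ∀ x ∈ R, x ≠ 0 → ∃ y ∈ R, pol Q x y ≠ 0

/-- Hyperbolic pair. -/
structure Hyp (Q : (ι → F) → F) (a b : ι → F) : Prop where
  ha : Q a = 0
  hb : Q b = 0
  hab : pol Q a b = 1

variable (hQ : IsNondegenerateQuadraticForm Q)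

/-- Orthogonal part of a subspace. -/
noncomputable def Ort (R : Submodule F (ι → F)) (x : ι → F) : Submodule F (ι → F) :=
  R ⊓ LinearMap.ker (polB hQ x)

include hQ

theorem mem_Ort {R : Submodule F (ι → F)} {x y : ι → F} : y ∈ Ort hQ R x ↔ y ∈ R ∧ pol Q x y = 0 := by
  simp [Ort, polB_apply]

theorem finrank_Ort (R : Submodule F (ι → F)) (x : ι → F) :
    Module.finrank F R ≤ Module.finrank F (Ort hQ R x) + 1 := by
  have h1 := Submodule.finrank_sup_add_finrank_inf_eq R (LinearMap.ker (polB hQ x))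
  have h2 : Module.finrank F (R ⊔ LinearMap.ker (polB hQ x) : Submodule F (ι → F)) ≤
      Module.finrank F (ι → F) := Submodule.finrank_le _
  have h3 := LinearMap.finrank_range_add_finrank_ker (polB hQ x)
  have h4 : Module.finrank F (LinearMap.range (polB hQ x)) ≤ 1 := by
    have := Submodule.finrank_le (LinearMap.range (polB hQ x))
    simpa using this
  change _ ≤ Module.finrank F (R ⊓ LinearMap.ker (polB hQ x) : Submodule F (ι → F)) + 1
  omega

theorem pol_comm' (x y : ι → F) : pol Q x y = pol Q y x := pol_symm hQ x y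

theorem Nd_top : Nd Q ⊤ := by
  intro x _ hx
  obtain ⟨y, hy⟩ := (hQ.nondegenerate x hx).1
  exact ⟨y, trivial, by rwa [pol_symm hQ]⟩

theorem Q_sub_smul (x p : ι → F) (t : F) (hp : Q p = 0) : Q (x - t • p) = Q x - t * pol Q x p := by
  rw [Q_sub hQ, hQ.smul, hp, pol_smul_right hQ]
  ring

/-- A partner. -/
theorem Nd.exists_partner {R : Submodule F (ι → F)} (hR : Nd Q R) {a : ι → F} (ha : a ∈ R) (ha0 : a ≠ 0)
    (hQa : Q a = 0) : ∃ b ∈ R, Hyp Q a b := by
  obtain ⟨y, hy, hay⟩ := hR a ha ha0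
  refine ⟨(pol Q a y)⁻¹ • y - Q ((pol Q a y)⁻¹ • y) • a, R.sub_mem (R.smul_mem _ hy) (R.smul_mem _ ha), ?_⟩
  have h1 : pol Q a ((pol Q a y)⁻¹ • y) = 1 := by rw [pol_smul_right hQ]; field_simp
  refine ⟨hQa, ?_, ?_⟩
  · rw [Q_sub_smul hQ _ _ _ hQa, pol_symm hQ _ a, h1]; ring
  · rw [pol_sub_right hQ, h1, pol_smul_right hQ, pol_singular hQ hQa]; ring

/-- Partner when a non-orthogonal vector in `T` is given. -/
theorem exists_partner_of {T : Submodule F (ι → F)} {a y : ι → F} (ha : a ∈ T) (hy : y ∈ T) (hQa : Q a = 0)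
    (hay : pol Q a y ≠ 0) : ∃ b ∈ T, Hyp Q a b := by
  refine ⟨(pol Q a y)⁻¹ • y - Q ((pol Q a y)⁻¹ • y) • a, T.sub_mem (T.smul_mem _ hy) (T.smul_mem _ ha), ?_⟩
  have h1 : pol Q a ((pol Q a y)⁻¹ • y) = 1 := by rw [pol_smul_right hQ]; field_simp
  refine ⟨hQa, ?_, ?_⟩
  · rw [Q_sub_smul hQ _ _ _ hQa, pol_symm hQ _ a, h1]; ring
  · rw [pol_sub_right hQ, h1, pol_smul_right hQ, pol_singular hQ hQa]; ring

/-- The projection off a hyperbolic pair. -/
theorem proj_perp {a b : ι → F} (h : Hyp Q a b) (y : ι → F) :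
    pol Q a (y - pol Q y b • a - pol Q y a • b) = 0 ∧ pol Q b (y - pol Q y b • a - pol Q y a • b) = 0 := by
  have haa := pol_singular hQ h.ha
  have hbb := pol_singular hQ h.hb
  have hba : pol Q b a = 1 := by rw [pol_symm hQ, h.hab]
  constructor
  · rw [pol_sub_right hQ, pol_sub_right hQ, pol_smul_right hQ, pol_smul_right hQ, haa, h.hab,
      pol_symm hQ a y]
    ring
  · rw [pol_sub_right hQ, pol_sub_right hQ, pol_smul_right hQ, pol_smul_right hQ, hbb, hba,
      pol_symm hQ b y]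
    ring

theorem Nd_ort2 {R : Submodule F (ι → F)} (hR : Nd Q R) {a b : ι → F} (ha : a ∈ R) (hb : b ∈ R)
    (h : Hyp Q a b) : Nd Q (Ort hQ (Ort hQ R a) b) := by
  intro x hx hx0
  rw [mem_Ort hQ, mem_Ort hQ] at hx
  obtain ⟨⟨hxR, hxa⟩, hxb⟩ := hx
  obtain ⟨y, hy, hxy⟩ := hR x hxR hx0
  refine ⟨y - pol Q y b • a - pol Q y a • b, ?_, ?_⟩
  · rw [mem_Ort hQ, mem_Ort hQ]
    obtain ⟨h1, h2⟩ := proj_perp hQ h y
    exact ⟨⟨R.sub_mem (R.sub_mem hy (R.smul_mem _ ha)) (R.smul_mem _ hb), h1⟩, h2⟩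
  · rw [pol_sub_right hQ, pol_sub_right hQ, pol_smul_right hQ, pol_smul_right hQ,
      pol_symm hQ x a, pol_symm hQ x b, hxa, hxb]
    simpa using hxy

/-- Separation in a non-degenerate subspace. -/
theorem Nd.sep {R : Submodule F (ι → F)} (hR : Nd Q R) {x y : ι → F} (hx : x ∈ R) (hy : y ∈ R)
    (h : ∀ f ∈ R, pol Q y f = 0 → pol Q x f = 0) : x ∈ Submodule.span F {y} := by
  by_cases hy0 : y = 0
  · subst hy0
    by_contra hne
    have hx0 : x ≠ 0 := by
      rintro rfl
      exact hne (Submodule.zero_mem _)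
    obtain ⟨f, hf, hxf⟩ := hR x hx hx0
    exact hxf (h f hf (pol_zero_left hQ f))
  · obtain ⟨g, hg, hyg⟩ := hR y hy hy0
    set c := pol Q x g / pol Q y g with hc
    have key : x - c • y = 0 := by
      by_contra hne
      obtain ⟨f, hf, hxf⟩ := hR _ (R.sub_mem hx (R.smul_mem _ hy)) hne
      apply hxf
      have h1 : pol Q y (f - (pol Q y f / pol Q y g) • g) = 0 := by
        rw [pol_sub_right hQ, pol_smul_right hQ]
        field_simp
        ring
      have h2 := h _ (R.sub_mem hf (R.smul_mem _ hg)) h1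
      rw [pol_sub_right hQ, pol_smul_right hQ] at h2
      rw [pol_sub_left hQ, pol_smul_left hQ, hc]
      have h3 : pol Q x f = pol Q y f / pol Q y g * pol Q x g := by linear_combination h2
      rw [h3]
      field_simp
      ring
    rw [sub_eq_zero] at key
    rw [key]
    exact Submodule.smul_mem _ _ (Submodule.mem_span_singleton_self y)

theorem Nd.exists_sep {R : Submodule F (ι → F)} (hR : Nd Q R) {x y : ι → F} (hx : x ∈ R) (hy : y ∈ R)
    (hxy : x ∉ Submodule.span F {y}) : ∃ f ∈ R, pol Q y f = 0 ∧ pol Q x f ≠ 0 := by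
  by_contra hcon
  push Not at hcon
  exact hxy (hR.sep hQ hx hy hcon)

/-- A subspace containing a hyperbolic pair is spanned by its singular vectors. -/
theorem span_singular {T : Submodule F (ι → F)} {a b : ι → F} (ha : a ∈ T) (hb : b ∈ T) (h : Hyp Q a b) {x : ι → F}
    (hx : x ∈ T) : x ∈ Submodule.span F {c | c ∈ T ∧ Q c = 0} := by
  set x₀ := x - pol Q x b • a - pol Q x a • b with hx₀
  obtain ⟨h1, h2⟩ := proj_perp hQ h x
  rw [← hx₀] at h1 h2
  have hx₀T : x₀ ∈ T := T.sub_mem (T.sub_mem hx (T.smul_mem _ ha)) (T.smul_mem _ hb)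
  have hmem : ∀ c, c ∈ T → Q c = 0 → c ∈ Submodule.span F {c | c ∈ T ∧ Q c = 0} :=
    fun c h1 h2 => Submodule.subset_span ⟨h1, h2⟩
  have hA := hmem a ha h.ha
  have hB := hmem b hb h.hb
  have hC : a + (x₀ - Q x₀ • b) ∈ Submodule.span F {c | c ∈ T ∧ Q c = 0} := by
    apply hmem _ (T.add_mem ha (T.sub_mem hx₀T (T.smul_mem _ hb)))
    have h3 : pol Q x₀ b = 0 := by rw [pol_symm hQ, h2]
    rw [Q_add hQ, Q_sub_smul hQ _ _ _ h.hb, h.ha, h3, pol_sub_right hQ, h1, pol_smul_right hQ, h.hab]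
    ring
  have e : x = (a + (x₀ - Q x₀ • b)) - a + Q x₀ • b + pol Q x b • a + pol Q x a • b := by
    rw [hx₀]
    abel
  rw [e]
  set Sp := Submodule.span F {c | c ∈ T ∧ Q c = 0}
  exact Sp.add_mem (Sp.add_mem (Sp.add_mem (Sp.sub_mem hC hA) (Sp.smul_mem _ hB)) (Sp.smul_mem _ hA))
    (Sp.smul_mem _ hB)

/-- A singular vector not orthogonal to `z`. -/
theorem exists_singular_pol_ne {T : Submodule F (ι → F)} {a b z f : ι → F} (ha : a ∈ T) (hb : b ∈ T) (h : Hyp Q a b)
    (hf : f ∈ T) (hzf : pol Q z f ≠ 0) : ∃ c ∈ T, Q c = 0 ∧ pol Q z c ≠ 0 := by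
  by_contra hcon
  push Not at hcon
  apply hzf
  have hs := span_singular hQ ha hb h hf
  clear hf hzf
  induction hs using Submodule.span_induction with
  | mem c hc => exact hcon c hc.1 hc.2
  | zero => exact pol_zero_right hQ _
  | add x y _ _ hx hy => rw [pol_add_right hQ, hx, hy, add_zero]
  | smul t x _ hx => rw [pol_smul_right hQ, hx, mul_zero]

variable [Fintype F]

/-- A non-zero singular vector in `R`, orthogonal to `d`, and not a multiple of `d`. -/
theorem exists_singular_off {R : Submodule F (ι → F)} (hR : Nd Q R) (hdim : 5 ≤ Module.finrank F R) {d : ι → F}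
    (hd : d ∈ R) (hd0 : d ≠ 0) :
    ∃ a ∈ Ort hQ R d, a ≠ 0 ∧ Q a = 0 ∧ a ∉ Submodule.span F {d} := by
  obtain ⟨g, hg, hdg⟩ := hR d hd hd0
  have h1 := finrank_Ort hQ R d
  have h2 := finrank_Ort hQ (Ort hQ R d) g
  obtain ⟨a, ha, ha0, hQa⟩ := exists_singular hQ (Ort hQ (Ort hQ R d) g) (by omega)
  rw [mem_Ort hQ] at ha
  refine ⟨a, ha.1, ha0, hQa, ?_⟩
  intro hm
  obtain ⟨t, rfl⟩ := Submodule.mem_span_singleton.mp hm
  have h3 := ha.2
  rw [pol_smul_right hQ, pol_symm hQ g d] at h3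
  rcases mul_eq_zero.mp h3 with h4 | h4
  · apply ha0
    rw [h4, zero_smul]
  · exact hdg h4

/-- A hyperbolic pair orthogonal to `d`. -/
theorem exists_hyp_ort {R : Submodule F (ι → F)} (hR : Nd Q R) (hdim : 5 ≤ Module.finrank F R) {d : ι → F}
    (hd : d ∈ R) (hd0 : d ≠ 0) : ∃ a ∈ Ort hQ R d, ∃ b ∈ Ort hQ R d, Hyp Q a b := by
  obtain ⟨a, ha, ha0, hQa, had⟩ := exists_singular_off hQ hR hdim hd hd0
  obtain ⟨f, hf, hdf, haf⟩ := hR.exists_sep hQ ((mem_Ort hQ).mp ha).1 hd had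
  obtain ⟨b, hb, hab⟩ := exists_partner_of hQ ha ((mem_Ort hQ).mpr ⟨hf, hdf⟩) hQa haf
  exact ⟨a, ha, b, hb, hab⟩

/-- **Lemma S1**: a singular vector orthogonal to `d`, not orthogonal to `z`. -/
theorem exists_singular_ort_ne {R : Submodule F (ι → F)} (hR : Nd Q R) (hdim : 5 ≤ Module.finrank F R) {d z : ι → F}
    (hd : d ∈ R) (hd0 : d ≠ 0) (hz : z ∈ R) (hzd : z ∉ Submodule.span F {d}) :
    ∃ a ∈ R, Q a = 0 ∧ pol Q d a = 0 ∧ pol Q z a ≠ 0 := by
  obtain ⟨a, ha, b, hb, hab⟩ := exists_hyp_ort hQ hR hdim hd hd0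
  obtain ⟨f, hf, hdf, hzf⟩ := hR.exists_sep hQ hz hd hzd
  obtain ⟨c, hc, hQc, hzc⟩ := exists_singular_pol_ne hQ ha hb hab ((mem_Ort hQ).mpr ⟨hf, hdf⟩) hzf
  rw [mem_Ort hQ] at hc
  exact ⟨c, hc.1, hQc, hc.2, hzc⟩

omit [Fintype F] in
/-- The Eichler move. -/
theorem eE_move {a x y : ι → F} (hQa : Q a = 0) (hxy : Q x = Q y) (h1 : pol Q a x = pol Q a y)
    (h0 : pol Q a x ≠ 0) :
    pol Q a ((pol Q a x)⁻¹ • (x - y)) = 0 ∧ eE Q a ((pol Q a x)⁻¹ • (x - y)) x = y := by
  constructor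
  · rw [pol_smul_right hQ, pol_sub_right hQ, h1, sub_self, mul_zero]
  · set β := pol Q a x with hβ
    have hxa : pol Q x a = β := by rw [pol_symm hQ]
    have e1 : pol Q x (x - y) = 2 * Q x - pol Q x y := by
      rw [pol_sub_right hQ, pol_self hQ]
    have e2 : Q (x - y) = 2 * Q x - pol Q x y := by
      rw [Q_sub hQ, ← hxy]; ring
    unfold eE
    rw [pol_smul_right hQ, hxa, hQ.smul, e1, e2]
    have e3 : β⁻¹ * (2 * Q x - pol Q x y) - (β⁻¹) ^ 2 * (2 * Q x - pol Q x y) * β = 0 := by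
      field_simp
      ring
    have e4 : x + (β⁻¹ * (2 * Q x - pol Q x y)) • a - β • β⁻¹ • (x - y)
        - ((β⁻¹) ^ 2 * (2 * Q x - pol Q x y) * β) • a
        = x - β • β⁻¹ • (x - y) + (β⁻¹ * (2 * Q x - pol Q x y) - (β⁻¹) ^ 2 * (2 * Q x - pol Q x y) * β) • a := by
      rw [sub_smul]
      abel
    rw [e4, e3, zero_smul, add_zero, smul_smul, mul_inv_cancel₀ h0, one_smul]
    abel

/-- **Class constancy**: a function invariant under Eichler moves of `R` is constant on the vectors of given norm. -/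
theorem norm_class {α : Type*} {R : Submodule F (ι → F)} (hR : Nd Q R) (hdim : 5 ≤ Module.finrank F R) (f : (ι → F) → α)
    (hf : ∀ a c x, a ∈ R → c ∈ R → x ∈ R → Q a = 0 → pol Q a c = 0 → f (eE Q a c x) = f x)
    {x y : ι → F} (hx : x ∈ R) (hy : y ∈ R) (hx0 : x ≠ 0) (hy0 : y ≠ 0) (hxy : Q x = Q y) : f x = f y := by
  have step : ∀ x y : ι → F, x ∈ R → y ∈ R → x ≠ y → Q x = Q y → x ∉ Submodule.span F {x - y} → f x = f y := by
    intro x y hx hy hne hxy hspan
    have hd0 : x - y ≠ 0 := sub_ne_zero.mpr hne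
    obtain ⟨a, ha, hQa, hda, hxa⟩ := exists_singular_ort_ne hQ hR hdim (R.sub_mem hx hy) hd0 hx hspan
    have h1 : pol Q a x = pol Q a y := by
      rw [pol_sub_left hQ, pol_symm hQ x a, pol_symm hQ y a] at hda
      exact sub_eq_zero.mp hda
    have h0 : pol Q a x ≠ 0 := by rwa [pol_symm hQ]
    obtain ⟨h2, h3⟩ := eE_move hQ hQa hxy h1 h0
    rw [← h3]
    exact (hf _ _ _ ha (R.smul_mem _ (R.sub_mem hx hy)) hx hQa h2).symm
  by_cases hne : x = y
  · rw [hne]
  by_cases hspan : x ∈ Submodule.span F {x - y}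
  · -- go through an intermediate vector
    obtain ⟨a, ha, ha0, hQa, hax⟩ := exists_singular_off hQ hR hdim hx hx0
    rw [mem_Ort hQ] at ha
    obtain ⟨t, ht⟩ := Submodule.mem_span_singleton.mp hspan
    have ht0 : t ≠ 0 := by
      rintro rfl
      apply hx0
      rw [← ht, zero_smul]
    have hx₁ : Q (x + a) = Q x := by rw [Q_add hQ, hQa, ha.2]; ring
    have hne1 : x ≠ x + a := fun h => ha0 (by simpa using h)
    have hof : ∀ (s r : F), s ≠ 0 → s • a = r • x → a ∈ Submodule.span F {x} := by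
      intro s r hs h
      have e4 : a = s⁻¹ • r • x := by
        rw [← h, smul_smul, inv_mul_cancel₀ hs, one_smul]
      rw [e4]
      exact Submodule.smul_mem _ _ (Submodule.smul_mem _ _ (Submodule.mem_span_singleton_self x))
    have h1 : f x = f (x + a) := by
      apply step x (x + a) hx (R.add_mem hx ha.1) hne1 hx₁.symm
      intro hm
      obtain ⟨s, hs⟩ := Submodule.mem_span_singleton.mp hm
      have hs0 : s ≠ 0 := by
        rintro rfl
        apply hx0
        rw [← hs, zero_smul]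
      apply hax
      apply hof (-s) 1 (neg_ne_zero.mpr hs0)
      linear_combination (norm := module) hs
    have hne2 : y ≠ x + a := by
      intro h
      apply hax
      apply hof t (-1) ht0
      rw [h] at ht
      linear_combination (norm := module) -ht
    have h2 : f y = f (x + a) := by
      apply step y (x + a) hy (R.add_mem hx ha.1) hne2 (by rw [hx₁, hxy])
      intro hm
      obtain ⟨s, hs⟩ := Submodule.mem_span_singleton.mp hm
      have hs0 : s ≠ 0 := by
        rintro rfl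
        apply hy0
        rw [← hs, zero_smul]
      apply hax
      apply hof (t * s) ((s - 1) * (t - 1) - t * s) (mul_ne_zero ht0 hs0)
      linear_combination (norm := module) (-t) • hs + (1 - s) • ht
    rw [h1, h2]
  · exact step x y hx hy hne hxy hspan

end Cfsg.Agent.Lib.MinOmega
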