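/-
Additive subgroups of a quadratic space invariant under the Eichler transformations centralising a non-singular
vector `u ∈ S`: either `S ⊆ F u` or `S` is everything.
-/
import Cfsg.Agent.Lib.MinOmega.Vec
set_option autoImplicit false

namespace Cfsg.Agent.Lib.MinOmega

open Cfsg Cfsg.Geo Cfsg.Agent.Lib.Geo.Basic Cfsg.Agent.Lib.Geo.QForm Cfsg.Agent.Lib.GeoOmega.Basic
open Cfsg.Agent.Lib.GeoOmega.Eichler
open scoped MatrixGroups Matrix

variable {ι : Type} [Fintype ι] [DecidableEq ι] {F : Type*} [Field F] {Q : (ι → F) → F}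
variable (hQ : IsNondegenerateQuadraticForm Q)
include hQ

theorem eE_add (a c x y : ι → F) : eE Q a c (x + y) = eE Q a c x + eE Q a c y := by
  unfold eE
  rw [pol_add_left hQ, pol_add_left hQ]
  module

theorem eE_smul (a c x : ι → F) (t : F) : eE Q a c (t • x) = t • eE Q a c x := by
  unfold eE
  rw [pol_smul_left hQ, pol_smul_left hQ]
  module

theorem eE_neg (a c x : ι → F) : eE Q a c (-x) = - eE Q a c x := by
  have := eE_smul hQ a c x (-1)
  simpa using this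

theorem eE_sub (a c x y : ι → F) : eE Q a c (x - y) = eE Q a c x - eE Q a c y := by
  rw [sub_eq_add_neg, eE_add hQ, eE_neg hQ, sub_eq_add_neg]

omit hQ in
theorem eE_fix {a c x : ι → F} (h1 : pol Q x a = 0) (h2 : pol Q x c = 0) : eE Q a c x = x := by
  unfold eE
  rw [h1, h2]
  simp

theorem eE_param (a c x : ι → F) (t : F) :
    eE Q a (t • c) x - x = (t * pol Q x c) • a - (t * pol Q x a) • c - ((t ^ 2 * Q c) * pol Q x a) • a := by
  unfold eE
  rw [pol_smul_right hQ, hQ.smul]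
  module

theorem eE_Q {a c : ι → F} (ha : Q a = 0) (hac : pol Q a c = 0) (x : ι → F) : Q (eE Q a c x) = Q x := by
  obtain ⟨g, hg⟩ := exists_eich hQ ha hac
  have := (mem_isometryGroup_iff Q g).mp (hg.mem_isometry hQ ha hac) x
  rw [hg x] at this
  exact this

theorem eE_pol {a c : ι → F} (ha : Q a = 0) (hac : pol Q a c = 0) (x y : ι → F) :
    pol Q (eE Q a c x) (eE Q a c y) = pol Q x y := by
  obtain ⟨g, hg⟩ := exists_eich hQ ha hac
  have := pol_isometry g (hg.mem_isometry hQ ha hac) x y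
  rw [hg x, hg y] at this
  exact this

theorem eE_mem {W : Submodule F (ι → F)} {a c x : ι → F} (ha : a ∈ W) (hc : c ∈ W) (hx : x ∈ W) : eE Q a c x ∈ W := by
  unfold eE
  exact W.sub_mem (W.sub_mem (W.add_mem hx (W.smul_mem _ ha)) (W.smul_mem _ hc)) (W.smul_mem _ ha)

/-- A non-zero non-degenerate subspace contains a non-singular vector. -/
theorem exists_nonsingular {R : Submodule F (ι → F)} (hR : Nd Q R) (h : 1 ≤ Module.finrank F R) :
    ∃ d ∈ R, Q d ≠ 0 := by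
  have hne : R ≠ ⊥ := by
    rintro rfl
    simp at h
  obtain ⟨x, hx, hx0⟩ := Submodule.exists_mem_ne_zero_of_ne_bot hne
  obtain ⟨y, hy, hxy⟩ := hR x hx hx0
  by_contra hcon
  push Not at hcon
  apply hxy
  have h1 := Q_add hQ x y
  rw [hcon x hx, hcon y hy, hcon _ (R.add_mem hx hy)] at h1
  linear_combination -h1

/-- Orthogonal complement of a non-singular vector, odd characteristic. -/
theorem Nd_ort_odd (h2 : (2 : F) ≠ 0) {R : Submodule F (ι → F)} (hR : Nd Q R) {u : ι → F} (hu : u ∈ R) (hQu : Q u ≠ 0) :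
    Nd Q (Ort hQ R u) := by
  intro x hx hx0
  rw [mem_Ort hQ] at hx
  obtain ⟨y, hy, hxy⟩ := hR x hx.1 hx0
  refine ⟨y - (pol Q u y / (2 * Q u)) • u, ?_, ?_⟩
  · rw [mem_Ort hQ]
    refine ⟨R.sub_mem hy (R.smul_mem _ hu), ?_⟩
    rw [pol_sub_right hQ, pol_smul_right hQ, pol_self hQ]
    field_simp
    ring
  · rw [pol_sub_right hQ, pol_smul_right hQ, pol_symm hQ x u, hx.2, mul_zero, sub_zero]
    exact hxy

variable [Fintype F]

/-- A hyperbolic pair orthogonal to a non-singular vector. -/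
theorem exists_hyp_ort_ns {R : Submodule F (ι → F)} (hR : Nd Q R) (hdim : 4 ≤ Module.finrank F R) {u : ι → F}
    (hu : u ∈ R) (hQu : Q u ≠ 0) : ∃ a ∈ Ort hQ R u, ∃ b ∈ Ort hQ R u, Hyp Q a b := by
  have h1 := finrank_Ort hQ R u
  obtain ⟨a, ha, ha0, hQa⟩ := exists_singular hQ (Ort hQ R u) (by omega)
  have ha1 := (mem_Ort hQ).mp ha
  have hau : a ∉ Submodule.span F {u} := by
    intro hm
    obtain ⟨t, rfl⟩ := Submodule.mem_span_singleton.mp hm
    rw [hQ.smul] at hQa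
    rcases mul_eq_zero.mp hQa with h | h
    · apply ha0
      rw [pow_eq_zero_iff two_ne_zero] at h
      rw [h, zero_smul]
    · exact hQu h
  obtain ⟨f, hf, huf, haf⟩ := hR.exists_sep hQ ha1.1 hu hau
  obtain ⟨b, hb, hab⟩ := exists_partner_of hQ ha ((mem_Ort hQ).mpr ⟨hf, huf⟩) hQa haf
  exact ⟨a, ha, b, hb, hab⟩

/-- Partner of a singular vector in the orthogonal complement of a non-singular one. -/
theorem exists_partner_ns {R : Submodule F (ι → F)} (hR : Nd Q R) {u a : ι → F}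
    (hu : u ∈ R) (hQu : Q u ≠ 0) (ha : a ∈ Ort hQ R u) (ha0 : a ≠ 0) (hQa : Q a = 0) :
    ∃ b ∈ Ort hQ R u, Hyp Q a b := by
  have ha1 := (mem_Ort hQ).mp ha
  have hau : a ∉ Submodule.span F {u} := by
    intro hm
    obtain ⟨t, rfl⟩ := Submodule.mem_span_singleton.mp hm
    rw [hQ.smul] at hQa
    rcases mul_eq_zero.mp hQa with h | h
    · apply ha0
      rw [pow_eq_zero_iff two_ne_zero] at h
      rw [h, zero_smul]
    · exact hQu h
  obtain ⟨f, hf, huf, haf⟩ := hR.exists_sep hQ ha1.1 hu hau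
  obtain ⟨b, hb, hab⟩ := exists_partner_of hQ ha ((mem_Ort hQ).mpr ⟨hf, huf⟩) hQa haf
  exact ⟨b, hb, hab⟩

/-- From `s ∉ F u`, all of `u^⊥` lies in `S`, odd characteristic. -/
theorem U_sub_odd (h2 : (2 : F) ≠ 0) {W : Submodule F (ι → F)} (hW : Nd Q W) (hdim : 5 ≤ Module.finrank F W)
    (S : AddSubgroup (ι → F)) {u s : ι → F} (hu : u ∈ W) (hQu : Q u ≠ 0) (hsW : s ∈ W)
    (hs : s ∈ S) (hsu : s ∉ Submodule.span F {u})
    (hinv : ∀ a c, a ∈ W → c ∈ W → Q a = 0 → pol Q a c = 0 → pol Q u a = 0 → pol Q u c = 0 →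
      ∀ y ∈ S, eE Q a c y ∈ S) :
    ∀ x ∈ W, pol Q u x = 0 → x ∈ S := by
  have hu0 : u ≠ 0 := by
    rintro rfl
    exact hQu (Q_zero hQ)
  obtain ⟨a₀, ha₀, b₀, hb₀, hab₀⟩ := exists_hyp_ort_ns hQ hW (by omega) hu hQu
  obtain ⟨f, hf, huf, hsf⟩ := hW.exists_sep hQ hsW hu hsu
  obtain ⟨a, ha, hQa, hsa⟩ := exists_singular_pol_ne hQ ha₀ hb₀ hab₀ ((mem_Ort hQ).mpr ⟨hf, huf⟩) hsf
  have ha0 : a ≠ 0 := by
    rintro rfl
    exact hsa (pol_zero_right hQ _)
  obtain ⟨p, hp, hap⟩ := exists_partner_ns hQ hW hu hQu ha ha0 hQa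
  have haW := ((mem_Ort hQ).mp ha).1
  have hua := ((mem_Ort hQ).mp ha).2
  have hpW := ((mem_Ort hQ).mp hp).1
  have hup := ((mem_Ort hQ).mp hp).2
  -- the orthogonal complement of `a, p, u`
  set W' := Ort hQ (Ort hQ W a) p with hW'
  have hW'nd : Nd Q W' := Nd_ort2 hQ hW haW hpW hap
  have huW' : u ∈ W' := by
    rw [hW', mem_Ort hQ, mem_Ort hQ]
    exact ⟨⟨hu, by rw [pol_symm hQ, hua]⟩, by rw [pol_symm hQ, hup]⟩
  have hR'nd : Nd Q (Ort hQ W' u) := Nd_ort_odd hQ h2 hW'nd huW' hQu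
  have hdim1 := finrank_Ort hQ W a
  have hdim2 : Module.finrank F (Ort hQ W a) ≤ Module.finrank F W' + 1 := finrank_Ort hQ (Ort hQ W a) p
  have hdim3 := finrank_Ort hQ W' u
  obtain ⟨c, hc, hQc⟩ := exists_nonsingular hQ hR'nd (by omega)
  have hmemR : ∀ {d}, d ∈ Ort hQ W' u → d ∈ W ∧ pol Q a d = 0 ∧ pol Q p d = 0 ∧ pol Q u d = 0 := by
    intro d hd
    rw [mem_Ort hQ, hW', mem_Ort hQ, mem_Ort hQ] at hd
    exact ⟨hd.1.1.1, hd.1.1.2, hd.1.2, hd.2⟩
  obtain ⟨hcW, hac, hpc, huc⟩ := hmemR hc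
  -- `F a ⊆ S`
  have hFa : ∀ r : F, r • a ∈ S := by
    have hw : ∀ t : F, (t * pol Q s c) • a - (t * pol Q s a) • c - ((t ^ 2 * Q c) * pol Q s a) • a ∈ S := by
      intro t
      rw [← eE_param hQ]
      refine S.sub_mem (hinv a (t • c) haW (W.smul_mem _ hcW) hQa ?_ hua ?_ s hs) hs
      · rw [pol_smul_right hQ, hac, mul_zero]
      · rw [pol_smul_right hQ, huc, mul_zero]
    intro r
    have hβ : 2 * Q c * pol Q s a ≠ 0 := mul_ne_zero (mul_ne_zero h2 hQc) hsa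
    set t := r / (2 * Q c * pol Q s a) with ht
    have h3 := S.sub_mem (S.add_mem (hw t) (hw 1)) (hw (t + 1))
    have e : r = 2 * t * 1 * Q c * pol Q s a := by
      rw [ht]
      field_simp
    have e2 : ((t * pol Q s c) • a - (t * pol Q s a) • c - ((t ^ 2 * Q c) * pol Q s a) • a +
        ((1 * pol Q s c) • a - (1 * pol Q s a) • c - ((1 ^ 2 * Q c) * pol Q s a) • a)) -
        (((t + 1) * pol Q s c) • a - ((t + 1) * pol Q s a) • c - (((t + 1) ^ 2 * Q c) * pol Q s a) • a)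
        = r • a := by
      rw [e]
      module
    rwa [e2] at h3
  have happ : pol Q a p = 1 := hap.hab
  -- elements of the complement
  have hy : ∀ (r : F) (d : ι → F), d ∈ Ort hQ W' u → r • (d + Q d • p) ∈ S := by
    intro r d hd
    obtain ⟨hdW, had, hpd, hud⟩ := hmemR hd
    have h3 := S.sub_mem (hinv p d hpW hdW hap.hb hpd hup hud _ (hFa r)) (hFa r)
    have e : eE Q p d (r • a) - r • a = - (r • (d + Q d • p)) := by
      unfold eE
      rw [pol_smul_left hQ, pol_smul_left hQ, had, happ]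
      module
    rw [e] at h3
    simpa using S.neg_mem h3
  have hnegmem : ∀ {d}, d ∈ Ort hQ W' u → -d ∈ Ort hQ W' u := fun hd => (Ort hQ W' u).neg_mem hd
  have hFp : ∀ r : F, r • p ∈ S := by
    intro r
    have h3 := S.add_mem (hy (r / (2 * Q c)) c hc) (hy (r / (2 * Q c)) (-c) (hnegmem hc))
    have e0 : Q (-c) = Q c := by
      have := hQ.smul (-1) c
      simpa using this
    have e : (r / (2 * Q c)) • (c + Q c • p) + (r / (2 * Q c)) • (-c + Q (-c) • p) = r • p := by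
      rw [e0, ← smul_add]
      have e1 : c + Q c • p + (-c + Q c • p) = (2 * Q c) • p := by
        rw [two_mul, add_smul]
        abel
      rw [e1, smul_smul]
      congr 1
      field_simp
    rwa [e] at h3
  have hFd : ∀ (r : F) (d : ι → F), d ∈ Ort hQ W' u → r • d ∈ S := by
    intro r d hd
    have h3 := S.sub_mem (hy r d hd) (hFp (r * Q d))
    have e : r • (d + Q d • p) - (r * Q d) • p = r • d := by
      module
    rwa [e] at h3
  intro x hx hux
  have h5 : x = pol Q x p • a + pol Q x a • p + (1 : F) • (x - pol Q x p • a - pol Q x a • p) := by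
    module
  rw [h5]
  refine S.add_mem (S.add_mem (hFa _) (hFp _)) (hFd _ _ ?_)
  obtain ⟨h6, h7⟩ := proj_perp hQ hap x
  rw [mem_Ort hQ, hW', mem_Ort hQ, mem_Ort hQ]
  refine ⟨⟨⟨W.sub_mem (W.sub_mem hx (W.smul_mem _ haW)) (W.smul_mem _ hpW), h6⟩, h7⟩, ?_⟩
  rw [pol_sub_right hQ, pol_sub_right hQ, pol_smul_right hQ, pol_smul_right hQ, hux, hua, hup]
  ring

/-- From `s ∉ F u`, all of `u^⊥` lies in `S`, dimension at least six. -/
theorem U_sub_six {W : Submodule F (ι → F)} (hW : Nd Q W) (hdim : 6 ≤ Module.finrank F W)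
    (S : AddSubgroup (ι → F)) {u s : ι → F} (hu : u ∈ W) (hQu : Q u ≠ 0) (hsW : s ∈ W)
    (hs : s ∈ S) (hsu : s ∉ Submodule.span F {u})
    (hinv : ∀ a c, a ∈ W → c ∈ W → Q a = 0 → pol Q a c = 0 → pol Q u a = 0 → pol Q u c = 0 →
      ∀ y ∈ S, eE Q a c y ∈ S) :
    ∀ x ∈ W, pol Q u x = 0 → x ∈ S := by
  have hu0 : u ≠ 0 := by
    rintro rfl
    exact hQu (Q_zero hQ)
  obtain ⟨a₀, ha₀, b₀, hb₀, hab₀⟩ := exists_hyp_ort_ns hQ hW (by omega) hu hQu
  obtain ⟨f, hf, huf, hsf⟩ := hW.exists_sep hQ hsW hu hsu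
  obtain ⟨c, hc, hQc, hsc⟩ := exists_singular_pol_ne hQ ha₀ hb₀ hab₀ ((mem_Ort hQ).mpr ⟨hf, huf⟩) hsf
  have hcW := ((mem_Ort hQ).mp hc).1
  have huc := ((mem_Ort hQ).mp hc).2
  have hd1 := finrank_Ort hQ W u
  have hd2 := finrank_Ort hQ (Ort hQ W u) c
  have hd3 := finrank_Ort hQ (Ort hQ (Ort hQ W u) c) s
  obtain ⟨a, ha, ha0, hQa⟩ := exists_singular hQ (Ort hQ (Ort hQ (Ort hQ W u) c) s) (by omega)
  rw [mem_Ort hQ, mem_Ort hQ, mem_Ort hQ] at ha
  obtain ⟨⟨⟨haW, hua⟩, hca⟩, hsa⟩ := ha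
  have hac : pol Q a c = 0 := by rw [pol_symm hQ, hca]
  have hsa' : pol Q s a = 0 := hsa
  -- `F a ⊆ S`
  have hFa : ∀ r : F, r • a ∈ S := by
    intro r
    have h3 := S.sub_mem (hinv a ((r / pol Q s c) • c) haW (W.smul_mem _ hcW) hQa
      (by rw [pol_smul_right hQ, hac, mul_zero]) hua (by rw [pol_smul_right hQ, huc, mul_zero]) s hs) hs
    rw [eE_param hQ, hsa'] at h3
    have e : ((r / pol Q s c) * pol Q s c) • a - ((r / pol Q s c) * 0) • c -
        (((r / pol Q s c) ^ 2 * Q c) * 0) • a = r • a := by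
      rw [div_mul_cancel₀ _ hsc]
      simp
    rwa [e] at h3
  -- the basic step
  have key : ∀ a p : ι → F, a ∈ Ort hQ W u → p ∈ Ort hQ W u → Hyp Q a p → (∀ r : F, r • a ∈ S) →
      ∀ d ∈ Ort hQ W u, pol Q a d = 0 → pol Q p d = 0 → Q d = 0 → ∀ r : F, r • d ∈ S := by
    intro a p ha hp hap hFa d hd had hpd hQd r
    obtain ⟨haW, hua⟩ := (mem_Ort hQ).mp ha
    obtain ⟨hpW, hup⟩ := (mem_Ort hQ).mp hp
    obtain ⟨hdW, hud⟩ := (mem_Ort hQ).mp hd
    have h3 := S.neg_mem (S.sub_mem (hinv p d hpW hdW hap.hb hpd hup hud _ (hFa r)) (hFa r))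
    have e : -(eE Q p d (r • a) - r • a) = r • d := by
      unfold eE
      rw [pol_smul_left hQ, pol_smul_left hQ, had, hap.hab, hQd]
      module
    rwa [e] at h3
  have ha' : a ∈ Ort hQ W u := (mem_Ort hQ).mpr ⟨haW, hua⟩
  obtain ⟨p, hp, hap⟩ := exists_partner_ns hQ hW hu hQu ha' ha0 hQa
  have hpW := ((mem_Ort hQ).mp hp).1
  have hup := ((mem_Ort hQ).mp hp).2
  -- a hyperbolic pair `d, d'` orthogonal to `a, p, u`
  set W' := Ort hQ (Ort hQ W a) p with hW'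
  have hW'nd : Nd Q W' := Nd_ort2 hQ hW haW hpW hap
  have huW' : u ∈ W' := by
    rw [hW', mem_Ort hQ, mem_Ort hQ]
    exact ⟨⟨hu, by rw [pol_symm hQ, hua]⟩, by rw [pol_symm hQ, hup]⟩
  have hdim1 := finrank_Ort hQ W a
  have hdim2 : Module.finrank F (Ort hQ W a) ≤ Module.finrank F W' + 1 := finrank_Ort hQ (Ort hQ W a) p
  obtain ⟨d, hd, d', hd', hdd'⟩ := exists_hyp_ort_ns hQ hW'nd (by omega) huW' hQu
  have hmemR : ∀ {x}, x ∈ Ort hQ W' u → x ∈ Ort hQ W u ∧ pol Q a x = 0 ∧ pol Q p x = 0 := by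
    intro x hx
    rw [mem_Ort hQ, hW', mem_Ort hQ, mem_Ort hQ] at hx
    exact ⟨(mem_Ort hQ).mpr ⟨hx.1.1.1, hx.2⟩, hx.1.1.2, hx.1.2⟩
  obtain ⟨hdU, had, hpd⟩ := hmemR hd
  obtain ⟨hd'U, had', hpd'⟩ := hmemR hd'
  have hFd : ∀ r : F, r • d ∈ S := key a p ha' hp hap hFa d hdU had hpd hdd'.ha
  have hFp : ∀ r : F, r • p ∈ S :=
    key d d' hdU hd'U hdd' hFd p hp (by rw [pol_symm hQ, hpd]) (by rw [pol_symm hQ, hpd']) hap.hb
  have hFx : ∀ x ∈ Ort hQ W' u, ∀ r : F, r • x ∈ S := by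
    intro x hx
    have hs := span_singular hQ hd hd' hdd' hx
    clear hx
    induction hs using Submodule.span_induction with
    | mem y hy =>
      intro r
      obtain ⟨h1, h2, h3⟩ := hmemR hy.1
      exact key a p ha' hp hap hFa y h1 h2 h3 hy.2 r
    | zero =>
      intro r
      simp
    | add y z hy hz iy iz =>
      intro r
      rw [smul_add]
      exact S.add_mem (iy r) (iz r)
    | smul t y hy iy =>
      intro r
      rw [smul_smul]
      exact iy _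
  intro x hx hux
  have h5 : x = pol Q x p • a + pol Q x a • p + (1 : F) • (x - pol Q x p • a - pol Q x a • p) := by
    module
  rw [h5]
  refine S.add_mem (S.add_mem (hFa _) (hFp _)) (hFx _ ?_ _)
  obtain ⟨h6, h7⟩ := proj_perp hQ hap x
  rw [mem_Ort hQ, hW', mem_Ort hQ, mem_Ort hQ]
  refine ⟨⟨⟨W.sub_mem (W.sub_mem hx (W.smul_mem _ haW)) (W.smul_mem _ hpW), h6⟩, h7⟩, ?_⟩
  rw [pol_sub_right hQ, pol_sub_right hQ, pol_smul_right hQ, pol_smul_right hQ, hux, hua, hup]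
  ring

/-- **Case A**. -/
theorem caseA {W : Submodule F (ι → F)} (hW : Nd Q W) (hdim : 5 ≤ Module.finrank F W)
    (hdim' : (2 : F) = 0 → 6 ≤ Module.finrank F W)
    (S : AddSubgroup (ι → F)) (hSW : ∀ x ∈ S, x ∈ W)
    (hinv : ∀ u ∈ S, Q u ≠ 0 → ∀ a c, a ∈ W → c ∈ W → Q a = 0 → pol Q a c = 0 → pol Q u a = 0 → pol Q u c = 0 →
      ∀ y ∈ S, eE Q a c y ∈ S) {u : ι → F} (hu : u ∈ S) (hQu : Q u ≠ 0) :
    (∀ x ∈ S, x ∈ Submodule.span F {u}) ∨ ∀ x ∈ W, x ∈ S := by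
  by_contra hcon
  push Not at hcon
  obtain ⟨⟨s, hs, hsu⟩, x, hx, hxS⟩ := hcon
  have hmain : ∀ u s : ι → F, u ∈ S → Q u ≠ 0 → s ∈ S → s ∉ Submodule.span F {u} →
      ∀ x ∈ W, pol Q u x = 0 → x ∈ S := by
    intro u s hu hQu hs hsu
    by_cases h2 : (2 : F) = 0
    · exact U_sub_six hQ hW (hdim' h2) S (hSW _ hu) hQu (hSW _ hs) hs hsu (hinv u hu hQu)
    · exact U_sub_odd hQ h2 hW hdim S (hSW _ hu) hQu (hSW _ hs) hs hsu (hinv u hu hQu)
  have huW := hSW _ hu
  have hU := hmain u s hu hQu hs hsu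
  obtain ⟨a, ha, b, hb, hab⟩ := exists_hyp_ort_ns hQ hW (by omega) huW hQu
  obtain ⟨haW, hua⟩ := (mem_Ort hQ).mp ha
  have haS : a ∈ S := hU a haW hua
  have hau : a ∉ Submodule.span F {u} := by
    intro hm
    obtain ⟨t, ht⟩ := Submodule.mem_span_singleton.mp hm
    have h1 := hab.ha
    rw [← ht, hQ.smul] at h1
    have h3 : t = 0 := by
      rcases mul_eq_zero.mp h1 with h | h
      · exact (pow_eq_zero_iff two_ne_zero).mp h
      · exact absurd h hQu
    have h4 : a = 0 := by rw [← ht, h3, zero_smul]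
    have h5 := hab.hab
    rw [h4, pol_zero_left hQ] at h5
    exact zero_ne_one h5
  set u' := u + a with hu'
  have hu'S : u' ∈ S := S.add_mem hu haS
  have hQu' : Q u' ≠ 0 := by
    rw [hu', Q_add hQ, hab.ha, hua]
    simpa using hQu
  have huu' : u ∉ Submodule.span F {u'} := by
    intro hm
    obtain ⟨t, ht⟩ := Submodule.mem_span_singleton.mp hm
    apply hau
    have ht0 : t ≠ 0 := by
      rintro rfl
      apply hQu
      rw [← ht, zero_smul, Q_zero hQ]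
    have e : a = (t⁻¹ - 1) • u := by
      have : t⁻¹ • u = u' := by
        rw [← ht, smul_smul, inv_mul_cancel₀ ht0, one_smul]
      rw [sub_smul, this, hu', one_smul]
      abel
    rw [e]
    exact Submodule.smul_mem _ _ (Submodule.mem_span_singleton_self u)
  have hU' := hmain u' u hu'S hQu' hu huu'
  have hu'u : u' ∉ Submodule.span F {u} := by
    intro hm
    apply hau
    have : a = u' - u := by rw [hu']; abel
    rw [this]
    exact Submodule.sub_mem _ hm (Submodule.mem_span_singleton_self u)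
  obtain ⟨f, hf, huf, hu'f⟩ := hW.exists_sep hQ (W.add_mem huW haW) huW hu'u
  apply hxS
  have h1 : x - (pol Q u' x / pol Q u' f) • f ∈ S := by
    apply hU' _ (W.sub_mem hx (W.smul_mem _ hf))
    rw [pol_sub_right hQ, pol_smul_right hQ]
    have hne : pol Q u' f ≠ 0 := hu'f
    field_simp
    ring
  have h2 : (pol Q u' x / pol Q u' f) • f ∈ S := by
    apply hU _ (W.smul_mem _ hf)
    rw [pol_smul_right hQ, huf, mul_zero]
  have h3 := S.add_mem h1 h2
  simpa using h3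

end Cfsg.Agent.Lib.MinOmega
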