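/-
Families of totally singular additive subgroups invariant under Eichler moves: a covering bound for the number of
members through a given singular vector.
-/
import Cfsg.Agent.Lib.MinOmega.CaseA
set_option autoImplicit false

namespace Cfsg.Agent.Lib.MinOmega

open Cfsg Cfsg.Geo Cfsg.Agent.Lib.Geo.Basic Cfsg.Agent.Lib.Geo.QForm Cfsg.Agent.Lib.GeoOmega.Basic
open Cfsg.Agent.Lib.GeoOmega.Eichler
open scoped MatrixGroups Matrix

variable {ι : Type} [Fintype ι] [DecidableEq ι] {F : Type*} [Field F] {Q : (ι → F) → F}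
variable (hQ : IsNondegenerateQuadraticForm Q)
include hQ

/-- Transitivity on singular points. -/
theorem points_trans {R : Submodule F (ι → F)} (hR : Nd Q R) (hdim : 3 ≤ Module.finrank F R) (P : (ι → F) → Prop)
    (hP : ∀ a c x, a ∈ R → c ∈ R → x ∈ R → Q a = 0 → pol Q a c = 0 → P x → P (eE Q a c x))
    (hS : ∀ (t : F) x, t ≠ 0 → P x → P (t • x)) {y₁ y₂ : ι → F} (h₁ : y₁ ∈ R) (h₂ : y₂ ∈ R) (h₁0 : y₁ ≠ 0)
    (h₂0 : y₂ ≠ 0) (hQ₁ : Q y₁ = 0) (hQ₂ : Q y₂ = 0) (hy : P y₁) : P y₂ := by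
  -- enough: a singular vector opposite to both
  have key : ∀ p, p ∈ R → Q p = 0 → pol Q p y₁ ≠ 0 → pol Q p y₂ ≠ 0 → P y₂ := by
    intro p hp hQp h1 h2
    set t := pol Q p y₁ / pol Q p y₂ with ht
    have ht0 : t ≠ 0 := div_ne_zero h1 h2
    have hpt : pol Q p (t • y₂) = pol Q p y₁ := by
      rw [pol_smul_right hQ, ht]
      field_simp
    have hQt : Q y₁ = Q (t • y₂) := by rw [hQ.smul, hQ₁, hQ₂, mul_zero]
    obtain ⟨h3, h4⟩ := eE_move hQ hQp hQt hpt.symm h1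
    have h5 := hP p _ y₁ hp (R.smul_mem _ (R.sub_mem h₁ (R.smul_mem _ h₂))) h₁ hQp h3 hy
    rw [h4] at h5
    have h6 := hS t⁻¹ _ (inv_ne_zero ht0) h5
    rwa [smul_smul, inv_mul_cancel₀ ht0, one_smul] at h6
  by_cases h12 : pol Q y₁ y₂ = 0
  · obtain ⟨e, he, hyp⟩ := hR.exists_partner hQ h₁ h₁0 hQ₁
    have h1e : pol Q e y₁ ≠ 0 := by
      rw [pol_symm hQ, hyp.hab]
      exact one_ne_zero
    by_cases h2e : pol Q e y₂ = 0
    · have hmem : y₂ ∈ Ort hQ (Ort hQ R y₁) e := by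
        rw [mem_Ort hQ, mem_Ort hQ]
        exact ⟨⟨h₂, h12⟩, h2e⟩
      obtain ⟨f, hf, hyp2⟩ := (Nd_ort2 hQ hR h₁ he hyp).exists_partner hQ hmem h₂0 hQ₂
      rw [mem_Ort hQ, mem_Ort hQ] at hf
      obtain ⟨⟨hfR, h1f⟩, hef⟩ := hf
      refine key (e + f) (R.add_mem he hfR) ?_ ?_ ?_
      · rw [Q_add hQ, hyp.hb, hyp2.hb, hef]
        ring
      · rw [pol_add_left hQ, pol_symm hQ f y₁, h1f, add_zero]
        exact h1e
      · rw [pol_add_left hQ, h2e, zero_add, pol_symm hQ, hyp2.hab]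
        exact one_ne_zero
    · exact key e he hyp.hb h1e h2e
  · -- opposite vectors: a third point
    have hyp : Hyp Q y₁ ((pol Q y₁ y₂)⁻¹ • y₂) := by
      refine ⟨hQ₁, by rw [hQ.smul, hQ₂, mul_zero], ?_⟩
      rw [pol_smul_right hQ, inv_mul_cancel₀ h12]
    have hnd := Nd_ort2 hQ hR h₁ (R.smul_mem _ h₂) hyp
    have hd1 := finrank_Ort hQ R y₁
    have hd2 := finrank_Ort hQ (Ort hQ R y₁) ((pol Q y₁ y₂)⁻¹ • y₂)
    obtain ⟨d, hd, hQd⟩ := exists_nonsingular hQ hnd (by omega)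
    rw [mem_Ort hQ, mem_Ort hQ] at hd
    obtain ⟨⟨hdR, h1d⟩, h2d⟩ := hd
    rw [pol_smul_left hQ] at h2d
    have h2d' : pol Q y₂ d = 0 := by
      rcases mul_eq_zero.mp h2d with h | h
      · exact absurd h (inv_ne_zero h12)
      · exact h
    set β := - Q d / pol Q y₁ y₂ with hβ
    have hβ0 : β ≠ 0 := div_ne_zero (neg_ne_zero.mpr hQd) h12
    refine key (y₁ + β • y₂ + d) (R.add_mem (R.add_mem h₁ (R.smul_mem _ h₂)) hdR) ?_ ?_ ?_
    · rw [Q_add hQ, Q_add hQ, hQ.smul, hQ₁, hQ₂, pol_smul_right hQ, pol_add_left hQ, pol_smul_left hQ, h1d, h2d', hβ]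
      field_simp
      ring
    · rw [pol_add_left hQ, pol_add_left hQ, pol_singular hQ hQ₁, pol_smul_left hQ, pol_symm hQ y₂ y₁,
        pol_symm hQ d y₁, h1d]
      simpa using mul_ne_zero hβ0 h12
    · rw [pol_add_left hQ, pol_add_left hQ, pol_smul_left hQ, pol_singular hQ hQ₂, pol_symm hQ d y₂, h2d']
      simpa using h12

/-- Mutually orthogonal singular vectors span a totally singular subspace. -/
theorem ts_span {A : Set (ι → F)} (h1 : ∀ x ∈ A, Q x = 0) (h2 : ∀ x ∈ A, ∀ y ∈ A, pol Q x y = 0) :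
    ∀ x ∈ Submodule.span F A, Q x = 0 := by
  have h3 : ∀ x ∈ Submodule.span F A, ∀ y ∈ A, pol Q x y = 0 := by
    intro x hx y hy
    induction hx using Submodule.span_induction with
    | mem z hz => exact h2 z hz y hy
    | zero => exact pol_zero_left hQ _
    | add a b _ _ ha hb => rw [pol_add_left hQ, ha, hb, add_zero]
    | smul c a _ ha => rw [pol_smul_left hQ, ha, mul_zero]
  have h4 : ∀ x ∈ Submodule.span F A, ∀ y ∈ Submodule.span F A, pol Q x y = 0 := by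
    intro x hx y hy
    induction hy using Submodule.span_induction with
    | mem z hz => exact h3 x hx z hz
    | zero => exact pol_zero_right hQ _
    | add a b _ _ ha hb => rw [pol_add_right hQ, ha, hb, add_zero]
    | smul c a _ ha => rw [pol_smul_right hQ, ha, mul_zero]
  intro x hx
  induction hx using Submodule.span_induction with
  | mem z hz => exact h1 z hz
  | zero => exact Q_zero hQ
  | add a b ha hb iha ihb => rw [Q_add hQ, iha, ihb, h4 a ha b hb]; ring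
  | smul c a _ ha => rw [hQ.smul, ha, mul_zero]

open scoped _root_.Classical

variable [Fintype F]

omit hQ in
/-- The number of non-zero vectors of a subspace of bounded dimension. -/
theorem card_sub_le (T : Submodule F (ι → F)) {w : ℕ} (hw : Module.finrank F T ≤ w) (B : Finset (ι → F))
    (hB : ∀ y ∈ B, y ∈ T ∧ y ≠ 0) : B.card ≤ (Fintype.card F) ^ w - 1 := by
  have hq : 1 ≤ Fintype.card F := Fintype.card_pos
  have h1 : (Finset.univ.filter (· ∈ T)).card = Fintype.card F ^ Module.finrank F T := by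
    rw [← Module.card_eq_pow_finrank (K := F) (V := T)]
    rw [Fintype.card_subtype]
  have h2 : (insert (0 : ι → F) B).card ≤ (Finset.univ.filter (· ∈ T)).card := by
    apply Finset.card_le_card
    intro y hy
    rw [Finset.mem_insert] at hy
    rcases hy with rfl | hy
    · simp
    · simp [(hB y hy).1]
  have h3 : (insert (0 : ι → F) B).card = B.card + 1 := by
    apply Finset.card_insert_of_notMem
    intro h
    exact (hB _ h).2 rfl
  have h4 : Fintype.card F ^ Module.finrank F T ≤ Fintype.card F ^ w := Nat.pow_le_pow_right hq hw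
  omega

/-- **Covering bound.** -/
theorem covering {W : Submodule F (ι → F)} (𝓞 : Finset (Finset (ι → F)))
    (hWadd : ∀ S ∈ 𝓞, ∀ x ∈ S, ∀ y ∈ S, x + y ∈ S)
    (hWmem : ∀ S ∈ 𝓞, ∀ x ∈ S, x ∈ W ∧ Q x = 0)
    (hinv : ∀ a c, a ∈ W → c ∈ W → Q a = 0 → pol Q a c = 0 → ∀ S ∈ 𝓞, S.image (eE Q a c) ∈ 𝓞)
    (hW : Nd Q W) {u u' : ι → F} (hu : u ∈ W) (hu' : u' ∈ W) (huu : Hyp Q u u')
    (hdim : 3 ≤ Module.finrank F (Ort hQ (Ort hQ W u) u'))
    {S₀ : Finset (ι → F)} (hS₀ : S₀ ∈ 𝓞) (huS₀ : u ∈ S₀) {e₀ : ι → F} (he₀ : e₀ ∈ S₀)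
    (he₀u : e₀ ∉ Submodule.span F {u})
    {w : ℕ} (hTS : ∀ T : Submodule F (ι → F), T ≤ Ort hQ (Ort hQ W u) u' → (∀ x ∈ T, Q x = 0) → Module.finrank F T ≤ w) :
    (Finset.univ.filter fun y => y ∈ Ort hQ (Ort hQ W u) u' ∧ y ≠ 0 ∧ Q y = 0).card ≤
      (𝓞.filter fun S => u ∈ S).card * ((Fintype.card F) ^ w - 1) := by
  set W₂ := Ort hQ (Ort hQ W u) u' with hW₂
  have hmemW₂ : ∀ {x}, x ∈ W₂ ↔ (x ∈ W ∧ pol Q u x = 0) ∧ pol Q u' x = 0 := by
    intro x
    rw [hW₂, mem_Ort hQ, mem_Ort hQ]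
  have hsub : W₂ ≤ W := fun x hx => (hmemW₂.mp hx).1.1
  have hpolS : ∀ S ∈ 𝓞, ∀ x ∈ S, ∀ y ∈ S, pol Q x y = 0 := by
    intro S hS x hx y hy
    have h1 := Q_add hQ x y
    rw [(hWmem S hS _ (hWadd S hS x hx y hy)).2, (hWmem S hS x hx).2, (hWmem S hS y hy).2] at h1
    linear_combination -h1
  set π : (ι → F) → (ι → F) := fun e => e - pol Q e u' • u with hπ
  have hπmem : ∀ S ∈ 𝓞, u ∈ S → ∀ e ∈ S, π e ∈ W₂ := by
    intro S hS huS e he
    rw [hmemW₂]
    have h1 := hpolS S hS u huS e he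
    have hu'u : pol Q u' u = 1 := by rw [pol_symm hQ, huu.hab]
    refine ⟨⟨W.sub_mem (hWmem S hS e he).1 (W.smul_mem _ hu), ?_⟩, ?_⟩
    · simp only [hπ]
      rw [pol_sub_right hQ, pol_smul_right hQ, pol_singular hQ huu.ha, h1]
      ring
    · simp only [hπ]
      rw [pol_sub_right hQ, pol_smul_right hQ, hu'u, pol_symm hQ u' e]
      ring
  have hπQ : ∀ S ∈ 𝓞, u ∈ S → ∀ e ∈ S, Q (π e) = 0 := by
    intro S hS huS e he
    simp only [hπ]
    rw [Q_sub_smul hQ _ _ _ huu.ha, (hWmem S hS e he).2, pol_symm hQ e u, hpolS S hS u huS e he]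
    ring
  have hπpol : ∀ S ∈ 𝓞, u ∈ S → ∀ e ∈ S, ∀ e' ∈ S, pol Q (π e) (π e') = 0 := by
    intro S hS huS e he e' he'
    simp only [hπ]
    rw [pol_sub_left hQ, pol_sub_right hQ, pol_sub_right hQ, pol_smul_left hQ, pol_smul_left hQ,
      pol_smul_right hQ, pol_smul_right hQ, pol_singular hQ huu.ha, hpolS S hS e he e' he',
      pol_symm hQ e u, hpolS S hS u huS e he, hpolS S hS u huS e' he']
    ring
  -- the cover
  set Cov : Finset (ι → F) → Finset (ι → F) := fun S =>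
    Finset.univ.filter fun y => y ∈ W₂ ∧ y ≠ 0 ∧ Q y = 0 ∧ ∃ e ∈ S, ∃ t : F, t ≠ 0 ∧ π e = t • y with hCov
  have hCovCard : ∀ S ∈ 𝓞.filter (fun S => u ∈ S), (Cov S).card ≤ Fintype.card F ^ w - 1 := by
    intro S hS
    rw [Finset.mem_filter] at hS
    obtain ⟨hS, huS⟩ := hS
    set T := Submodule.span F (π '' (S : Set (ι → F))) with hT
    have hTle : T ≤ W₂ := by
      rw [hT, Submodule.span_le]
      rintro _ ⟨e, he, rfl⟩
      exact hπmem S hS huS e he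
    have hTS' : ∀ x ∈ T, Q x = 0 := by
      apply ts_span hQ
      · rintro _ ⟨e, he, rfl⟩
        exact hπQ S hS huS e he
      · rintro _ ⟨e, he, rfl⟩ _ ⟨e', he', rfl⟩
        exact hπpol S hS huS e he e' he'
    apply card_sub_le T (hTS T hTle hTS')
    intro y hy
    simp only [hCov, Finset.mem_filter, Finset.mem_univ, true_and] at hy
    obtain ⟨_, hy0, _, e, he, t, ht, hety⟩ := hy
    refine ⟨?_, hy0⟩
    have : y = t⁻¹ • π e := by rw [hety, smul_smul, inv_mul_cancel₀ ht, one_smul]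
    rw [this]
    exact T.smul_mem _ (Submodule.subset_span ⟨e, he, rfl⟩)
  -- everything is covered
  have hfix : ∀ a c, a ∈ W₂ → c ∈ W₂ → eE Q a c u = u ∧ eE Q a c u' = u' := by
    intro a c ha hc
    have ha' := hmemW₂.mp ha
    have hc' := hmemW₂.mp hc
    constructor
    · exact eE_fix ha'.1.2 hc'.1.2
    · exact eE_fix ha'.2 hc'.2
  have hall : ∀ y, y ∈ W₂ → y ≠ 0 → Q y = 0 → ∃ S ∈ 𝓞, u ∈ S ∧ ∃ e ∈ S, ∃ t : F, t ≠ 0 ∧ π e = t • y := by
    intro y hy hy0 hQy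
    set P : (ι → F) → Prop := fun y => ∃ S ∈ 𝓞, u ∈ S ∧ ∃ e ∈ S, ∃ t : F, t ≠ 0 ∧ π e = t • y with hP
    have hnd : Nd Q W₂ := Nd_ort2 hQ hW hu hu' huu
    have hy₀ : π e₀ ∈ W₂ := hπmem S₀ hS₀ huS₀ e₀ he₀
    have hy₀0 : π e₀ ≠ 0 := by
      intro h
      apply he₀u
      have : e₀ = pol Q e₀ u' • u := sub_eq_zero.mp h
      rw [this]
      exact Submodule.smul_mem _ _ (Submodule.mem_span_singleton_self u)
    refine points_trans hQ hnd hdim P ?_ ?_ hy₀ hy hy₀0 hy0 (hπQ S₀ hS₀ huS₀ e₀ he₀) hQy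
      ⟨S₀, hS₀, huS₀, e₀, he₀, 1, one_ne_zero, by simp⟩
    · rintro a c x ha hc hx hQa hac ⟨S, hS, huS, e, he, t, ht, hety⟩
      obtain ⟨h1, h2⟩ := hfix a c ha hc
      refine ⟨S.image (eE Q a c), hinv a c (hsub ha) (hsub hc) hQa hac S hS, ?_, eE Q a c e, ?_, t, ht, ?_⟩
      · rw [Finset.mem_image]
        exact ⟨u, huS, h1⟩
      · rw [Finset.mem_image]
        exact ⟨e, he, rfl⟩
      · rw [← eE_smul hQ, ← hety]
        simp only [hπ]
        rw [eE_sub hQ, eE_smul hQ, h1]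
        have h3 : pol Q (eE Q a c e) u' = pol Q e u' := by
          have := eE_pol hQ hQa hac e u'
          rwa [h2] at this
        rw [h3]
    · rintro s x hs ⟨S, hS, huS, e, he, t, ht, hety⟩
      refine ⟨S, hS, huS, e, he, t * s⁻¹, mul_ne_zero ht (inv_ne_zero hs), ?_⟩
      rw [hety, smul_smul]
      congr 1
      field_simp
  have hsubU : (Finset.univ.filter fun y => y ∈ W₂ ∧ y ≠ 0 ∧ Q y = 0) ⊆
      (𝓞.filter fun S => u ∈ S).biUnion Cov := by
    intro y hy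
    simp only [Finset.mem_filter, Finset.mem_univ, true_and] at hy
    obtain ⟨S, hS, huS, e, he, t, ht, hety⟩ := hall y hy.1 hy.2.1 hy.2.2
    rw [Finset.mem_biUnion]
    refine ⟨S, Finset.mem_filter.mpr ⟨hS, huS⟩, ?_⟩
    simp only [hCov, Finset.mem_filter, Finset.mem_univ, true_and]
    exact ⟨hy.1, hy.2.1, hy.2.2, e, he, t, ht, hety⟩
  calc _ ≤ ((𝓞.filter fun S => u ∈ S).biUnion Cov).card := Finset.card_le_card hsubU
    _ ≤ ∑ S ∈ 𝓞.filter (fun S => u ∈ S), (Cov S).card := Finset.card_biUnion_le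
    _ ≤ ∑ _S ∈ 𝓞.filter (fun S => u ∈ S), (Fintype.card F ^ w - 1) := Finset.sum_le_sum hCovCard
    _ = _ := by simp

end Cfsg.Agent.Lib.MinOmega
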