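/-
Annihilators of additive subgroups of a non-degenerate subspace with respect to an additive character of the field.
-/
import Cfsg.Agent.Lib.MinOmega.CaseB
set_option autoImplicit false

namespace Cfsg.Agent.Lib.MinOmega

open Cfsg Cfsg.Geo Cfsg.Agent.Lib.Geo.Basic Cfsg.Agent.Lib.Geo.QForm Cfsg.Agent.Lib.GeoOmega.Basic
open Cfsg.Agent.Lib.GeoOmega.Eichler
open scoped MatrixGroups Matrix
open scoped _root_.Classical

/-- The character sum over a finite set stable under translation. -/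
theorem sum_char_eq_zero {V : Type*} [AddCommMonoid V] (G : Finset V) (hG : ∀ g ∈ G, ∀ h ∈ G, g + h ∈ G)
    (χ : V → ℂ) (hχ : ∀ g h, χ (g + h) = χ g * χ h) {g₀ : V} (hg₀ : g₀ ∈ G) (hne : χ g₀ ≠ 1)
    (hinj : ∀ g h, g + g₀ = h + g₀ → g = h) : ∑ g ∈ G, χ g = 0 := by
  have himg : G.image (· + g₀) = G := by
    apply Finset.eq_of_subset_of_card_le
    · intro y hy
      obtain ⟨g, hg, rfl⟩ := Finset.mem_image.mp hy
      exact hG g hg g₀ hg₀
    · rw [Finset.card_image_of_injective]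
      exact fun a b h => hinj a b h
  have h1 : ∑ g ∈ G, χ g = ∑ g ∈ G, χ (g + g₀) := by
    conv_lhs => rw [← himg]
    rw [Finset.sum_image (fun a _ b _ h => hinj a b h)]
  have h2 : ∑ g ∈ G, χ (g + g₀) = χ g₀ * ∑ g ∈ G, χ g := by
    rw [Finset.mul_sum]
    exact Finset.sum_congr rfl fun g _ => by rw [hχ, mul_comm]
  rw [h2] at h1
  have h3 : (1 - χ g₀) * ∑ g ∈ G, χ g = 0 := by
    rw [sub_mul, one_mul, ← h1, sub_self]
  exact (mul_eq_zero.mp h3).resolve_left (sub_ne_zero.mpr hne.symm)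

variable {ι : Type} [Fintype ι] [DecidableEq ι] {F : Type*} [Field F] [Fintype F] {Q : (ι → F) → F}

/-- The annihilator in `W` of a set. -/
noncomputable def ann (Q : (ι → F) → F) (ψ : AddChar F ℂ) (W : Submodule F (ι → F)) (Y : Finset (ι → F)) :
    Finset (ι → F) :=
  Finset.univ.filter fun u => u ∈ W ∧ ∀ b ∈ Y, ψ (pol Q u b) = 1

/-- The vectors of `W` as a finset. -/
noncomputable def WF (W : Submodule F (ι → F)) : Finset (ι → F) := Finset.univ.filter (· ∈ W)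

theorem mem_ann {ψ : AddChar F ℂ} {W : Submodule F (ι → F)} {Y : Finset (ι → F)} {u : ι → F} :
    u ∈ ann Q ψ W Y ↔ u ∈ W ∧ ∀ b ∈ Y, ψ (pol Q u b) = 1 := by
  simp [ann]

@[simp] theorem mem_WF {W : Submodule F (ι → F)} {u : ι → F} : u ∈ WF W ↔ u ∈ W := by
  simp [WF]

variable (hQ : IsNondegenerateQuadraticForm Q)
include hQ

theorem ann_zero (ψ : AddChar F ℂ) (W : Submodule F (ι → F)) (Y : Finset (ι → F)) : (0 : ι → F) ∈ ann Q ψ W Y := by
  rw [mem_ann]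
  refine ⟨W.zero_mem, fun b _ => ?_⟩
  rw [pol_zero_left hQ, AddChar.map_zero_eq_one]

theorem ann_add (ψ : AddChar F ℂ) (W : Submodule F (ι → F)) (Y : Finset (ι → F)) {x y : ι → F}
    (hx : x ∈ ann Q ψ W Y) (hy : y ∈ ann Q ψ W Y) : x + y ∈ ann Q ψ W Y := by
  rw [mem_ann] at *
  refine ⟨W.add_mem hx.1 hy.1, fun b hb => ?_⟩
  rw [pol_add_left hQ, AddChar.map_add_eq_mul, hx.2 b hb, hy.2 b hb, one_mul]

theorem ann_neg (ψ : AddChar F ℂ) (W : Submodule F (ι → F)) (Y : Finset (ι → F)) {x : ι → F}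
    (hx : x ∈ ann Q ψ W Y) : -x ∈ ann Q ψ W Y := by
  rw [mem_ann] at *
  refine ⟨W.neg_mem hx.1, fun b hb => ?_⟩
  rw [pol_neg_left hQ, AddChar.map_neg_eq_inv, hx.2 b hb, inv_one]

/-- Size of the annihilator. -/
theorem card_mul_ann {ψ : AddChar F ℂ} (hψ : ∀ c : F, c ≠ 0 → ∃ t : F, ψ (t * c) ≠ 1) {W : Submodule F (ι → F)}
    (hW : Nd Q W) {Y : Finset (ι → F)} (hYW : ∀ b ∈ Y, b ∈ W) (hY0 : (0 : ι → F) ∈ Y)
    (hYadd : ∀ x ∈ Y, ∀ y ∈ Y, x + y ∈ Y) : Y.card * (ann Q ψ W Y).card = (WF W).card := by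
  have h1 : ∀ u ∈ WF W, ∑ b ∈ Y, ψ (pol Q u b) = if u ∈ ann Q ψ W Y then (Y.card : ℂ) else 0 := by
    intro u hu
    split_ifs with h
    · rw [mem_ann] at h
      rw [Finset.sum_congr rfl (fun b hb => h.2 b hb)]
      simp
    · rw [mem_ann] at h
      push Not at h
      obtain ⟨b, hb, hne⟩ := h (mem_WF.mp hu)
      refine sum_char_eq_zero Y hYadd (fun b => ψ (pol Q u b)) ?_ hb hne (fun _ _ h => add_right_cancel h)
      intro g h
      rw [pol_add_right hQ, AddChar.map_add_eq_mul]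
  have h2 : ∀ b ∈ Y, ∑ u ∈ WF W, ψ (pol Q u b) = if b = 0 then ((WF W).card : ℂ) else 0 := by
    intro b hb
    split_ifs with h
    · subst h
      simp [pol_zero_right hQ]
    · obtain ⟨y, hy, hby⟩ := hW b (hYW b hb) h
      obtain ⟨t, ht⟩ := hψ (pol Q b y) hby
      refine sum_char_eq_zero (WF W) ?_ (fun u => ψ (pol Q u b)) ?_ (g₀ := t • y) ?_ ?_ (fun _ _ h => add_right_cancel h)
      · intro g hg h hh
        rw [mem_WF] at *
        exact W.add_mem hg hh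
      · intro g h
        rw [pol_add_left hQ, AddChar.map_add_eq_mul]
      · rw [mem_WF]
        exact W.smul_mem _ hy
      · show ψ (pol Q (t • y) b) ≠ 1
        rwa [pol_smul_left hQ, pol_symm hQ y b]
  have h3 : ∑ u ∈ WF W, ∑ b ∈ Y, ψ (pol Q u b) = ((ann Q ψ W Y).card : ℂ) * Y.card := by
    rw [Finset.sum_congr rfl h1, Finset.sum_ite, Finset.sum_const, Finset.sum_const_zero, add_zero]
    have : (WF W).filter (· ∈ ann Q ψ W Y) = ann Q ψ W Y := by
      ext u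
      simp only [Finset.mem_filter, mem_WF, mem_ann]
      exact ⟨fun h => h.2, fun h => ⟨h.1, h⟩⟩
    rw [this]
    simp
  have h4 : ∑ b ∈ Y, ∑ u ∈ WF W, ψ (pol Q u b) = ((WF W).card : ℂ) := by
    rw [Finset.sum_congr rfl h2, Finset.sum_ite_eq' Y 0]
    simp [hY0]
  rw [Finset.sum_comm, h4] at h3
  have h5 : ((Y.card * (ann Q ψ W Y).card : ℕ) : ℂ) = ((WF W).card : ℕ) := by
    push_cast
    rw [h3]
    ring
  exact_mod_cast h5

/-- Double annihilator. -/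
theorem ann_ann {ψ : AddChar F ℂ} (hψ : ∀ c : F, c ≠ 0 → ∃ t : F, ψ (t * c) ≠ 1) {W : Submodule F (ι → F)}
    (hW : Nd Q W) {Y : Finset (ι → F)} (hYW : ∀ b ∈ Y, b ∈ W) (hY0 : (0 : ι → F) ∈ Y)
    (hYadd : ∀ x ∈ Y, ∀ y ∈ Y, x + y ∈ Y) : ann Q ψ W (ann Q ψ W Y) = Y := by
  have h1 := card_mul_ann hQ hψ hW hYW hY0 hYadd
  have h2 := card_mul_ann hQ hψ hW (Y := ann Q ψ W Y) (fun b hb => (mem_ann.mp hb).1) (ann_zero hQ ψ W Y)
    (fun x hx y hy => ann_add hQ ψ W Y hx hy)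
  have hpos : 0 < (ann Q ψ W Y).card := Finset.card_pos.mpr ⟨0, ann_zero hQ ψ W Y⟩
  have h3 : (ann Q ψ W (ann Q ψ W Y)).card = Y.card := by
    rw [← h1, mul_comm] at h2
    exact Nat.eq_of_mul_eq_mul_right hpos h2
  symm
  apply Finset.eq_of_subset_of_card_le
  · intro b hb
    rw [mem_ann]
    refine ⟨hYW b hb, fun u hu => ?_⟩
    rw [pol_symm hQ]
    exact (mem_ann.mp hu).2 b hb
  · exact h3.le

end Cfsg.Agent.Lib.MinOmega
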