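/-
An action of `Ω(Q)`: the Eichler elements, their stabilisers and the annihilators of these stabilisers.
-/
import Cfsg.Agent.Lib.MinOmega.Dual
set_option autoImplicit false

namespace Cfsg.Agent.Lib.MinOmega

open Cfsg Cfsg.Geo Cfsg.Agent.Lib.Geo.Basic Cfsg.Agent.Lib.Geo.QForm Cfsg.Agent.Lib.GeoOmega.Basic
open Cfsg.Agent.Lib.GeoOmega.Eichler
open scoped MatrixGroups Matrix
open scoped _root_.Classical

variable {ι : Type} [Fintype ι] [DecidableEq ι] {F : Type*} [Field F] {Q : (ι → F) → F}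
variable (hQ : IsNondegenerateQuadraticForm Q)

/-- The Eichler element. -/
noncomputable def rr (p b : ι → F) : GL ι F :=
  if h : Q p = 0 ∧ pol Q p b = 0 then Classical.choose (exists_eich hQ h.1 h.2) else 1

section basics
include hQ

theorem rr_eich {p b : ι → F} (hp : Q p = 0) (hb : pol Q p b = 0) : Eich Q (rr hQ p b) p b := by
  rw [rr, dif_pos ⟨hp, hb⟩]
  exact Classical.choose_spec (exists_eich hQ hp hb)

theorem rr_mulVec {p b : ι → F} (hp : Q p = 0) (hb : pol Q p b = 0) (x : ι → F) :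
    ((rr hQ p b : GL ι F) : Matrix ι ι F) *ᵥ x = eE Q p b x := rr_eich hQ hp hb x

theorem rr_iso {p b : ι → F} (hp : Q p = 0) (hb : pol Q p b = 0) : rr hQ p b ∈ isometryGroup F Q :=
  (rr_eich hQ hp hb).mem_isometry hQ hp hb

theorem rr_mem [Finite F] (hn : 7 ≤ Fintype.card ι) {p b : ι → F} (hp : Q p = 0) (hb : pol Q p b = 0) :
    rr hQ p b ∈ omegaGL Q :=
  (rr_eich hQ hp hb).mem_omega hQ hn hp hb

theorem rr_add {p b b' : ι → F} (hp : Q p = 0) (hb : pol Q p b = 0) (hb' : pol Q p b' = 0) :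
    rr hQ p (b + b') = rr hQ p b * rr hQ p b' := by
  have h1 := (rr_eich hQ hp hb).mul hQ (rr_eich hQ hp hb') hp hb hb'
  exact Eich.unique' (rr_eich hQ hp (by rw [pol_add_right hQ, hb, hb', add_zero])) h1

theorem rr_zero {p : ι → F} (hp : Q p = 0) : rr hQ p 0 = 1 := by
  apply gl_ext_mulVec
  intro x
  rw [rr_mulVec hQ hp (pol_zero_right hQ p)]
  unfold eE
  rw [pol_zero_right hQ, Q_zero hQ]
  simp

theorem rr_self {p : ι → F} (hp : Q p = 0) (t : F) : rr hQ p (t • p) = 1 := by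
  apply gl_ext_mulVec
  intro x
  have h0 : pol Q p (t • p) = 0 := by rw [pol_smul_right hQ, pol_singular hQ hp, mul_zero]
  rw [rr_mulVec hQ hp h0]
  unfold eE
  rw [pol_smul_right hQ, hQ.smul, hp]
  simp only [Units.val_one, Matrix.one_mulVec]
  module

theorem rr_conj {h : GL ι F} (hh : h ∈ isometryGroup F Q) {p b : ι → F} (hp : Q p = 0) (hb : pol Q p b = 0) :
    h * rr hQ p b * h⁻¹ = rr hQ ((h : Matrix ι ι F) *ᵥ p) ((h : Matrix ι ι F) *ᵥ b) := by
  have h1 := (rr_eich hQ hp hb).conj hh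
  refine Eich.unique' h1 (rr_eich hQ ?_ ?_)
  · rw [(mem_isometryGroup_iff Q h).mp hh, hp]
  · rw [pol_isometry h hh, hb]

theorem rr_smul_left {p b : ι → F} (c : F) (hc : c ≠ 0) (hp : Q p = 0) (hb : pol Q p b = 0) :
    rr hQ (c • p) b = rr hQ p (c • b) := by
  have h1 : Q (c • p) = 0 := by rw [hQ.smul, hp, mul_zero]
  have h2 : pol Q (c • p) b = 0 := by rw [pol_smul_left hQ, hb, mul_zero]
  have h3 : pol Q p (c • b) = 0 := by rw [pol_smul_right hQ, hb, mul_zero]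
  exact Eich.unique' ((rr_eich hQ h1 h2).smul hQ c) (rr_eich hQ hp h3)

theorem rr_comm {p b b' : ι → F} (hp : Q p = 0) (hb : pol Q p b = 0) (hb' : pol Q p b' = 0) :
    rr hQ p b * rr hQ p b' = rr hQ p b' * rr hQ p b := by
  rw [← rr_add hQ hp hb hb', ← rr_add hQ hp hb' hb, add_comm]

end basics

theorem omega_iso {g : GL ι F} (hg : g ∈ omegaGL Q) : g ∈ isometryGroup F Q :=
  omegaGL_le_isometryGroup Q hg

section action

variable {X : Type*} (act : ↥(omegaGL Q) →* Equiv.Perm X)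

/-- The action as a total function. -/
noncomputable def AA (g : GL ι F) : Equiv.Perm X :=
  if h : g ∈ omegaGL Q then act ⟨g, h⟩ else 1

theorem AA_of_mem {g : GL ι F} (h : g ∈ omegaGL Q) : AA act g = act ⟨g, h⟩ := by
  rw [AA, dif_pos h]

theorem AA_mul {g g' : GL ι F} (h : g ∈ omegaGL Q) (h' : g' ∈ omegaGL Q) : AA act (g * g') = AA act g * AA act g' := by
  rw [AA_of_mem act (Subgroup.mul_mem _ h h'), AA_of_mem act h, AA_of_mem act h', ← map_mul]
  rfl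

theorem AA_one : AA act (1 : GL ι F) = 1 := by
  rw [AA_of_mem act (Subgroup.one_mem _)]
  exact map_one act

theorem AA_inv {g : GL ι F} (h : g ∈ omegaGL Q) : AA act g⁻¹ = (AA act g)⁻¹ := by
  rw [AA_of_mem act (Subgroup.inv_mem _ h), AA_of_mem act h, ← map_inv]
  rfl

end action

/-- The orthogonal complement of a pair. -/
noncomputable def WW (v v' : ι → F) : Submodule F (ι → F) := Ort hQ (Ort hQ ⊤ v) v'

section ww
include hQ

theorem mem_WW {v v' x : ι → F} : x ∈ WW hQ v v' ↔ pol Q v x = 0 ∧ pol Q v' x = 0 := by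
  rw [WW, mem_Ort hQ, mem_Ort hQ]
  simp

theorem Nd_WW {v v' : ι → F} (h : Hyp Q v v') : Nd Q (WW hQ v v') :=
  Nd_ort2 hQ (Nd_top hQ) trivial trivial h

theorem finrank_WW (v v' : ι → F) : Fintype.card ι ≤ Module.finrank F (WW hQ v v') + 2 := by
  have h1 := finrank_Ort hQ ⊤ v
  have h2 := finrank_Ort hQ (Ort hQ ⊤ v) v'
  have h3 : Module.finrank F (⊤ : Submodule F (ι → F)) = Fintype.card ι := by simp
  rw [WW]
  omega

end ww

variable [Fintype F]
variable {X : Type*} [Fintype X] (act : ↥(omegaGL Q) →* Equiv.Perm X)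

/-- Stabiliser in the Eichler group of `v`. -/
noncomputable def Yy (v v' : ι → F) (x : X) : Finset (ι → F) :=
  Finset.univ.filter fun b => b ∈ WW hQ v v' ∧ AA act (rr hQ v b) x = x

/-- Annihilator of the stabiliser. -/
noncomputable def Ss (ψ : AddChar F ℂ) (v v' : ι → F) (x : X) : Finset (ι → F) :=
  ann Q ψ (WW hQ v v') (Yy hQ act v v' x)

/-- The orbit. -/
noncomputable def Orb (v v' : ι → F) (x : X) : Finset X :=
  (WF (WW hQ v v')).image fun b => AA act (rr hQ v b) x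

/-- The points with given annihilator. -/
noncomputable def Xs (ψ : AddChar F ℂ) (v v' : ι → F) (S : Finset (ι → F)) : Finset X :=
  Finset.univ.filter fun y => Ss hQ act ψ v v' y = S

/-- The family of annihilators. -/
noncomputable def Sf (ψ : AddChar F ℂ) (v v' : ι → F) : Finset (Finset (ι → F)) :=
  Finset.univ.image (Ss hQ act ψ v v')

variable {hQ act}

theorem mem_Yy {v v' b : ι → F} {x : X} : b ∈ Yy hQ act v v' x ↔ b ∈ WW hQ v v' ∧ AA act (rr hQ v b) x = x := by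
  simp [Yy]

theorem Yy_sub {v v' : ι → F} {x : X} {b : ι → F} (hb : b ∈ Yy hQ act v v' x) : b ∈ WW hQ v v' := (mem_Yy.mp hb).1

section pair

variable {v v' : ι → F} (h : Hyp Q v v') (hn : 7 ≤ Fintype.card ι) {ψ : AddChar F ℂ}
include h hn

theorem rr_v_mem {b : ι → F} (hb : b ∈ WW hQ v v') : rr hQ v b ∈ omegaGL Q :=
  rr_mem hQ hn h.ha ((mem_WW hQ).mp hb).1

theorem AA_rr_add {b b' : ι → F} (hb : b ∈ WW hQ v v') (hb' : b' ∈ WW hQ v v') (x : X) :
    AA act (rr hQ v (b + b')) x = AA act (rr hQ v b) (AA act (rr hQ v b') x) := by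
  rw [rr_add hQ h.ha ((mem_WW hQ).mp hb).1 ((mem_WW hQ).mp hb').1, AA_mul act (rr_v_mem h hn hb) (rr_v_mem h hn hb')]
  rfl

theorem Yy_zero (x : X) : (0 : ι → F) ∈ Yy hQ act v v' x := by
  rw [mem_Yy]
  refine ⟨Submodule.zero_mem _, ?_⟩
  rw [rr_zero hQ h.ha, AA_one]
  rfl

theorem Yy_add {x : X} {b b' : ι → F} (hb : b ∈ Yy hQ act v v' x) (hb' : b' ∈ Yy hQ act v v' x) :
    b + b' ∈ Yy hQ act v v' x := by
  rw [mem_Yy] at *
  refine ⟨Submodule.add_mem _ hb.1 hb'.1, ?_⟩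
  rw [AA_rr_add h hn hb.1 hb'.1, hb'.2, hb.2]

theorem AA_rr_neg {b : ι → F} (hb : b ∈ WW hQ v v') (x y : X) (hxy : AA act (rr hQ v b) x = y) :
    AA act (rr hQ v (-b)) y = x := by
  have h0 : -b ∈ WW hQ v v' := Submodule.neg_mem _ hb
  rw [← hxy, ← AA_rr_add (hQ := hQ) (act := act) h hn h0 hb, neg_add_cancel, rr_zero hQ h.ha, AA_one]
  rfl

theorem Yy_neg {x : X} {b : ι → F} (hb : b ∈ Yy hQ act v v' x) : -b ∈ Yy hQ act v v' x := by
  rw [mem_Yy] at *
  exact ⟨Submodule.neg_mem _ hb.1, AA_rr_neg h hn hb.1 x x hb.2⟩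

/-- Orbit and stabiliser. -/
theorem card_Orb_mul (x : X) : (Orb hQ act v v' x).card * (Yy hQ act v v' x).card = (WF (WW hQ v v')).card := by
  rw [Finset.card_eq_sum_card_image (fun b => AA act (rr hQ v b) x) (WF (WW hQ v v'))]
  rw [Orb, Finset.card_eq_sum_ones, Finset.sum_mul]
  apply Finset.sum_congr rfl
  intro y hy
  obtain ⟨b₀, hb₀, rfl⟩ := Finset.mem_image.mp hy
  rw [mem_WF] at hb₀
  rw [one_mul]
  apply Finset.card_bij (fun b _ => b + b₀)
  · intro b hb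
    rw [mem_Yy] at hb
    rw [Finset.mem_filter, mem_WF]
    refine ⟨Submodule.add_mem _ hb.1 hb₀, ?_⟩
    rw [add_comm, AA_rr_add h hn hb₀ hb.1, hb.2]
  · intro a _ b _ hab
    exact add_right_cancel hab
  · intro b hb
    rw [Finset.mem_filter, mem_WF] at hb
    refine ⟨b - b₀, ?_, by abel⟩
    rw [mem_Yy]
    refine ⟨Submodule.sub_mem _ hb.1 hb₀, ?_⟩
    have e : b - b₀ = b + (-b₀) := sub_eq_add_neg _ _
    rw [e, AA_rr_add h hn hb.1 (Submodule.neg_mem _ hb₀)]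
    have h3 : AA act (rr hQ v (-b₀)) (AA act (rr hQ v b) x) = x := by
      apply AA_rr_neg h hn hb₀
      exact hb.2.symm
    rw [← AA_rr_add h hn (Submodule.neg_mem _ hb₀) hb.1, add_comm, AA_rr_add h hn hb.1 (Submodule.neg_mem _ hb₀)] at h3
    exact h3

theorem Yy_of_mem_Orb {x y : X} (hy : y ∈ Orb hQ act v v' x) : Yy hQ act v v' y = Yy hQ act v v' x := by
  obtain ⟨b₀, hb₀, rfl⟩ := Finset.mem_image.mp hy
  rw [mem_WF] at hb₀
  ext b
  rw [mem_Yy, mem_Yy]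
  refine and_congr_right fun hb => ?_
  rw [← AA_rr_add h hn hb hb₀, add_comm, AA_rr_add h hn hb₀ hb]
  constructor
  · intro h1
    have h2 := AA_rr_neg (hQ := hQ) (act := act) h hn hb₀ (AA act (rr hQ v b) x) _ h1
    have h3 := AA_rr_neg (hQ := hQ) (act := act) h hn hb₀ x (AA act (rr hQ v b₀) x) rfl
    rw [h3] at h2
    exact h2.symm
  · intro h1
    rw [h1]

theorem Ss_of_mem_Orb {x y : X} (hy : y ∈ Orb hQ act v v' x) : Ss hQ act ψ v v' y = Ss hQ act ψ v v' x := by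
  rw [Ss, Ss, Yy_of_mem_Orb h hn hy]

theorem self_mem_Orb (x : X) : x ∈ Orb hQ act v v' x := by
  refine Finset.mem_image.mpr ⟨0, by rw [mem_WF]; exact Submodule.zero_mem _, ?_⟩
  rw [rr_zero hQ h.ha, AA_one]
  rfl

theorem Ss_card (hψ : ∀ c : F, c ≠ 0 → ∃ t : F, ψ (t * c) ≠ 1) (x : X) :
    (Yy hQ act v v' x).card * (Ss hQ act ψ v v' x).card = (WF (WW hQ v v')).card :=
  card_mul_ann hQ hψ (Nd_WW hQ h) (fun _ hb => Yy_sub hb) (Yy_zero h hn x)
    (fun _ hx _ hy => Yy_add h hn hx hy)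

theorem card_Orb_eq (hψ : ∀ c : F, c ≠ 0 → ∃ t : F, ψ (t * c) ≠ 1) (x : X) :
    (Orb hQ act v v' x).card = (Ss hQ act ψ v v' x).card := by
  have h1 := card_Orb_mul (hQ := hQ) (act := act) h hn x
  have h2 := Ss_card (hQ := hQ) (act := act) h hn hψ x
  have hpos : 0 < (Yy hQ act v v' x).card := Finset.card_pos.mpr ⟨0, Yy_zero h hn x⟩
  rw [mul_comm, ← h2] at h1
  exact Nat.eq_of_mul_eq_mul_left hpos h1

theorem Yy_eq_ann (hψ : ∀ c : F, c ≠ 0 → ∃ t : F, ψ (t * c) ≠ 1) (x : X) :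
    Yy hQ act v v' x = ann Q ψ (WW hQ v v') (Ss hQ act ψ v v' x) :=
  (ann_ann hQ hψ (Nd_WW hQ h) (fun _ hb => Yy_sub hb) (Yy_zero h hn x)
    (fun _ hx _ hy => Yy_add h hn hx hy)).symm

theorem Orb_sub_Xs (x : X) : Orb hQ act v v' x ⊆ Xs hQ act ψ v v' (Ss hQ act ψ v v' x) := by
  intro y hy
  simp only [Xs, Finset.mem_filter, Finset.mem_univ, true_and]
  exact Ss_of_mem_Orb h hn hy

theorem card_le_Xs (hψ : ∀ c : F, c ≠ 0 → ∃ t : F, ψ (t * c) ≠ 1) (x : X) :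
    (Ss hQ act ψ v v' x).card ≤ (Xs hQ act ψ v v' (Ss hQ act ψ v v' x)).card := by
  rw [← card_Orb_eq h hn hψ x]
  exact Finset.card_le_card (Orb_sub_Xs h hn x)

/-- Disjointness of orbits. -/
theorem Orb_disj {x y : X} (hy : y ∉ Orb hQ act v v' x) : Disjoint (Orb hQ act v v' x) (Orb hQ act v v' y) := by
  rw [Finset.disjoint_left]
  intro z hz hz'
  obtain ⟨b, hb, rfl⟩ := Finset.mem_image.mp hz
  obtain ⟨b', hb', hbb'⟩ := Finset.mem_image.mp hz'
  rw [mem_WF] at hb hb'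
  apply hy
  refine Finset.mem_image.mpr ⟨-b' + b, by rw [mem_WF]; exact Submodule.add_mem _ (Submodule.neg_mem _ hb') hb, ?_⟩
  rw [AA_rr_add h hn (Submodule.neg_mem _ hb') hb]
  exact AA_rr_neg h hn hb' _ _ hbb'

/-- The points with given annihilator form one orbit, or at least two. -/
theorem Xs_dich (hψ : ∀ c : F, c ≠ 0 → ∃ t : F, ψ (t * c) ≠ 1) (x : X) :
    Xs hQ act ψ v v' (Ss hQ act ψ v v' x) = Orb hQ act v v' x ∨
      2 * (Ss hQ act ψ v v' x).card ≤ (Xs hQ act ψ v v' (Ss hQ act ψ v v' x)).card := by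
  by_cases hall : Xs hQ act ψ v v' (Ss hQ act ψ v v' x) ⊆ Orb hQ act v v' x
  · left
    exact Finset.Subset.antisymm hall (Orb_sub_Xs h hn x)
  · right
    rw [Finset.not_subset] at hall
    obtain ⟨y, hy, hyO⟩ := hall
    simp only [Xs, Finset.mem_filter, Finset.mem_univ, true_and] at hy
    have h1 := Orb_disj (hQ := hQ) (act := act) h hn hyO
    have h2 : Orb hQ act v v' x ∪ Orb hQ act v v' y ⊆ Xs hQ act ψ v v' (Ss hQ act ψ v v' x) := by
      apply Finset.union_subset (Orb_sub_Xs h hn x)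
      rw [← hy]
      exact Orb_sub_Xs h hn y
    have h3 := Finset.card_le_card h2
    rw [Finset.card_union_of_disjoint h1, card_Orb_eq h hn hψ x, card_Orb_eq h hn hψ y, hy] at h3
    omega

end pair

/-- The map on annihilators induced by an element scaling the pair. -/
noncomputable def Tw (g : GL ι F) (μ : F) (u : ι → F) : ι → F := μ⁻¹ • ((g : Matrix ι ι F) *ᵥ u)

theorem Tw_inj (g : GL ι F) {μ : F} (hμ : μ ≠ 0) : Function.Injective (Tw g μ) := by
  intro a b hab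
  have h1 : ((g : Matrix ι ι F) *ᵥ a) = ((g : Matrix ι ι F) *ᵥ b) := smul_right_injective _ (inv_ne_zero hμ) hab
  have h2 := congrArg (fun y => ((g⁻¹ : GL ι F) : Matrix ι ι F) *ᵥ y) h1
  simpa [inv_mulVec_mulVec] using h2

section conj

theorem ginv_v {g : GL ι F} {μ : F} (hμ : μ ≠ 0) {v : ι → F} (h1 : (g : Matrix ι ι F) *ᵥ v = μ • v) : ((g⁻¹ : GL ι F) : Matrix ι ι F) *ᵥ v = μ⁻¹ • v := by
  have := congrArg (fun y => μ⁻¹ • ((g⁻¹ : GL ι F) : Matrix ι ι F) *ᵥ y) h1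
  simp only [inv_mulVec_mulVec, Matrix.mulVec_smul, smul_smul, inv_mul_cancel₀ hμ, one_smul] at this
  exact this.symm

theorem ginv_v' {g : GL ι F} {μ : F} (hμ : μ ≠ 0) {v' : ι → F} (h2 : (g : Matrix ι ι F) *ᵥ v' = μ⁻¹ • v') : ((g⁻¹ : GL ι F) : Matrix ι ι F) *ᵥ v' = μ⁻¹⁻¹ • v' := by
  have := congrArg (fun y => μ • ((g⁻¹ : GL ι F) : Matrix ι ι F) *ᵥ y) h2
  simp only [inv_mulVec_mulVec, Matrix.mulVec_smul, smul_smul, mul_inv_cancel₀ hμ, one_smul] at this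
  rw [inv_inv]
  exact this.symm

variable {v v' : ι → F} (h : Hyp Q v v') (hn : 7 ≤ Fintype.card ι) {ψ : AddChar F ℂ}
  {g : GL ι F} (hg : g ∈ omegaGL Q) {μ : F} (hμ : μ ≠ 0)
  (h1 : (g : Matrix ι ι F) *ᵥ v = μ • v) (h2 : (g : Matrix ι ι F) *ᵥ v' = μ⁻¹ • v')

section
include hQ hg hμ h1 h2

theorem g_mem_WW {b : ι → F} (hb : b ∈ WW hQ v v') : (g : Matrix ι ι F) *ᵥ b ∈ WW hQ v v' := by
  rw [mem_WW hQ] at *
  have hI := omega_iso hg
  have e1 := pol_isometry g hI v b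
  have e2 := pol_isometry g hI v' b
  rw [h1, pol_smul_left hQ, hb.1] at e1
  rw [h2, pol_smul_left hQ, hb.2] at e2
  constructor
  · exact (mul_eq_zero.mp e1).resolve_left hμ
  · exact (mul_eq_zero.mp e2).resolve_left (inv_ne_zero hμ)

theorem ginv_mem_WW {b : ι → F} (hb : b ∈ WW hQ v v') : ((g⁻¹ : GL ι F) : Matrix ι ι F) *ᵥ b ∈ WW hQ v v' :=
  g_mem_WW (Subgroup.inv_mem _ hg) (inv_ne_zero hμ) (ginv_v hμ h1) (ginv_v' hμ h2) hb

theorem conj_rr {b : ι → F} (hQv : Q v = 0) (hb : b ∈ WW hQ v v') :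
    g * rr hQ v b * g⁻¹ = rr hQ v (μ • ((g : Matrix ι ι F) *ᵥ b)) := by
  have hb1 := ((mem_WW hQ).mp hb).1
  rw [rr_conj hQ (omega_iso hg) hQv hb1, h1, rr_smul_left hQ μ hμ hQv]
  exact ((mem_WW hQ).mp (g_mem_WW hg hμ h1 h2 hb)).1

end

section
include h hn hg hμ h1 h2

theorem AA_conj {b : ι → F} (hb : b ∈ WW hQ v v') (x : X) :
    AA act g (AA act (rr hQ v b) x) = AA act (rr hQ v (μ • ((g : Matrix ι ι F) *ᵥ b))) (AA act g x) := by
  have e := conj_rr (hQ := hQ) hg hμ h1 h2 h.ha hb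
  have e2 : g * rr hQ v b = rr hQ v (μ • ((g : Matrix ι ι F) *ᵥ b)) * g := by
    rw [← e]
    group
  have h3 := congrArg (AA act) e2
  rw [AA_mul act hg (rr_v_mem h hn hb), AA_mul act (rr_v_mem h hn (Submodule.smul_mem _ _ (g_mem_WW hg hμ h1 h2 hb))) hg] at h3
  exact DFunLike.congr_fun h3 x

theorem Yy_conj {b : ι → F} {x : X} :
    b ∈ Yy hQ act v v' x ↔ b ∈ WW hQ v v' ∧ μ • ((g : Matrix ι ι F) *ᵥ b) ∈ Yy hQ act v v' (AA act g x) := by
  constructor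
  · intro hb
    obtain ⟨hb1, hb2⟩ := mem_Yy.mp hb
    refine ⟨hb1, mem_Yy.mpr ⟨Submodule.smul_mem _ _ (g_mem_WW hg hμ h1 h2 hb1), ?_⟩⟩
    rw [← AA_conj (hQ := hQ) (act := act) h hn hg hμ h1 h2 hb1, hb2]
  · rintro ⟨hb1, hb2⟩
    obtain ⟨-, hb3⟩ := mem_Yy.mp hb2
    rw [← AA_conj (hQ := hQ) (act := act) h hn hg hμ h1 h2 hb1] at hb3
    exact mem_Yy.mpr ⟨hb1, (AA act g).injective hb3⟩

theorem Ss_conj (x : X) :
    Ss hQ act ψ v v' (AA act g x) = (Ss hQ act ψ v v' x).image (Tw g μ) := by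
  have hI := omega_iso hg
  ext u'
  rw [Finset.mem_image]
  constructor
  · intro hu'
    rw [Ss, mem_ann] at hu'
    refine ⟨μ • ((g⁻¹ : GL ι F) : Matrix ι ι F) *ᵥ u', ?_, ?_⟩
    · rw [Ss, mem_ann]
      refine ⟨Submodule.smul_mem _ _ (ginv_mem_WW hg hμ h1 h2 hu'.1), fun b hb => ?_⟩
      have h3 := hu'.2 _ ((Yy_conj (hQ := hQ) (act := act) h hn hg hμ h1 h2).mp hb).2
      rw [← h3]
      congr 1
      have e1 := pol_isometry g hI (((g⁻¹ : GL ι F) : Matrix ι ι F) *ᵥ u') b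
      rw [mulVec_inv_mulVec] at e1
      rw [pol_smul_left hQ, pol_smul_right hQ, e1]
    · rw [Tw, Matrix.mulVec_smul, mulVec_inv_mulVec, smul_smul, inv_mul_cancel₀ hμ, one_smul]
  · rintro ⟨u, hu, rfl⟩
    rw [Ss, mem_ann] at hu ⊢
    refine ⟨Submodule.smul_mem _ _ (g_mem_WW hg hμ h1 h2 hu.1), fun b' hb' => ?_⟩
    have hb'W := Yy_sub hb'
    have hbW : μ⁻¹ • ((g⁻¹ : GL ι F) : Matrix ι ι F) *ᵥ b' ∈ WW hQ v v' :=
      Submodule.smul_mem _ _ (ginv_mem_WW hg hμ h1 h2 hb'W)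
    have e0 : μ • ((g : Matrix ι ι F) *ᵥ (μ⁻¹ • ((g⁻¹ : GL ι F) : Matrix ι ι F) *ᵥ b')) = b' := by
      rw [Matrix.mulVec_smul, mulVec_inv_mulVec, smul_smul, mul_inv_cancel₀ hμ, one_smul]
    have hb : μ⁻¹ • ((g⁻¹ : GL ι F) : Matrix ι ι F) *ᵥ b' ∈ Yy hQ act v v' x := by
      rw [Yy_conj (hQ := hQ) (act := act) h hn hg hμ h1 h2]
      refine ⟨hbW, ?_⟩
      rw [e0]
      exact hb'
    have h3 := hu.2 _ hb
    rw [← h3]
    congr 1
    rw [Tw, pol_smul_left hQ, pol_smul_right hQ]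
    have e1 := pol_isometry g hI u (((g⁻¹ : GL ι F) : Matrix ι ι F) *ᵥ b')
    rw [mulVec_inv_mulVec] at e1
    rw [e1]

omit h hn in
theorem Tw_mem_WW {u : ι → F} (hu : u ∈ WW hQ v v') : Tw g μ u ∈ WW hQ v v' :=
  Submodule.smul_mem _ _ (g_mem_WW hg hμ h1 h2 hu)

/-- The family of annihilators is stable. -/
theorem Sf_conj {S : Finset (ι → F)} (hS : S ∈ Sf hQ act ψ v v') : S.image (Tw g μ) ∈ Sf hQ act ψ v v' := by
  obtain ⟨x, -, rfl⟩ := Finset.mem_image.mp hS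
  rw [← Ss_conj (hQ := hQ) (act := act) h hn hg hμ h1 h2]
  exact Finset.mem_image_of_mem _ (Finset.mem_univ _)

theorem card_Xs_conj (S : Finset (ι → F)) :
    (Xs hQ act ψ v v' (S.image (Tw g μ))).card = (Xs hQ act ψ v v' S).card := by
  symm
  apply Finset.card_bij (fun x _ => AA act g x)
  · intro x hx
    simp only [Xs, Finset.mem_filter, Finset.mem_univ, true_and] at hx ⊢
    rw [Ss_conj (hQ := hQ) (act := act) h hn hg hμ h1 h2, hx]
  · intro a _ b _ hab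
    exact (AA act g).injective hab
  · intro y hy
    simp only [Xs, Finset.mem_filter, Finset.mem_univ, true_and] at hy
    refine ⟨(AA act g)⁻¹ y, ?_, by simp⟩
    simp only [Xs, Finset.mem_filter, Finset.mem_univ, true_and]
    have e : y = AA act g ((AA act g)⁻¹ y) := by simp
    rw [e, Ss_conj (hQ := hQ) (act := act) h hn hg hμ h1 h2] at hy
    exact Finset.image_injective (Tw_inj g hμ) hy

end

end conj

end Cfsg.Agent.Lib.MinOmega
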