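/-
Transitivity of `Ω` on hyperbolic pairs, and torus elements in `Ω`.
-/
import Cfsg.Agent.Lib.MinOmega.Act
import Cfsg.Agent.Lib.Classical.MatrixBridge
set_option autoImplicit false

namespace Cfsg.Agent.Lib.MinOmega

open Cfsg Cfsg.Geo Cfsg.Agent.Lib.Geo.Basic Cfsg.Agent.Lib.Geo.QForm Cfsg.Agent.Lib.GeoOmega.Basic
open Cfsg.Agent.Lib.GeoOmega.Eichler
open Cfsg.Agent.Lib.Classical.MatrixBridge
open scoped MatrixGroups Matrix
open scoped _root_.Classical

variable {ι : Type} [Fintype ι] [DecidableEq ι] {F : Type*} [Field F] {Q : (ι → F) → F}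

/-- `g` is the torus element scaling a hyperbolic pair. -/
def IsDd (Q : (ι → F) → F) (g : GL ι F) (v v' : ι → F) (l : F) : Prop :=
  ∀ x, (g : Matrix ι ι F) *ᵥ x = x + ((l - 1) * pol Q x v') • v + ((l⁻¹ - 1) * pol Q x v) • v'

variable (hQ : IsNondegenerateQuadraticForm Q)
include hQ

theorem exists_dd {v v' : ι → F} (h : Hyp Q v v') {l : F} (hl : l ≠ 0) : ∃ g, IsDd Q g v v' l := by
  have hvv := pol_singular hQ h.ha
  have hv'v' := pol_singular hQ h.hb
  have hv'v : pol Q v' v = 1 := by rw [pol_symm hQ, h.hab]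
  let L : F → (ι → F) →ₗ[F] (ι → F) := fun l =>
    LinearMap.id + ((l - 1) • ((polB hQ).flip v')).smulRight v + ((l⁻¹ - 1) • ((polB hQ).flip v)).smulRight v'
  have hL : ∀ l x, L l x = x + ((l - 1) * pol Q x v') • v + ((l⁻¹ - 1) * pol Q x v) • v' := by
    intro l x
    simp [L, polB_apply]
  have hinv : ∀ l : F, l ≠ 0 → (L l⁻¹).comp (L l) = LinearMap.id := by
    intro l hl
    refine LinearMap.ext fun x => ?_
    show L l⁻¹ (L l x) = x
    have hx : L l⁻¹ (L l x) = x := by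
      rw [hL, hL, inv_inv]
      rw [pol_add_left hQ, pol_add_left hQ, pol_add_left hQ, pol_add_left hQ, pol_smul_left hQ, pol_smul_left hQ,
        pol_smul_left hQ, pol_smul_left hQ, hvv, hv'v', h.hab, hv'v]
      have e1 : l⁻¹ - 1 + (l⁻¹ - 1) * (l - 1) * 1 = (l⁻¹ - 1) * l := by ring
      have e : ∀ (p s : F), x + ((l - 1) * p) • v + ((l⁻¹ - 1) * s) • v' +
          ((l⁻¹ - 1) * (p + (l - 1) * p * 1 + (l⁻¹ - 1) * s * 0)) • v +
          ((l - 1) * (s + (l - 1) * p * 0 + (l⁻¹ - 1) * s * 1)) • v' = x := by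
        intro p s
        have e2 : (l - 1) + (l⁻¹ - 1) * (1 + (l - 1)) = 0 := by
          field_simp
          ring
        have e3 : (l⁻¹ - 1) + (l - 1) * (1 + (l⁻¹ - 1)) = 0 := by
          field_simp
          ring
        have e4 : x + ((l - 1) * p) • v + ((l⁻¹ - 1) * s) • v' +
          ((l⁻¹ - 1) * (p + (l - 1) * p * 1 + (l⁻¹ - 1) * s * 0)) • v +
          ((l - 1) * (s + (l - 1) * p * 0 + (l⁻¹ - 1) * s * 1)) • v' =
          x + (((l - 1) + (l⁻¹ - 1) * (1 + (l - 1))) * p) • v + (((l⁻¹ - 1) + (l - 1) * (1 + (l⁻¹ - 1))) * s) • v' := by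
          module
        rw [e4, e2, e3]
        simp
      exact e _ _
    rw [hx]
  have h1 := hinv l hl
  have h2 := hinv l⁻¹ (inv_ne_zero hl)
  rw [inv_inv] at h2
  let e : (ι → F) ≃ₗ[F] (ι → F) := LinearEquiv.ofLinearMap (L l) (L l⁻¹) h2 h1
  refine ⟨glToLin.symm e, fun x => ?_⟩
  rw [glToLin_symm_mulVec]
  exact hL l x

omit hQ in
theorem IsDd.unique {g g' : GL ι F} {v v' : ι → F} {l : F} (h : IsDd Q g v v' l) (h' : IsDd Q g' v v' l) : g = g' := by
  apply gl_ext_mulVec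
  intro x
  rw [h x, h' x]

theorem IsDd.iso {g : GL ι F} {v v' : ι → F} {l : F} (h : IsDd Q g v v' l) (hv : Hyp Q v v') (hl : l ≠ 0) :
    g ∈ isometryGroup F Q := by
  rw [mem_isometryGroup_iff]
  intro x
  rw [h x, Q_add hQ, Q_add hQ, hQ.smul, hQ.smul, hv.ha, hv.hb, pol_smul_right hQ, pol_add_left hQ, pol_smul_right hQ,
    pol_smul_left hQ, pol_smul_right hQ, hv.hab]
  have e : (l - 1) * (l⁻¹ - 1) = 2 - l - l⁻¹ := by
    field_simp
    ring
  linear_combination (pol Q x v * pol Q x v') * e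

omit hQ in
theorem IsDd.symm' {g : GL ι F} {v v' : ι → F} {l : F} (h : IsDd Q g v v' l) (hl : l ≠ 0) : IsDd Q g v' v l⁻¹ := by
  intro x
  rw [h x, inv_inv]
  abel

theorem IsDd.conj {g k : GL ι F} {v v' : ι → F} {l : F} (h : IsDd Q g v v' l) (hk : k ∈ isometryGroup F Q) :
    IsDd Q (k * g * k⁻¹) ((k : Matrix ι ι F) *ᵥ v) ((k : Matrix ι ι F) *ᵥ v') l := by
  intro x
  have e : ∀ z, pol Q (((k⁻¹ : GL ι F) : Matrix ι ι F) *ᵥ x) z = pol Q x ((k : Matrix ι ι F) *ᵥ z) := by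
    intro z
    have := pol_isometry k hk (((k⁻¹ : GL ι F) : Matrix ι ι F) *ᵥ x) z
    rw [mulVec_inv_mulVec] at this
    exact this.symm
  rw [Units.val_mul, Units.val_mul, ← Matrix.mulVec_mulVec, ← Matrix.mulVec_mulVec, h _, Matrix.mulVec_add,
    Matrix.mulVec_add, Matrix.mulVec_smul, Matrix.mulVec_smul, mulVec_inv_mulVec, e, e]

theorem IsDd.mul {g g' : GL ι F} {v v' : ι → F} {l l' : F} (h : IsDd Q g v v' l) (h' : IsDd Q g' v v' l')
    (hv : Hyp Q v v') (hl : l ≠ 0) (hl' : l' ≠ 0) : IsDd Q (g * g') v v' (l * l') := by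
  intro x
  have hvv := pol_singular hQ hv.ha
  have hv'v' := pol_singular hQ hv.hb
  have hv'v : pol Q v' v = 1 := by rw [pol_symm hQ, hv.hab]
  rw [Units.val_mul, ← Matrix.mulVec_mulVec, h', h, pol_add_left hQ, pol_add_left hQ, pol_add_left hQ,
    pol_add_left hQ, pol_smul_left hQ, pol_smul_left hQ, pol_smul_left hQ, pol_smul_left hQ, hvv, hv'v', hv.hab, hv'v]
  have e1 : l' - 1 + (l - 1) * (1 + (l' - 1)) = l * l' - 1 := by ring
  have e2 : l'⁻¹ - 1 + (l⁻¹ - 1) * (1 + (l'⁻¹ - 1)) = (l * l')⁻¹ - 1 := by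
    field_simp
    ring
  rw [← e1, ← e2]
  module

theorem IsDd.mulVec_left {g : GL ι F} {v v' : ι → F} {l : F} (h : IsDd Q g v v' l) (hv : Hyp Q v v') :
    (g : Matrix ι ι F) *ᵥ v = l • v := by
  rw [h v, pol_singular hQ hv.ha, hv.hab]
  simp only [mul_one, mul_zero, zero_smul, add_zero]
  rw [sub_smul, one_smul]
  abel

theorem IsDd.mulVec_right {g : GL ι F} {v v' : ι → F} {l : F} (h : IsDd Q g v v' l) (hv : Hyp Q v v') :
    (g : Matrix ι ι F) *ᵥ v' = l⁻¹ • v' := by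
  have hv'v : pol Q v' v = 1 := by rw [pol_symm hQ, hv.hab]
  rw [h v', pol_singular hQ hv.hb, hv'v]
  simp only [mul_one, mul_zero, zero_smul, add_zero]
  rw [sub_smul, one_smul]
  abel

omit hQ in
theorem IsDd.mulVec_fix {g : GL ι F} {v v' x : ι → F} {l : F} (h : IsDd Q g v v' l) (h1 : pol Q x v = 0)
    (h2 : pol Q x v' = 0) : (g : Matrix ι ι F) *ᵥ x = x := by
  rw [h x, h1, h2]
  simp

/-- Elements of `Ω` moving a vector to any other one of the same norm. -/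
theorem exists_omega_move [Fintype F] (hn : 7 ≤ Fintype.card ι) {x y : ι → F} (hx : x ≠ 0) (hy : y ≠ 0)
    (hxy : Q x = Q y) : ∃ g ∈ omegaGL Q, (g : Matrix ι ι F) *ᵥ x = y := by
  have hdim : 5 ≤ Module.finrank F (⊤ : Submodule F (ι → F)) := by
    simp only [finrank_top, Module.finrank_fintype_fun_eq_card]
    omega
  have key := norm_class hQ (Nd_top hQ) hdim
    (fun z => {w : ι → F | ∃ g ∈ omegaGL Q, (g : Matrix ι ι F) *ᵥ z = w}) ?_ (x := x) (y := y) trivial trivial hx hy hxy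
  · have h1 : y ∈ {w : ι → F | ∃ g ∈ omegaGL Q, (g : Matrix ι ι F) *ᵥ y = w} := ⟨1, Subgroup.one_mem _, by simp⟩
    rw [← key] at h1
    exact h1
  · intro a c z _ _ _ ha hac
    have hg := rr_mem hQ hn ha hac
    have e := rr_mulVec hQ ha hac z
    ext w
    simp only [Set.mem_ofPred_eq]
    constructor
    · rintro ⟨g, hgm, rfl⟩
      refine ⟨g * rr hQ a c, Subgroup.mul_mem _ hgm hg, ?_⟩
      rw [Units.val_mul, ← Matrix.mulVec_mulVec, e]
    · rintro ⟨g, hgm, rfl⟩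
      refine ⟨g * (rr hQ a c)⁻¹, Subgroup.mul_mem _ hgm (Subgroup.inv_mem _ hg), ?_⟩
      rw [← e, Units.val_mul, ← Matrix.mulVec_mulVec, inv_mulVec_mulVec]

/-- `Ω` is transitive on hyperbolic pairs. -/
theorem exists_pair_move [Fintype F] (hn : 7 ≤ Fintype.card ι) {v v' e e' : ι → F} (h : Hyp Q v v') (h' : Hyp Q e e') :
    ∃ g ∈ omegaGL Q, (g : Matrix ι ι F) *ᵥ v = e ∧ (g : Matrix ι ι F) *ᵥ v' = e' := by
  have hv0 : v ≠ 0 := by
    rintro rfl
    have := h.hab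
    rw [pol_zero_left hQ] at this
    exact zero_ne_one this
  have he0 : e ≠ 0 := by
    rintro rfl
    have := h'.hab
    rw [pol_zero_left hQ] at this
    exact zero_ne_one this
  obtain ⟨g, hg, hgv⟩ := exists_omega_move hQ hn hv0 he0 (by rw [h.ha, h'.ha])
  set y := (g : Matrix ι ι F) *ᵥ v' with hy
  have hI := omega_iso hg
  have hyQ : Q y = 0 := by rw [hy, (mem_isometryGroup_iff Q g).mp hI, h.hb]
  have hey : pol Q e y = 1 := by
    rw [← hgv, hy, pol_isometry g hI, h.hab]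
  have hye : pol Q y e = 1 := by rw [pol_symm hQ, hey]
  have he'e : pol Q e' e = 1 := by rw [pol_symm hQ, h'.hab]
  have hb : pol Q e (y - e') = 0 := by
    rw [pol_sub_right hQ, hey, h'.hab, sub_self]
  have hk := rr_mem hQ hn h'.ha hb
  have hke : eE Q e (y - e') e = e := by
    exact eE_fix (pol_singular hQ h'.ha) hb
  have hky : eE Q e (y - e') y = e' := by
    have := (rr_eich hQ h'.ha hb).moves hQ hyQ h'.hb hye
    rwa [rr_mulVec hQ h'.ha hb] at this
  refine ⟨rr hQ e (y - e') * g, Subgroup.mul_mem _ hk hg, ?_, ?_⟩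
  · rw [Units.val_mul, ← Matrix.mulVec_mulVec, hgv, rr_mulVec hQ h'.ha hb, hke]
  · rw [Units.val_mul, ← Matrix.mulVec_mulVec, ← hy, rr_mulVec hQ h'.ha hb, hky]

/-- The square of a torus parameter is realised in `Ω`, with trivial action on the complement. -/
theorem exists_z_sq [Fintype F] (hn : 7 ≤ Fintype.card ι) {v v' : ι → F} (h : Hyp Q v v') {m : F} (hm : m ≠ 0) :
    ∃ z ∈ omegaGL Q, IsDd Q z v v' (m ^ 2) := by
  obtain ⟨d, hd⟩ := exists_dd hQ h hm
  have hdI := hd.iso hQ h hm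
  have h' : Hyp Q v' v := ⟨h.hb, h.ha, by rw [pol_symm hQ, h.hab]⟩
  obtain ⟨s, hs, hs1, hs2⟩ := exists_pair_move hQ hn h h'
  have hsI := omega_iso hs
  have h1 := hd.conj hQ hsI
  rw [hs1, hs2] at h1
  have h2 : IsDd Q (s * d * s⁻¹) v v' m⁻¹ := h1.symm' hm
  have h3 : s * d * s⁻¹ = d⁻¹ := by
    have h4 := hd.mul hQ h2 h (hm) (inv_ne_zero hm)
    rw [mul_inv_cancel₀ hm] at h4
    have h5 : d * (s * d * s⁻¹) = 1 := by
      apply gl_ext_mulVec
      intro x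
      rw [h4 x]
      simp
    exact (eq_inv_of_mul_eq_one_right h5)
  refine ⟨d * s * d⁻¹ * s⁻¹, ?_, ?_⟩
  · rw [omegaGL_eq_commutator]
    exact Subgroup.commutator_mem_commutator hdI hsI
  · have h6 : d * s * d⁻¹ * s⁻¹ = d * d := by
      have : d⁻¹ = s * d * s⁻¹ := h3.symm
      have h7 : d * s * d⁻¹ * s⁻¹ = d * (s * d⁻¹ * s⁻¹) := by group
      rw [h7]
      have h8 : s * d⁻¹ * s⁻¹ = (s * d * s⁻¹)⁻¹ := by group
      rw [h8, h3, inv_inv]
    rw [h6, sq]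
    exact hd.mul hQ hd h hm hm

/-- Scaling a hyperbolic pair by any scalar inside `Ω`. -/
theorem exists_scale [Fintype F] (hn : 7 ≤ Fintype.card ι) {v v' : ι → F} (h : Hyp Q v v') {l : F} (hl : l ≠ 0) :
    ∃ z ∈ omegaGL Q, (z : Matrix ι ι F) *ᵥ v = l • v ∧ (z : Matrix ι ι F) *ᵥ v' = l⁻¹ • v' := by
  have hW := Nd_WW hQ h
  have hfin := finrank_WW hQ v v'
  obtain ⟨e, he, he0, hQe⟩ := exists_singular hQ (WW hQ v v') (by omega)
  obtain ⟨e', he', hee'⟩ := hW.exists_partner hQ he he0 hQe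
  obtain ⟨d, hd⟩ := exists_dd hQ h hl
  have hdI := hd.iso hQ h hl
  obtain ⟨s, hs, hs1, hs2⟩ := exists_pair_move hQ hn h hee'
  have hsI := omega_iso hs
  have h1 := hd.conj hQ hsI
  rw [hs1, hs2] at h1
  have hv1 := (mem_WW hQ).mp he
  have hv2 := (mem_WW hQ).mp he'
  have h2 : ((s * d * s⁻¹ : GL ι F) : Matrix ι ι F) *ᵥ v = v :=
    h1.mulVec_fix hv1.1 hv2.1
  have h3 : ((s * d * s⁻¹ : GL ι F) : Matrix ι ι F) *ᵥ v' = v' :=
    h1.mulVec_fix hv1.2 hv2.2
  have h4 : ∀ y, ((s * d * s⁻¹ : GL ι F) : Matrix ι ι F) *ᵥ y = y → (((s * d * s⁻¹)⁻¹ : GL ι F) : Matrix ι ι F) *ᵥ y = y := by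
    intro y hy
    conv_lhs => rw [← hy]
    rw [inv_mulVec_mulVec]
  have e7 : d * s * d⁻¹ * s⁻¹ = d * (s * d * s⁻¹)⁻¹ := by group
  refine ⟨d * s * d⁻¹ * s⁻¹, ?_, ?_, ?_⟩
  · rw [omegaGL_eq_commutator]
    exact Subgroup.commutator_mem_commutator hdI hsI
  · rw [e7, Units.val_mul, ← Matrix.mulVec_mulVec, h4 v h2, hd.mulVec_left hQ h]
  · rw [e7, Units.val_mul, ← Matrix.mulVec_mulVec, h4 v' h3, hd.mulVec_right hQ h]

/-- Additivity of the Eichler formula in the parameter. -/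
theorem eE_add_param {a c c' : ι → F} (ha : Q a = 0) (hc : pol Q a c = 0) (hc' : pol Q a c' = 0) (x : ι → F) :
    eE Q a (c + c') x = eE Q a c (eE Q a c' x) := by
  have h1 := rr_add hQ ha hc hc'
  have h2 := congrArg (fun g : GL ι F => (g : Matrix ι ι F) *ᵥ x) h1
  simp only [Units.val_mul, ← Matrix.mulVec_mulVec] at h2
  rw [rr_mulVec hQ ha (by rw [pol_add_right hQ, hc, hc', add_zero]), rr_mulVec hQ ha hc', rr_mulVec hQ ha hc] at h2
  exact h2

theorem eE_zero_param {a : ι → F} (x : ι → F) : eE Q a 0 x = x := by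
  unfold eE
  rw [pol_zero_right hQ, Q_zero hQ]
  simp

theorem eE_iter {a c : ι → F} (ha : Q a = 0) (hc : pol Q a c = 0) (k : ℕ) (x : ι → F) :
    (eE Q a c)^[k] x = eE Q a ((k : F) • c) x := by
  induction k with
  | zero => simp [eE_zero_param hQ]
  | succ k ih =>
    rw [Function.iterate_succ_apply', ih, ← eE_add_param hQ ha hc (by rw [pol_smul_right hQ, hc, mul_zero])]
    congr 1
    push_cast
    module

end Cfsg.Agent.Lib.MinOmega
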