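/-
The family of annihilators of the Eichler stabilisers for a hyperbolic pair: invariance and counting.
-/
import Cfsg.Agent.Lib.MinOmega.Torus
set_option autoImplicit false

namespace Cfsg.Agent.Lib.MinOmega

open Cfsg Cfsg.Geo Cfsg.Agent.Lib.Geo.Basic Cfsg.Agent.Lib.Geo.QForm Cfsg.Agent.Lib.GeoOmega.Basic
open Cfsg.Agent.Lib.GeoOmega.Eichler
open scoped MatrixGroups Matrix
open scoped _root_.Classical

variable {ι : Type} [Fintype ι] [DecidableEq ι] {F : Type*} [Field F] [Fintype F] {Q : (ι → F) → F}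

/-- Context. -/
structure Ctx (hQ : IsNondegenerateQuadraticForm Q) {X : Type*} [Fintype X] (act : ↥(omegaGL Q) →* Equiv.Perm X)
    (ψ : AddChar F ℂ) (v v' : ι → F) : Prop where
  hn : 7 ≤ Fintype.card ι
  hψ : ∀ c : F, c ≠ 0 → ∃ t : F, ψ (t * c) ≠ 1
  h : Hyp Q v v'

/-- Admissible maps. -/
def Adm (Q : (ι → F) → F) (v v' : ι → F) (T : (ι → F) → (ι → F)) : Prop :=
  ∃ g ∈ omegaGL Q, ∃ μ : F, μ ≠ 0 ∧ (g : Matrix ι ι F) *ᵥ v = μ • v ∧ (g : Matrix ι ι F) *ᵥ v' = μ⁻¹ • v' ∧ T = Tw g μ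

/-- Number of members through a vector. -/
noncomputable def aa (𝓞 : Finset (Finset (ι → F))) (u : ι → F) : ℕ := (𝓞.filter fun S => u ∈ S).card

/-- Families stable under admissible maps. -/
def Inv (Q : (ι → F) → F) (v v' : ι → F) (𝓞 : Finset (Finset (ι → F))) : Prop :=
  ∀ T, Adm Q v v' T → ∀ S ∈ 𝓞, S.image T ∈ 𝓞

/-- Contained in a line. -/
def Line (S : Finset (ι → F)) : Prop := ∃ u : ι → F, ∀ x ∈ S, x ∈ Submodule.span F {u}

/-- Totally singular, not contained in a line. -/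
def Ts (Q : (ι → F) → F) (S : Finset (ι → F)) : Prop := (∀ x ∈ S, Q x = 0) ∧ ¬ Line S

section adm

variable {v v' : ι → F} {T : (ι → F) → (ι → F)}

theorem Adm.inj (hT : Adm Q v v' T) : Function.Injective T := by
  obtain ⟨g, -, μ, hμ, -, -, rfl⟩ := hT
  exact Tw_inj g hμ

theorem Adm.inv (hT : Adm Q v v' T) : ∃ T', Adm Q v v' T' ∧ (∀ u, T' (T u) = u) ∧ ∀ u, T (T' u) = u := by
  obtain ⟨g, hg, μ, hμ, h1, h2, rfl⟩ := hT
  refine ⟨Tw g⁻¹ μ⁻¹, ⟨g⁻¹, Subgroup.inv_mem _ hg, μ⁻¹, inv_ne_zero hμ, ginv_v hμ h1, ginv_v' hμ h2, rfl⟩, ?_, ?_⟩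
  · intro u
    simp only [Tw, Matrix.mulVec_smul, inv_inv, inv_mulVec_mulVec, smul_smul, mul_inv_cancel₀ hμ, one_smul]
  · intro u
    simp only [Tw, Matrix.mulVec_smul, inv_inv, mulVec_inv_mulVec, smul_smul, inv_mul_cancel₀ hμ, one_smul]

theorem Adm.add (hT : Adm Q v v' T) (x y : ι → F) : T (x + y) = T x + T y := by
  obtain ⟨g, -, μ, -, -, -, rfl⟩ := hT
  simp only [Tw, Matrix.mulVec_add, smul_add]

theorem Adm.smul (hT : Adm Q v v' T) (t : F) (x : ι → F) : T (t • x) = t • T x := by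
  obtain ⟨g, -, μ, -, -, -, rfl⟩ := hT
  simp only [Tw, Matrix.mulVec_smul, smul_comm t]

theorem Adm.zero (hT : Adm Q v v' T) : T 0 = 0 := by
  have := hT.smul 0 0
  simpa using this

theorem Adm.Q_eq (hQ : IsNondegenerateQuadraticForm Q) (hT : Adm Q v v' T) (x : ι → F) (hx : Q x = 0) : Q (T x) = 0 := by
  obtain ⟨g, hg, μ, -, -, -, rfl⟩ := hT
  rw [Tw, hQ.smul, (mem_isometryGroup_iff Q g).mp (omega_iso hg), hx, mul_zero]

theorem Adm.Line_iff (hT : Adm Q v v' T) (S : Finset (ι → F)) : Line (S.image T) ↔ Line S := by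
  obtain ⟨T', hT', h1, h2⟩ := hT.inv
  have key : ∀ {T T' : (ι → F) → (ι → F)}, Adm Q v v' T' → (∀ u, T' (T u) = u) → ∀ S : Finset (ι → F),
      Line (S.image T) → Line S := by
    intro T T' hT' h1 S ⟨w, hw⟩
    refine ⟨T' w, fun x hx => ?_⟩
    have h3 := hw (T x) (Finset.mem_image_of_mem _ hx)
    obtain ⟨t, ht⟩ := Submodule.mem_span_singleton.mp h3
    rw [Submodule.mem_span_singleton]
    refine ⟨t, ?_⟩
    rw [← hT'.smul, ht, h1]
  constructor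
  · exact key hT' h1 S
  · intro hS
    apply key hT h2
    have e : (S.image T).image T' = S := by
      rw [Finset.image_image]
      have : T' ∘ T = id := funext h1
      rw [this, Finset.image_id]
    rwa [e]

theorem Adm.Ts (hQ : IsNondegenerateQuadraticForm Q) (hT : Adm Q v v' T) {S : Finset (ι → F)} (hS : Ts Q S) :
    Cfsg.Agent.Lib.MinOmega.Ts Q (S.image T) := by
  refine ⟨?_, fun h => hS.2 ((hT.Line_iff S).mp h)⟩
  intro x hx
  obtain ⟨y, hy, rfl⟩ := Finset.mem_image.mp hx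
  exact hT.Q_eq hQ y (hS.1 y hy)

theorem Adm.card_image (hT : Adm Q v v' T) (S : Finset (ι → F)) : (S.image T).card = S.card :=
  Finset.card_image_of_injective _ hT.inj

theorem aa_inv (𝓞 : Finset (Finset (ι → F))) (hT : Function.Injective T) (h𝓞 : ∀ S ∈ 𝓞, S.image T ∈ 𝓞) (u : ι → F) :
    aa 𝓞 (T u) = aa 𝓞 u := by
  have himg : Function.Injective (fun S : Finset (ι → F) => S.image T) := Finset.image_injective hT
  have hbij : 𝓞.image (fun S => S.image T) = 𝓞 := by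
    apply Finset.eq_of_subset_of_card_le
    · intro y hy
      obtain ⟨S, hS, rfl⟩ := Finset.mem_image.mp hy
      exact h𝓞 S hS
    · rw [Finset.card_image_of_injective _ himg]
  unfold aa
  symm
  apply Finset.card_bij (fun S _ => S.image T)
  · intro S hS
    rw [Finset.mem_filter] at hS ⊢
    exact ⟨h𝓞 S hS.1, Finset.mem_image_of_mem _ hS.2⟩
  · intro a _ b _ hab
    exact himg hab
  · intro S' hS'
    rw [Finset.mem_filter] at hS'
    have h3 : S' ∈ 𝓞.image (fun S => S.image T) := by rw [hbij]; exact hS'.1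
    obtain ⟨S, hS, rfl⟩ := Finset.mem_image.mp h3
    refine ⟨S, ?_, rfl⟩
    rw [Finset.mem_filter]
    refine ⟨hS, ?_⟩
    obtain ⟨y, hy, hyu⟩ := Finset.mem_image.mp hS'.2
    rwa [← hT hyu]

end adm

namespace Ctx

variable {hQ : IsNondegenerateQuadraticForm Q} {X : Type*} [Fintype X] {act : ↥(omegaGL Q) →* Equiv.Perm X}
  {ψ : AddChar F ℂ} {v v' : ι → F} (C : Ctx hQ act ψ v v')

include C

theorem Nd : Nd Q (WW hQ v v') := Nd_WW hQ C.h

theorem finrank_W : 5 ≤ Module.finrank F (WW hQ v v') := by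
  have := finrank_WW hQ v v'
  have := C.hn
  omega

theorem Sf_zero {S : Finset (ι → F)} (hS : S ∈ Sf hQ act ψ v v') : (0 : ι → F) ∈ S := by
  obtain ⟨x, -, rfl⟩ := Finset.mem_image.mp hS
  exact ann_zero hQ _ _ _

theorem Sf_add {S : Finset (ι → F)} (hS : S ∈ Sf hQ act ψ v v') {x y : ι → F} (hx : x ∈ S) (hy : y ∈ S) : x + y ∈ S := by
  obtain ⟨z, -, rfl⟩ := Finset.mem_image.mp hS
  exact ann_add hQ _ _ _ hx hy

theorem Sf_neg {S : Finset (ι → F)} (hS : S ∈ Sf hQ act ψ v v') {x : ι → F} (hx : x ∈ S) : -x ∈ S := by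
  obtain ⟨z, -, rfl⟩ := Finset.mem_image.mp hS
  exact ann_neg hQ _ _ _ hx

theorem Sf_sub {S : Finset (ι → F)} (hS : S ∈ Sf hQ act ψ v v') {x : ι → F} (hx : x ∈ S) : x ∈ WW hQ v v' := by
  obtain ⟨z, -, rfl⟩ := Finset.mem_image.mp hS
  exact (mem_ann.mp hx).1

theorem Adm_Sf {T : (ι → F) → (ι → F)} (hT : Adm Q v v' T) {S : Finset (ι → F)} (hS : S ∈ Sf hQ act ψ v v') :
    S.image T ∈ Sf hQ act ψ v v' := by
  obtain ⟨g, hg, μ, hμ, h1, h2, rfl⟩ := hT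
  exact Sf_conj C.h C.hn hg hμ h1 h2 hS

theorem Adm_Xs {T : (ι → F) → (ι → F)} (hT : Adm Q v v' T) (S : Finset (ι → F)) :
    (Xs hQ act ψ v v' (S.image T)).card = (Xs hQ act ψ v v' S).card := by
  obtain ⟨g, hg, μ, hμ, h1, h2, rfl⟩ := hT
  exact card_Xs_conj C.h C.hn hg hμ h1 h2 S

theorem Adm_W {T : (ι → F) → (ι → F)} (hT : Adm Q v v' T) {u : ι → F} (hu : u ∈ WW hQ v v') : T u ∈ WW hQ v v' := by
  obtain ⟨g, hg, μ, hμ, h1, h2, rfl⟩ := hT
  exact Tw_mem_WW hg hμ h1 h2 hu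

/-- The Eichler maps are admissible. -/
theorem Adm_eE {a c : ι → F} (ha : a ∈ WW hQ v v') (hc : c ∈ WW hQ v v') (hQa : Q a = 0) (hac : pol Q a c = 0) :
    Adm Q v v' (eE Q a c) := by
  refine ⟨rr hQ a c, rr_mem hQ C.hn hQa hac, 1, one_ne_zero, ?_, ?_, ?_⟩
  · rw [rr_mulVec hQ hQa hac, one_smul]
    exact eE_fix (((mem_WW hQ).mp ha).1) (((mem_WW hQ).mp hc).1)
  · rw [rr_mulVec hQ hQa hac, inv_one, one_smul]
    exact eE_fix (((mem_WW hQ).mp ha).2) (((mem_WW hQ).mp hc).2)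
  · funext u
    rw [Tw, rr_mulVec hQ hQa hac, inv_one, one_smul]

/-- Scalings. -/
theorem Adm_scale {l : F} (hl : l ≠ 0) : ∃ T, Adm Q v v' T ∧ ∃ g ∈ isometryGroup F Q, ∀ u, T u = l⁻¹ • ((g : Matrix ι ι F) *ᵥ u) := by
  obtain ⟨z, hz, h1, h2⟩ := exists_scale hQ C.hn C.h hl
  exact ⟨Tw z l, ⟨z, hz, l, hl, h1, h2, rfl⟩, z, omega_iso hz, fun u => rfl⟩

/-- Constancy on vectors of the same norm. -/
theorem aa_norm {𝓞 : Finset (Finset (ι → F))} (h𝓞 : Inv Q v v' 𝓞) {x y : ι → F} (hx : x ∈ WW hQ v v')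
    (hy : y ∈ WW hQ v v') (hx0 : x ≠ 0) (hy0 : y ≠ 0) (hxy : Q x = Q y) : aa 𝓞 x = aa 𝓞 y := by
  refine norm_class hQ C.Nd C.finrank_W (aa 𝓞) ?_ hx hy hx0 hy0 hxy
  intro a c z ha hc _ hQa hac
  have hT := C.Adm_eE ha hc hQa hac
  exact aa_inv 𝓞 hT.inj (h𝓞 _ hT) z

/-- Constancy on classes modulo squares. -/
theorem aa_class {𝓞 : Finset (Finset (ι → F))} (h𝓞 : Inv Q v v' 𝓞) {x y : ι → F} (hx : x ∈ WW hQ v v')
    (hy : y ∈ WW hQ v v') (hx0 : x ≠ 0) (hy0 : y ≠ 0) {m : F} (hm : m ≠ 0) (hxy : Q y = m ^ 2 * Q x) : aa 𝓞 y = aa 𝓞 x := by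
  obtain ⟨T, hT, g, hg, hTg⟩ := C.Adm_scale (inv_ne_zero hm)
  have h1 := aa_inv 𝓞 hT.inj (h𝓞 _ hT) x
  rw [← h1]
  refine C.aa_norm h𝓞 hy (C.Adm_W hT hx) hy0 ?_ ?_
  · intro h0
    apply hx0
    apply hT.inj
    rw [h0, hT.zero]
  · rw [hTg, hQ.smul, (mem_isometryGroup_iff Q g).mp hg, inv_inv, hxy]

/-- The class of a vector. -/
noncomputable def _root_.Cfsg.Agent.Lib.MinOmega.Cl (hQ : IsNondegenerateQuadraticForm Q) (v v' u : ι → F) : Finset (ι → F) :=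
  Finset.univ.filter fun y => y ∈ WW hQ v v' ∧ y ≠ 0 ∧ ∃ m : F, m ≠ 0 ∧ Q y = m ^ 2 * Q u

omit C in
theorem _root_.Cfsg.Agent.Lib.MinOmega.mem_Cl {hQ : IsNondegenerateQuadraticForm Q} {v v' u y : ι → F} :
    y ∈ Cl hQ v v' u ↔ y ∈ WW hQ v v' ∧ y ≠ 0 ∧ ∃ m : F, m ≠ 0 ∧ Q y = m ^ 2 * Q u := by
  simp [Cl]

/-- Double counting. -/
theorem aa_mul_Cl_le {𝓞 : Finset (Finset (ι → F))} (hsub : 𝓞 ⊆ Sf hQ act ψ v v') (h𝓞 : Inv Q v v' 𝓞) {u : ι → F}
    (hu : u ∈ WW hQ v v') (hu0 : u ≠ 0) : aa 𝓞 u * (Cl hQ v v' u).card ≤ ∑ S ∈ 𝓞, (S.card - 1) := by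
  have h1 : ∑ y ∈ Cl hQ v v' u, aa 𝓞 y = aa 𝓞 u * (Cl hQ v v' u).card := by
    rw [mul_comm, ← smul_eq_mul, ← Finset.sum_const]
    apply Finset.sum_congr rfl
    intro y hy
    obtain ⟨hyW, hy0, m, hm, hym⟩ := mem_Cl.mp hy
    exact C.aa_class h𝓞 hu hyW hu0 hy0 hm hym
  rw [← h1]
  have h2 := Finset.sum_card_bipartiteAbove_eq_sum_card_bipartiteBelow (s := 𝓞) (t := Cl hQ v v' u)
    (fun S y => y ∈ S)
  unfold Finset.bipartiteAbove Finset.bipartiteBelow at h2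
  have h3 : ∑ y ∈ Cl hQ v v' u, aa 𝓞 y = ∑ S ∈ 𝓞, ((Cl hQ v v' u).filter fun y => y ∈ S).card := h2.symm
  rw [h3]
  apply Finset.sum_le_sum
  intro S hS
  have h0S := C.Sf_zero (hsub hS)
  have h4 : (Cl hQ v v' u).filter (fun y => y ∈ S) ⊆ S.erase 0 := by
    intro y hy
    rw [Finset.mem_filter] at hy
    rw [Finset.mem_erase]
    exact ⟨(mem_Cl.mp hy.1).2.1, hy.2⟩
  have h5 := Finset.card_le_card h4
  rwa [Finset.card_erase_of_mem h0S] at h5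

/-- The points above a subfamily. -/
theorem sum_Xs_le {𝓞 : Finset (Finset (ι → F))} : ∑ S ∈ 𝓞, (Xs hQ act ψ v v' S).card ≤ Fintype.card X := by
  rw [← Finset.card_biUnion]
  · exact Finset.card_le_univ _
  · intro S _ S' _ hne
    rw [Function.onFun, Finset.disjoint_left]
    intro x hx hx'
    simp only [Xs, Finset.mem_filter, Finset.mem_univ, true_and] at hx hx'
    exact hne (hx.symm.trans hx')

theorem sum_Xs_eq : ∑ S ∈ Sf hQ act ψ v v', (Xs hQ act ψ v v' S).card = Fintype.card X := by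
  rw [← Finset.card_univ, Finset.card_eq_sum_card_image (Ss hQ act ψ v v') Finset.univ]
  rfl

theorem card_le_Xs' {S : Finset (ι → F)} (hS : S ∈ Sf hQ act ψ v v') : S.card ≤ (Xs hQ act ψ v v' S).card := by
  obtain ⟨x, -, rfl⟩ := Finset.mem_image.mp hS
  exact card_le_Xs C.h C.hn C.hψ x

theorem Xs_dich' {S : Finset (ι → F)} (hS : S ∈ Sf hQ act ψ v v') :
    (Xs hQ act ψ v v' S).card = S.card ∨ 2 * S.card ≤ (Xs hQ act ψ v v' S).card := by
  obtain ⟨x, -, rfl⟩ := Finset.mem_image.mp hS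
  rcases Xs_dich (hQ := hQ) (act := act) C.h C.hn C.hψ x with h1 | h1
  · left
    rw [h1, card_Orb_eq C.h C.hn C.hψ x]
  · right
    exact h1

theorem sum_card_le {𝓞 : Finset (Finset (ι → F))} (hsub : 𝓞 ⊆ Sf hQ act ψ v v') :
    ∑ S ∈ 𝓞, S.card ≤ Fintype.card X :=
  (Finset.sum_le_sum fun S hS => C.card_le_Xs' (hsub hS)).trans (C.sum_Xs_le)

/-- The basic inequality for a non-zero vector. -/
theorem aa_mul_Cl_le_card {𝓞 : Finset (Finset (ι → F))} (hsub : 𝓞 ⊆ Sf hQ act ψ v v') (h𝓞 : Inv Q v v' 𝓞) {u : ι → F}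
    (hu : u ∈ WW hQ v v') (hu0 : u ≠ 0) : aa 𝓞 u * (Cl hQ v v' u).card ≤ Fintype.card X := by
  refine (C.aa_mul_Cl_le hsub h𝓞 hu hu0).trans ((Finset.sum_le_sum fun S _ => Nat.sub_le _ _).trans (C.sum_card_le hsub))

omit C

end Ctx

end Cfsg.Agent.Lib.MinOmega
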