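/-
The members of the family of annihilators: everything, contained in a line, or totally singular.
-/
import Cfsg.Agent.Lib.MinOmega.Fam
set_option autoImplicit false

namespace Cfsg.Agent.Lib.MinOmega

open Cfsg Cfsg.Geo Cfsg.Agent.Lib.Geo.Basic Cfsg.Agent.Lib.Geo.QForm Cfsg.Agent.Lib.GeoOmega.Basic
open Cfsg.Agent.Lib.GeoOmega.Eichler
open scoped MatrixGroups Matrix
open scoped _root_.Classical

/-- A map of prime period on a set with fewer than `p` elements is trivial. -/
theorem prime_fix {α : Type*} (A : Finset α) (τ : α → α) (hτ : ∀ a ∈ A, τ a ∈ A) {p : ℕ} (hp : p.Prime)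
    (hper : ∀ a ∈ A, τ^[p] a = a) (hcard : A.card < p) : ∀ a ∈ A, τ a = a := by
  intro a ha
  have h1 : Function.IsPeriodicPt τ p a := hper a ha
  have h2 := h1.minimalPeriod_dvd
  rcases (Nat.dvd_prime hp).mp h2 with h3 | h3
  · exact Function.minimalPeriod_eq_one_iff_isFixedPt.mp h3
  · exfalso
    have hiter : ∀ k, τ^[k] a ∈ A := by
      intro k
      induction k with
      | zero => exact ha
      | succ k ih =>
        rw [Function.iterate_succ_apply']
        exact hτ _ ih
    have hinj := Function.iterate_injOn_Iio_minimalPeriod (f := τ) (x := a)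
    rw [h3] at hinj
    have h4 : (Finset.range p).card ≤ A.card := by
      apply Finset.card_le_card_of_injOn (fun k => τ^[k] a)
      · intro k _
        exact hiter k
      · intro x hx y hy hxy
        apply hinj _ _ hxy
        · simpa using hx
        · simpa using hy
    rw [Finset.card_range] at h4
    omega

variable {ι : Type} [Fintype ι] [DecidableEq ι] {F : Type*} [Field F] [Fintype F] {Q : (ι → F) → F}

theorem image_iter {α : Type*} [DecidableEq α] (T : α → α) (S : Finset α) (k : ℕ) :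
    (fun S : Finset α => S.image T)^[k] S = S.image (T^[k]) := by
  induction k with
  | zero => simp
  | succ k ih =>
    rw [Function.iterate_succ_apply', ih, Finset.image_image, Function.iterate_succ']

namespace Ctx

variable {hQ : IsNondegenerateQuadraticForm Q} {X : Type*} [Fintype X] {act : ↥(omegaGL Q) →* Equiv.Perm X}
  {ψ : AddChar F ℂ} {v v' : ι → F} (C : Ctx hQ act ψ v v')

include C

theorem Sf_inv : Inv Q v v' (Sf hQ act ψ v v') := fun _ hT _ hS => C.Adm_Sf hT hS

/-- Number of members through a non-singular vector is smaller than the characteristic. -/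
theorem aa_lt_char {N₀ : ℕ} (hN : Fintype.card X < N₀) {u : ι → F} (hu : u ∈ WW hQ v v') (hu0 : u ≠ 0)
    (hCl : N₀ ≤ ringChar F * (Cl hQ v v' u).card) : aa (Sf hQ act ψ v v') u < ringChar F := by
  have h1 := C.aa_mul_Cl_le_card (Finset.Subset.refl _) C.Sf_inv hu hu0
  have h2 := h1.trans_lt (hN.trans_le hCl)
  exact Nat.lt_of_mul_lt_mul_right h2

/-- Eichler elements centralising a non-singular vector fix all members through it. -/
theorem eE_stable {N₀ : ℕ} (hN : Fintype.card X < N₀) {u : ι → F} (hu : u ∈ WW hQ v v') (hu0 : u ≠ 0)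
    (hCl : N₀ ≤ ringChar F * (Cl hQ v v' u).card) {a c : ι → F} (ha : a ∈ WW hQ v v') (hc : c ∈ WW hQ v v')
    (hQa : Q a = 0) (hac : pol Q a c = 0) (hua : pol Q u a = 0) (huc : pol Q u c = 0) {S : Finset (ι → F)}
    (hS : S ∈ Sf hQ act ψ v v') (huS : u ∈ S) : S.image (eE Q a c) = S := by
  have hT := C.Adm_eE ha hc hQa hac
  have hp : (ringChar F).Prime := CharP.char_is_prime F (ringChar F)
  refine prime_fix ((Sf hQ act ψ v v').filter fun S => u ∈ S) (fun S => S.image (eE Q a c)) ?_ hp ?_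
    (C.aa_lt_char hN hu hu0 hCl) S (Finset.mem_filter.mpr ⟨hS, huS⟩)
  · intro S hS
    rw [Finset.mem_filter] at hS ⊢
    refine ⟨C.Adm_Sf hT hS.1, Finset.mem_image.mpr ⟨u, hS.2, eE_fix hua huc⟩⟩
  · intro S _
    rw [image_iter]
    have : (eE Q a c)^[ringChar F] = id := by
      funext x
      rw [eE_iter hQ hQa hac, ringChar.Nat.cast_ringChar, zero_smul, eE_zero_param hQ]
      rfl
    rw [this, Finset.image_id]

/-- The additive subgroup of a member. -/
noncomputable def toAdd {S : Finset (ι → F)} (hS : S ∈ Sf hQ act ψ v v') : AddSubgroup (ι → F) where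
  carrier := S
  zero_mem' := C.Sf_zero hS
  add_mem' := fun hx hy => C.Sf_add hS hx hy
  neg_mem' := fun hx => C.Sf_neg hS hx

/-- **Trichotomy**. -/
theorem tri {N₀ : ℕ} (hN : Fintype.card X < N₀) (hdim' : (2 : F) = 0 → 6 ≤ Module.finrank F (WW hQ v v'))
    (hCl : ∀ u ∈ WW hQ v v', Q u ≠ 0 → N₀ ≤ ringChar F * (Cl hQ v v' u).card)
    {S : Finset (ι → F)} (hS : S ∈ Sf hQ act ψ v v') :
    (∀ x ∈ WW hQ v v', x ∈ S) ∨ Line S ∨ Ts Q S := by
  by_cases hsing : ∀ x ∈ S, Q x = 0
  · by_cases hl : Line S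
    · exact Or.inr (Or.inl hl)
    · exact Or.inr (Or.inr ⟨hsing, hl⟩)
  · push Not at hsing
    obtain ⟨u, huS, hQu⟩ := hsing
    have hmem : ∀ x, x ∈ C.toAdd hS ↔ x ∈ S := fun x => Iff.rfl
    have key := caseA hQ C.Nd C.finrank_W hdim' (C.toAdd hS) (fun x hx => C.Sf_sub hS ((hmem x).mp hx)) ?_
      (u := u) ((hmem u).mpr huS) hQu
    · rcases key with h1 | h1
      · exact Or.inr (Or.inl ⟨u, fun x hx => h1 x ((hmem x).mpr hx)⟩)
      · exact Or.inl (fun x hx => (hmem x).mp (h1 x hx))
    · intro u₁ hu₁ hQu₁ a c ha hc hQa hac hua huc y hy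
      have hu₁S := (hmem u₁).mp hu₁
      have hu₁0 : u₁ ≠ 0 := by
        rintro rfl
        exact hQu₁ (Q_zero hQ)
      have h1 := C.eE_stable hN (C.Sf_sub hS hu₁S) hu₁0 (hCl u₁ (C.Sf_sub hS hu₁S) hQu₁) ha hc hQa hac hua huc hS hu₁S
      rw [hmem] at hy ⊢
      rw [← h1]
      exact Finset.mem_image_of_mem _ hy

end Ctx

end Cfsg.Agent.Lib.MinOmega
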