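/-
Totally singular members of the family of annihilators: counting.
-/
import Cfsg.Agent.Lib.MinOmega.Struct
set_option autoImplicit false

namespace Cfsg.Agent.Lib.MinOmega

open Cfsg Cfsg.Geo Cfsg.Agent.Lib.Geo.Basic Cfsg.Agent.Lib.Geo.QForm Cfsg.Agent.Lib.GeoOmega.Basic
open Cfsg.Agent.Lib.GeoOmega.Eichler
open scoped MatrixGroups Matrix
open scoped _root_.Classical

variable {ι : Type} [Fintype ι] [DecidableEq ι] {F : Type*} [Field F] [Fintype F] {Q : (ι → F) → F}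

/-- Non-zero singular vectors of a subspace. -/
noncomputable def Sg (Q : (ι → F) → F) (R : Submodule F (ι → F)) : Finset (ι → F) :=
  Finset.univ.filter fun y => y ∈ R ∧ y ≠ 0 ∧ Q y = 0

theorem mem_Sg {R : Submodule F (ι → F)} {y : ι → F} : y ∈ Sg Q R ↔ y ∈ R ∧ y ≠ 0 ∧ Q y = 0 := by
  simp [Sg]

theorem Ts.exists_pair {S : Finset (ι → F)} (hS : Ts Q S) :
    ∃ u ∈ S, u ≠ 0 ∧ ∃ e ∈ S, e ∉ Submodule.span F {u} := by
  have h1 : ∀ w : ι → F, ∃ x ∈ S, x ∉ Submodule.span F {w} := by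
    intro w
    by_contra hcon
    push Not at hcon
    exact hS.2 ⟨w, hcon⟩
  obtain ⟨u, hu, hu0⟩ := h1 0
  refine ⟨u, hu, ?_, h1 u⟩
  rintro rfl
  exact hu0 (Submodule.zero_mem _)

section ts
variable (hQ : IsNondegenerateQuadraticForm Q)
include hQ

/-- Adding a singular vector to a totally singular subspace. -/
theorem ts_sup {T : Submodule F (ι → F)} (hT : ∀ x ∈ T, Q x = 0) {a : ι → F} (ha : Q a = 0)
    (hperp : ∀ x ∈ T, pol Q x a = 0) : ∀ x ∈ T ⊔ Submodule.span F {a}, Q x = 0 := by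
  intro x hx
  obtain ⟨y, hy, z, hz, rfl⟩ := Submodule.mem_sup.mp hx
  obtain ⟨t, rfl⟩ := Submodule.mem_span_singleton.mp hz
  rw [Q_add hQ, hT y hy, hQ.smul, ha, pol_smul_right hQ, hperp y hy]
  ring

omit hQ in
theorem finrank_sup_singleton {T : Submodule F (ι → F)} {a : ι → F} (ha : a ∉ T) :
    Module.finrank F (T ⊔ Submodule.span F {a} : Submodule F (ι → F)) = Module.finrank F T + 1 := by
  have h0 : a ≠ 0 := by
    rintro rfl
    exact ha (Submodule.zero_mem _)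
  have h1 := Submodule.finrank_sup_add_finrank_inf_eq T (Submodule.span F {a})
  have h2 : T ⊓ Submodule.span F {a} = ⊥ := by
    rw [Submodule.eq_bot_iff]
    rintro x ⟨hx1, hx2⟩
    obtain ⟨t, rfl⟩ := Submodule.mem_span_singleton.mp hx2
    by_contra hne
    have ht : t ≠ 0 := by
      rintro rfl
      simp at hne
    apply ha
    have := T.smul_mem t⁻¹ hx1
    rwa [smul_smul, inv_mul_cancel₀ ht, one_smul] at this
  rw [h2, finrank_bot, finrank_span_singleton h0] at h1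
  omega

/-- Witt bound in a subspace orthogonal to a hyperbolic pair. -/
theorem witt_step {w : ℕ} {R : Submodule F (ι → F)}
    (hw : ∀ T : Submodule F (ι → F), T ≤ R → (∀ x ∈ T, Q x = 0) → Module.finrank F T ≤ w + 1)
    {a b : ι → F} (ha : a ∈ R) (h : Hyp Q a b) :
    ∀ T : Submodule F (ι → F), T ≤ Ort hQ (Ort hQ R a) b → (∀ x ∈ T, Q x = 0) → Module.finrank F T ≤ w := by
  intro T hT hQT
  have hmem : ∀ x ∈ T, x ∈ R ∧ pol Q a x = 0 ∧ pol Q b x = 0 := by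
    intro x hx
    have := hT hx
    rw [mem_Ort hQ, mem_Ort hQ] at this
    exact ⟨this.1.1, this.1.2, this.2⟩
  have h1 : a ∉ T := by
    intro ha'
    have h2 := (hmem a ha').2.2
    rw [pol_symm hQ, h.hab] at h2
    exact one_ne_zero h2
  have h3 := hw (T ⊔ Submodule.span F {a}) ?_ (ts_sup hQ hQT h.ha ?_)
  · rw [finrank_sup_singleton h1] at h3
    omega
  · apply sup_le (fun x hx => (hmem x hx).1)
    rw [Submodule.span_singleton_le_iff_mem]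
    exact ha
  · intro x hx
    rw [pol_symm hQ]
    exact (hmem x hx).2.1

end ts

namespace Ctx

variable {hQ : IsNondegenerateQuadraticForm Q} {X : Type*} [Fintype X] {act : ↥(omegaGL Q) →* Equiv.Perm X}
  {ψ : AddChar F ℂ} {v v' : ι → F} (C : Ctx hQ act ψ v v')

include C

theorem Cl_singular {u : ι → F} (hu : Q u = 0) : Cl hQ v v' u = Sg Q (WW hQ v v') := by
  ext y
  rw [mem_Cl, mem_Sg]
  constructor
  · rintro ⟨h1, h2, m, _, h3⟩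
    exact ⟨h1, h2, by rw [h3, hu, mul_zero]⟩
  · rintro ⟨h1, h2, h3⟩
    exact ⟨h1, h2, 1, one_ne_zero, by rw [h3, hu, mul_zero]⟩

/-- Double counting, equality for families of totally singular subsets. -/
theorem sum_eq_aa {𝓞 : Finset (Finset (ι → F))} (hsub : 𝓞 ⊆ Sf hQ act ψ v v') (h𝓞 : Inv Q v v' 𝓞)
    (hsing : ∀ S ∈ 𝓞, ∀ x ∈ S, Q x = 0) {u : ι → F} (hu : u ∈ WW hQ v v') (hu0 : u ≠ 0) (hQu : Q u = 0) :
    ∑ S ∈ 𝓞, (S.card - 1) = aa 𝓞 u * (Sg Q (WW hQ v v')).card := by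
  have h1 : ∑ y ∈ Sg Q (WW hQ v v'), aa 𝓞 y = aa 𝓞 u * (Sg Q (WW hQ v v')).card := by
    rw [mul_comm, ← smul_eq_mul, ← Finset.sum_const]
    apply Finset.sum_congr rfl
    intro y hy
    obtain ⟨hyW, hy0, hQy⟩ := mem_Sg.mp hy
    exact C.aa_norm h𝓞 hyW hu hy0 hu0 (by rw [hQy, hQu])
  rw [← h1]
  have h2 := Finset.sum_card_bipartiteAbove_eq_sum_card_bipartiteBelow (s := 𝓞) (t := Sg Q (WW hQ v v'))
    (fun S y => y ∈ S)
  unfold Finset.bipartiteAbove Finset.bipartiteBelow at h2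
  have h3 : ∑ y ∈ Sg Q (WW hQ v v'), aa 𝓞 y = ∑ S ∈ 𝓞, ((Sg Q (WW hQ v v')).filter fun y => y ∈ S).card := h2.symm
  rw [h3]
  apply Finset.sum_congr rfl
  intro S hS
  have h4 : (Sg Q (WW hQ v v')).filter (fun y => y ∈ S) = S.erase 0 := by
    ext y
    rw [Finset.mem_filter, mem_Sg, Finset.mem_erase]
    constructor
    · rintro ⟨⟨_, h5, _⟩, h6⟩
      exact ⟨h5, h6⟩
    · rintro ⟨h5, h6⟩
      exact ⟨⟨C.Sf_sub (hsub hS) h6, h5, hsing S hS y h6⟩, h6⟩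
  rw [h4, Finset.card_erase_of_mem (C.Sf_zero (hsub hS))]

/-- Covering. -/
theorem cover {𝓞 : Finset (Finset (ι → F))} (hsub : 𝓞 ⊆ Sf hQ act ψ v v') (h𝓞 : Inv Q v v' 𝓞)
    (hsing : ∀ S ∈ 𝓞, ∀ x ∈ S, Q x = 0) {w : ℕ}
    (hw : ∀ T : Submodule F (ι → F), (∀ x ∈ T, Q x = 0) → Module.finrank F T ≤ w + 2)
    {s' : ℕ} (hs' : ∀ u u' : ι → F, u ∈ WW hQ v v' → u' ∈ WW hQ v v' → Hyp Q u u' →
      s' ≤ (Sg Q (Ort hQ (Ort hQ (WW hQ v v') u) u')).card)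
    {S₀ : Finset (ι → F)} (hS₀ : S₀ ∈ 𝓞) (hTs : Ts Q S₀) {u : ι → F} (hu : u ∈ WW hQ v v') (hu0 : u ≠ 0)
    (hQu : Q u = 0) : s' ≤ aa 𝓞 u * (Fintype.card F ^ w - 1) := by
  obtain ⟨u₀, hu₀, hu₀0, e₀, he₀, he₀u⟩ := hTs.exists_pair
  have hu₀W := C.Sf_sub (hsub hS₀) hu₀
  have hQu₀ := hTs.1 u₀ hu₀
  rw [C.aa_norm h𝓞 hu hu₀W hu0 hu₀0 (by rw [hQu, hQu₀])]
  obtain ⟨u₁, hu₁, hyp⟩ := C.Nd.exists_partner hQ hu₀W hu₀0 hQu₀
  have hd1 := finrank_Ort hQ (WW hQ v v') u₀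
  have hd2 := finrank_Ort hQ (Ort hQ (WW hQ v v') u₀) u₁
  have hd3 := finrank_WW hQ v v'
  have hn := C.hn
  have hw1 : ∀ T : Submodule F (ι → F), T ≤ Ort hQ (Ort hQ (WW hQ v v') u₀) u₁ → (∀ x ∈ T, Q x = 0) →
      Module.finrank F T ≤ w := by
    apply witt_step hQ _ hu₀W hyp
    apply witt_step hQ (R := ⊤) _ trivial C.h
    · exact fun T _ hT => hw T hT
  have hinv : ∀ a c, a ∈ WW hQ v v' → c ∈ WW hQ v v' → Q a = 0 → pol Q a c = 0 → ∀ S ∈ 𝓞, S.image (eE Q a c) ∈ 𝓞 :=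
    fun a c ha hc hQa hac S hS => h𝓞 _ (C.Adm_eE ha hc hQa hac) S hS
  have h3 := covering hQ 𝓞 (fun S hS x hx y hy => C.Sf_add (hsub hS) hx hy)
    (fun S hS x hx => ⟨C.Sf_sub (hsub hS) hx, hsing S hS x hx⟩) hinv C.Nd hu₀W hu₁ hyp (by omega) hS₀ hu₀ he₀ he₀u hw1
  exact (hs' u₀ u₁ hu₀W hu₁ hyp).trans h3

/-- The family of totally singular members of given shape. -/
noncomputable def _root_.Cfsg.Agent.Lib.MinOmega.TF (hQ : IsNondegenerateQuadraticForm Q) {X : Type*} [Fintype X]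
    (act : ↥(omegaGL Q) →* Equiv.Perm X) (ψ : AddChar F ℂ) (v v' : ι → F) (m x₀ : ℕ) : Finset (Finset (ι → F)) :=
  (Sf hQ act ψ v v').filter fun S => Ts Q S ∧ S.card = m ∧ (Xs hQ act ψ v v' S).card = x₀

theorem TF_inv (m x₀ : ℕ) : Inv Q v v' (TF hQ act ψ v v' m x₀) := by
  intro T hT S hS
  rw [TF, Finset.mem_filter] at hS ⊢
  obtain ⟨h1, h2, h3, h4⟩ := hS
  exact ⟨C.Adm_Sf hT h1, hT.Ts hQ h2, by rw [hT.card_image, h3], by rw [C.Adm_Xs hT, h4]⟩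

theorem TF_sub (m x₀ : ℕ) : TF hQ act ψ v v' m x₀ ⊆ Sf hQ act ψ v v' := Finset.filter_subset _ _

theorem TF_sing (m x₀ : ℕ) : ∀ S ∈ TF hQ act ψ v v' m x₀, ∀ x ∈ S, Q x = 0 := by
  intro S hS x hx
  rw [TF, Finset.mem_filter] at hS
  exact hS.2.1.1 x hx

/-- The numbers attached to a totally singular member. -/
theorem ts_numbers {S₀ : Finset (ι → F)} (hS₀ : S₀ ∈ Sf hQ act ψ v v') (hTs : Ts Q S₀) {w : ℕ}
    (hw : ∀ T : Submodule F (ι → F), (∀ x ∈ T, Q x = 0) → Module.finrank F T ≤ w + 2)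
    {s' : ℕ} (hs' : ∀ u u' : ι → F, u ∈ WW hQ v v' → u' ∈ WW hQ v v' → Hyp Q u u' →
      s' ≤ (Sg Q (Ort hQ (Ort hQ (WW hQ v v') u) u')).card) :
    ∃ κ c : ℕ, 1 ≤ κ ∧ κ * (S₀.card - 1) = c * (Sg Q (WW hQ v v')).card ∧
      κ * (Xs hQ act ψ v v' S₀).card ≤ Fintype.card X ∧ s' ≤ c * (Fintype.card F ^ w - 1) := by
  set 𝓞 := TF hQ act ψ v v' S₀.card (Xs hQ act ψ v v' S₀).card with h𝓞
  have hS₀𝓞 : S₀ ∈ 𝓞 := by
    rw [h𝓞, TF, Finset.mem_filter]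
    exact ⟨hS₀, hTs, rfl, rfl⟩
  obtain ⟨u, hu, hu0, -⟩ := hTs.exists_pair
  have huW := C.Sf_sub hS₀ hu
  have hQu := hTs.1 u hu
  refine ⟨𝓞.card, aa 𝓞 u, Finset.card_pos.mpr ⟨_, hS₀𝓞⟩, ?_, ?_, ?_⟩
  · rw [← C.sum_eq_aa (C.TF_sub _ _) (C.TF_inv _ _) (C.TF_sing _ _) huW hu0 hQu]
    rw [Finset.card_eq_sum_ones, Finset.sum_mul]
    refine Finset.sum_congr rfl fun S hS => ?_
    have hS' : S ∈ TF hQ act ψ v v' S₀.card (Xs hQ act ψ v v' S₀).card := hS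
    rw [TF, Finset.mem_filter] at hS'
    rw [hS'.2.2.1, one_mul]
  · refine le_trans ?_ (C.sum_Xs_le (𝓞 := 𝓞))
    rw [Finset.card_eq_sum_ones, Finset.sum_mul]
    refine le_of_eq (Finset.sum_congr rfl fun S hS => ?_)
    have hS' : S ∈ TF hQ act ψ v v' S₀.card (Xs hQ act ψ v v' S₀).card := hS
    rw [TF, Finset.mem_filter] at hS'
    rw [hS'.2.2.2, one_mul]
  · exact C.cover (C.TF_sub _ _) (C.TF_inv _ _) (C.TF_sing _ _) hw hs' hS₀𝓞 hTs huW hu0 hQu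

/-- **No totally singular members**, generic case. -/
theorem no_ts_generic {N₀ : ℕ} (hN : Fintype.card X < N₀) {w : ℕ}
    (hw : ∀ T : Submodule F (ι → F), (∀ x ∈ T, Q x = 0) → Module.finrank F T ≤ w + 2)
    {s' : ℕ} (hs' : ∀ u u' : ι → F, u ∈ WW hQ v v' → u' ∈ WW hQ v v' → Hyp Q u u' →
      s' ≤ (Sg Q (Ort hQ (Ort hQ (WW hQ v v') u) u')).card) {c₀ : ℕ}
    (hc₀ : ∀ c, s' ≤ c * (Fintype.card F ^ w - 1) → c₀ ≤ c) (hgen : N₀ ≤ (Sg Q (WW hQ v v')).card * c₀)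
    {S : Finset (ι → F)} (hS : S ∈ Sf hQ act ψ v v') : ¬ Ts Q S := by
  intro hTs
  obtain ⟨κ, c, hκ, h1, h2, h3⟩ := C.ts_numbers hS hTs hw hs'
  have h4 := hc₀ c h3
  have h5 := C.card_le_Xs' hS
  have h6 : (Sg Q (WW hQ v v')).card * c₀ ≤ κ * (S.card - 1) := by
    rw [h1, mul_comm]
    exact Nat.mul_le_mul_right _ h4
  have h7 : κ * (S.card - 1) ≤ κ * (Xs hQ act ψ v v' S).card :=
    Nat.mul_le_mul_left _ ((Nat.sub_le _ _).trans h5)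
  omega

end Ctx

end Cfsg.Agent.Lib.MinOmega
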