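/-
Moving a hyperbolic pair by an element of `Ω`; double counting of points and singular vectors.
-/
import Cfsg.Agent.Lib.MinOmega.TsCore
set_option autoImplicit false

namespace Cfsg.Agent.Lib.MinOmega

open Cfsg Cfsg.Geo Cfsg.Agent.Lib.Geo.Basic Cfsg.Agent.Lib.Geo.QForm Cfsg.Agent.Lib.GeoOmega.Basic
open Cfsg.Agent.Lib.GeoOmega.Eichler
open scoped MatrixGroups Matrix
open scoped _root_.Classical

variable {ι : Type} [Fintype ι] [DecidableEq ι] {F : Type*} [Field F] [Fintype F] {Q : (ι → F) → F}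
variable {hQ : IsNondegenerateQuadraticForm Q} {X : Type*} [Fintype X] {act : ↥(omegaGL Q) →* Equiv.Perm X}

/-- Conjugation in the action. -/
theorem AA_rr_conj (hn : 7 ≤ Fintype.card ι) {g : GL ι F} (hg : g ∈ omegaGL Q) {p b : ι → F} (hp : Q p = 0)
    (hb : pol Q p b = 0) (x : X) :
    AA act g (AA act (rr hQ p b) x) =
      AA act (rr hQ ((g : Matrix ι ι F) *ᵥ p) ((g : Matrix ι ι F) *ᵥ b)) (AA act g x) := by
  have hI := omega_iso hg
  have e := rr_conj hQ hI hp hb
  have e2 : g * rr hQ p b = rr hQ ((g : Matrix ι ι F) *ᵥ p) ((g : Matrix ι ι F) *ᵥ b) * g := by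
    rw [← e]
    group
  have hm1 := rr_mem hQ hn hp hb
  have hm2 : rr hQ ((g : Matrix ι ι F) *ᵥ p) ((g : Matrix ι ι F) *ᵥ b) ∈ omegaGL Q := by
    refine rr_mem hQ hn ?_ ?_
    · rw [(mem_isometryGroup_iff Q g).mp hI, hp]
    · rw [pol_isometry g hI, hb]
  have h3 := congrArg (AA act) e2
  rw [AA_mul act hg hm1, AA_mul act hm2 hg] at h3
  exact DFunLike.congr_fun h3 x

section move

variable {ψ : AddChar F ℂ} {v v' e e' : ι → F} (hn : 7 ≤ Fintype.card ι) {g : GL ι F} (hg : g ∈ omegaGL Q)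
  (h1 : (g : Matrix ι ι F) *ᵥ v = e) (h2 : (g : Matrix ι ι F) *ᵥ v' = e') (hQv : Q v = 0)

section
include hg h1 h2

theorem g_WW {b : ι → F} (hb : b ∈ WW hQ v v') : (g : Matrix ι ι F) *ᵥ b ∈ WW hQ e e' := by
  rw [mem_WW hQ] at *
  have hI := omega_iso hg
  rw [← h1, ← h2, pol_isometry g hI, pol_isometry g hI]
  exact hb

theorem ginv_WW {b : ι → F} (hb : b ∈ WW hQ e e') : ((g⁻¹ : GL ι F) : Matrix ι ι F) *ᵥ b ∈ WW hQ v v' := by
  refine g_WW (Subgroup.inv_mem _ hg) ?_ ?_ hb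
  · rw [← h1, inv_mulVec_mulVec]
  · rw [← h2, inv_mulVec_mulVec]

end

include hn hg h1 h2 hQv

theorem Yy_move {b : ι → F} {x : X} :
    b ∈ Yy hQ act v v' x ↔ b ∈ WW hQ v v' ∧ (g : Matrix ι ι F) *ᵥ b ∈ Yy hQ act e e' (AA act g x) := by
  constructor
  · intro hb
    obtain ⟨hb1, hb2⟩ := mem_Yy.mp hb
    refine ⟨hb1, mem_Yy.mpr ⟨g_WW hg h1 h2 hb1, ?_⟩⟩
    rw [← h1, ← AA_rr_conj hn hg hQv ((mem_WW hQ).mp hb1).1, hb2]
  · rintro ⟨hb1, hb2⟩
    obtain ⟨-, hb3⟩ := mem_Yy.mp hb2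
    rw [← h1, ← AA_rr_conj hn hg hQv ((mem_WW hQ).mp hb1).1] at hb3
    exact mem_Yy.mpr ⟨hb1, (AA act g).injective hb3⟩

theorem Ss_move (x : X) :
    Ss hQ act ψ e e' (AA act g x) = (Ss hQ act ψ v v' x).image fun u => (g : Matrix ι ι F) *ᵥ u := by
  have hI := omega_iso hg
  ext u'
  rw [Finset.mem_image]
  constructor
  · intro hu'
    rw [Ss, mem_ann] at hu'
    refine ⟨((g⁻¹ : GL ι F) : Matrix ι ι F) *ᵥ u', ?_, mulVec_inv_mulVec _ _⟩
    rw [Ss, mem_ann]
    refine ⟨ginv_WW hg h1 h2 hu'.1, fun b hb => ?_⟩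
    have h3 := hu'.2 _ ((Yy_move (hQ := hQ) (act := act) hn hg h1 h2 hQv).mp hb).2
    rw [← h3]
    congr 1
    have e1 := pol_isometry g hI (((g⁻¹ : GL ι F) : Matrix ι ι F) *ᵥ u') b
    rw [mulVec_inv_mulVec] at e1
    exact e1.symm
  · rintro ⟨u, hu, rfl⟩
    rw [Ss, mem_ann] at hu ⊢
    refine ⟨g_WW hg h1 h2 hu.1, fun b' hb' => ?_⟩
    have hb'W := Yy_sub hb'
    have hb : ((g⁻¹ : GL ι F) : Matrix ι ι F) *ᵥ b' ∈ Yy hQ act v v' x := by
      rw [Yy_move (hQ := hQ) (act := act) hn hg h1 h2 hQv]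
      refine ⟨ginv_WW hg h1 h2 hb'W, ?_⟩
      rw [mulVec_inv_mulVec]
      exact hb'
    have h3 := hu.2 _ hb
    rw [← h3]
    congr 1
    have e1 := pol_isometry g hI u (((g⁻¹ : GL ι F) : Matrix ι ι F) *ᵥ b')
    rw [mulVec_inv_mulVec] at e1
    exact e1

end move

/-- Isometries preserve `Ts`. -/
theorem Ts_image {g : GL ι F} (hg : g ∈ omegaGL Q) {S : Finset (ι → F)} (hS : Ts Q S) :
    Ts Q (S.image fun u => (g : Matrix ι ι F) *ᵥ u) := by
  constructor
  · intro x hx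
    obtain ⟨y, hy, rfl⟩ := Finset.mem_image.mp hx
    rw [(mem_isometryGroup_iff Q g).mp (omega_iso hg), hS.1 y hy]
  · rintro ⟨w, hw⟩
    apply hS.2
    refine ⟨((g⁻¹ : GL ι F) : Matrix ι ι F) *ᵥ w, fun x hx => ?_⟩
    have h3 := hw _ (Finset.mem_image_of_mem _ hx)
    obtain ⟨t, ht⟩ := Submodule.mem_span_singleton.mp h3
    rw [Submodule.mem_span_singleton]
    refine ⟨t, ?_⟩
    rw [← Matrix.mulVec_smul, ht, inv_mulVec_mulVec]

/-- Existence of totally singular members does not depend on the pair. -/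
theorem Ts_transfer {ψ : AddChar F ℂ} {v v' e e' : ι → F} (hn : 7 ≤ Fintype.card ι) (h : Hyp Q v v') (h' : Hyp Q e e')
    (hex : ∃ S ∈ Sf hQ act ψ v v', Ts Q S) : ∃ S ∈ Sf hQ act ψ e e', Ts Q S := by
  obtain ⟨S, hS, hTs⟩ := hex
  obtain ⟨g, hg, h1, h2⟩ := exists_pair_move hQ hn h h'
  obtain ⟨x, -, rfl⟩ := Finset.mem_image.mp hS
  refine ⟨Ss hQ act ψ e e' (AA act g x), Finset.mem_image_of_mem _ (Finset.mem_univ _), ?_⟩
  rw [Ss_move hn hg h1 h2 h.ha]
  exact Ts_image hg hTs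

/-- A vector is fixed by the whole Eichler group of `v`. -/
def FixAt (hQ : IsNondegenerateQuadraticForm Q) (act : ↥(omegaGL Q) →* Equiv.Perm X) (v : ι → F) (x : X) : Prop :=
  ∀ b, pol Q v b = 0 → AA act (rr hQ v b) x = x

/-- Only the trivial elements of the Eichler group of `v` fix the point. -/
def RegAt (hQ : IsNondegenerateQuadraticForm Q) (act : ↥(omegaGL Q) →* Equiv.Perm X) (v : ι → F) (x : X) : Prop :=
  ∀ b, pol Q v b = 0 → AA act (rr hQ v b) x = x → b ∈ Submodule.span F {v}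

theorem FixAt_move (hn : 7 ≤ Fintype.card ι) {g : GL ι F} (hg : g ∈ omegaGL Q) {v : ι → F} (hv : Q v = 0) (x : X) :
    FixAt hQ act ((g : Matrix ι ι F) *ᵥ v) (AA act g x) ↔ FixAt hQ act v x := by
  have hI := omega_iso hg
  constructor
  · intro h b hb
    have h1 := h ((g : Matrix ι ι F) *ᵥ b) (by rw [pol_isometry g hI, hb])
    rw [← AA_rr_conj hn hg hv hb] at h1
    exact (AA act g).injective h1
  · intro h b hb
    have e1 : b = (g : Matrix ι ι F) *ᵥ (((g⁻¹ : GL ι F) : Matrix ι ι F) *ᵥ b) := by rw [mulVec_inv_mulVec]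
    have hb' : pol Q v (((g⁻¹ : GL ι F) : Matrix ι ι F) *ᵥ b) = 0 := by
      rw [← pol_isometry g hI, mulVec_inv_mulVec]
      exact hb
    rw [e1, ← AA_rr_conj hn hg hv hb', h _ hb']

theorem RegAt_move (hn : 7 ≤ Fintype.card ι) {g : GL ι F} (hg : g ∈ omegaGL Q) {v : ι → F} (hv : Q v = 0) (x : X) :
    RegAt hQ act ((g : Matrix ι ι F) *ᵥ v) (AA act g x) ↔ RegAt hQ act v x := by
  have hI := omega_iso hg
  constructor
  · intro h b hb hx
    have h1 := h ((g : Matrix ι ι F) *ᵥ b) (by rw [pol_isometry g hI, hb]) (by rw [← AA_rr_conj hn hg hv hb, hx])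
    obtain ⟨t, ht⟩ := Submodule.mem_span_singleton.mp h1
    rw [Submodule.mem_span_singleton]
    refine ⟨t, ?_⟩
    rw [← Matrix.mulVec_smul] at ht
    have := congrArg (fun y => ((g⁻¹ : GL ι F) : Matrix ι ι F) *ᵥ y) ht
    simpa [inv_mulVec_mulVec] using this
  · intro h b hb hx
    have e1 : b = (g : Matrix ι ι F) *ᵥ (((g⁻¹ : GL ι F) : Matrix ι ι F) *ᵥ b) := by rw [mulVec_inv_mulVec]
    have hb' : pol Q v (((g⁻¹ : GL ι F) : Matrix ι ι F) *ᵥ b) = 0 := by
      rw [← pol_isometry g hI, mulVec_inv_mulVec]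
      exact hb
    rw [e1, ← AA_rr_conj hn hg hv hb'] at hx
    have h1 := h _ hb' ((AA act g).injective hx)
    obtain ⟨t, ht⟩ := Submodule.mem_span_singleton.mp h1
    rw [Submodule.mem_span_singleton]
    refine ⟨t, ?_⟩
    rw [e1, ← ht, Matrix.mulVec_smul]

theorem FixAt_smul {t : F} (ht : t ≠ 0) {v : ι → F} (hv : Q v = 0) (x : X) : FixAt hQ act (t • v) x ↔ FixAt hQ act v x := by
  constructor
  · intro h b hb
    have h1 := h (t⁻¹ • b) (by rw [pol_smul_left hQ, pol_smul_right hQ, hb]; ring)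
    rw [rr_smul_left hQ t ht hv (by rw [pol_smul_right hQ, hb, mul_zero]), smul_smul, mul_inv_cancel₀ ht, one_smul] at h1
    exact h1
  · intro h b hb
    have hb' : pol Q v b = 0 := by
      rw [pol_smul_left hQ] at hb
      exact (mul_eq_zero.mp hb).resolve_left ht
    rw [rr_smul_left hQ t ht hv hb']
    exact h _ (by rw [pol_smul_right hQ, hb', mul_zero])

theorem RegAt_smul {t : F} (ht : t ≠ 0) {v : ι → F} (hv : Q v = 0) (x : X) : RegAt hQ act (t • v) x ↔ RegAt hQ act v x := by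
  constructor
  · intro h b hb hx
    have h1 := h (t⁻¹ • b) (by rw [pol_smul_left hQ, pol_smul_right hQ, hb]; ring)
      (by rw [rr_smul_left hQ t ht hv (by rw [pol_smul_right hQ, hb, mul_zero]), smul_smul, mul_inv_cancel₀ ht, one_smul]
          exact hx)
    obtain ⟨s, hs⟩ := Submodule.mem_span_singleton.mp h1
    rw [Submodule.mem_span_singleton]
    refine ⟨t * (s * t), ?_⟩
    have e : b = t • (t⁻¹ • b) := by rw [smul_smul, mul_inv_cancel₀ ht, one_smul]
    rw [e, ← hs, smul_smul, smul_smul]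
    congr 1
    field_simp
  · intro h b hb hx
    have hb' : pol Q v b = 0 := by
      rw [pol_smul_left hQ] at hb
      exact (mul_eq_zero.mp hb).resolve_left ht
    rw [rr_smul_left hQ t ht hv hb'] at hx
    have h1 := h (t • b) (by rw [pol_smul_right hQ, hb', mul_zero]) hx
    obtain ⟨s, hs⟩ := Submodule.mem_span_singleton.mp h1
    rw [Submodule.mem_span_singleton]
    refine ⟨t⁻¹ * (s * t⁻¹), ?_⟩
    have e : b = t⁻¹ • (t • b) := by rw [smul_smul, inv_mul_cancel₀ ht, one_smul]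
    rw [e, ← hs, smul_smul, smul_smul]
    congr 1
    field_simp

/-- The number of elements of a scalar-closed set of non-zero vectors. -/
theorem card_scalar_closed (A : Finset (ι → F)) (h0 : ∀ x ∈ A, x ≠ 0)
    (hA : ∀ x ∈ A, ∀ t : F, t ≠ 0 → t • x ∈ A) : (Fintype.card F - 1) ∣ A.card := by
  induction' hc : A.card using Nat.strong_induction_on with n ih generalizing A
  by_cases hne : A.Nonempty
  · obtain ⟨x, hx⟩ := hne
    set L : Finset (ι → F) := (Finset.univ.filter fun t : F => t ≠ 0).image fun t => t • x with hL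
    have hLsub : L ⊆ A := by
      intro y hy
      obtain ⟨t, ht, rfl⟩ := Finset.mem_image.mp hy
      exact hA x hx t (by simpa using ht)
    have hLcard : L.card = Fintype.card F - 1 := by
      rw [hL, Finset.card_image_of_injOn]
      · rw [Finset.filter_ne', Finset.card_erase_of_mem (Finset.mem_univ _), Finset.card_univ]
      · intro s _ t _ hst
        exact smul_left_injective F (h0 x hx) hst
    have hLpos : 0 < L.card := Finset.card_pos.mpr ⟨(1 : F) • x, Finset.mem_image.mpr ⟨1, by simp, rfl⟩⟩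
    have hA' := ih (A \ L).card (by
      rw [← hc, Finset.card_sdiff_of_subset hLsub]
      have := Finset.card_le_card hLsub
      omega) (A \ L) (fun y hy => h0 y (Finset.mem_sdiff.mp hy).1) ?_ rfl
    · have e : A.card = (A \ L).card + L.card := by
        rw [Finset.card_sdiff_of_subset hLsub]
        have := Finset.card_le_card hLsub
        omega
      rw [← hc, e, hLcard]
      exact Dvd.dvd.add hA' (dvd_refl _)
    · intro y hy t ht
      rw [Finset.mem_sdiff] at hy ⊢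
      refine ⟨hA y hy.1 t ht, fun hmem => hy.2 ?_⟩
      obtain ⟨s, hs, hsy⟩ := Finset.mem_image.mp hmem
      have hs0 : s ≠ 0 := by simpa using hs
      refine Finset.mem_image.mpr ⟨t⁻¹ * s, ?_, ?_⟩
      · simp [ht, hs0]
      · rw [mul_smul, hsy, smul_smul, inv_mul_cancel₀ ht, one_smul]
  · rw [Finset.not_nonempty_iff_eq_empty] at hne
    subst hne
    simp at hc
    rw [← hc]
    exact dvd_zero _

include hQ in
/-- **Double counting of points of `X` and singular vectors.** -/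
theorem double_count (hn : 7 ≤ Fintype.card ι) (htr : ∀ x y : X, ∃ g ∈ omegaGL Q, AA act g x = y)
    (P : (ι → F) → X → Prop)
    (hP : ∀ g ∈ omegaGL Q, ∀ v x, Q v = 0 → (P ((g : Matrix ι ι F) *ᵥ v) (AA act g x) ↔ P v x))
    (hS : ∀ (t : F), t ≠ 0 → ∀ v x, Q v = 0 → (P (t • v) x ↔ P v x)) {v₀ : ι → F} (hv₀ : v₀ ≠ 0) (hQv₀ : Q v₀ = 0)
    (x₀ : X) : ∃ α : ℕ, Fintype.card X * ((Fintype.card F - 1) * α) =
      (Sg Q (⊤ : Submodule F (ι → F))).card * (Finset.univ.filter fun x => P v₀ x).card := by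
  have hfv : ∀ v ∈ Sg Q (⊤ : Submodule F (ι → F)),
      (Finset.univ.filter fun x => P v x).card = (Finset.univ.filter fun x => P v₀ x).card := by
    intro v hv
    obtain ⟨-, hv0, hQv⟩ := mem_Sg.mp hv
    obtain ⟨g, hg, hgv⟩ := exists_omega_move hQ hn hv₀ hv0 (by rw [hQv₀, hQv])
    symm
    apply Finset.card_bij (fun x _ => AA act g x)
    · intro x hx
      simp only [Finset.mem_filter, Finset.mem_univ, true_and] at hx ⊢
      rw [← hgv]
      exact (hP g hg v₀ x hQv₀).mpr hx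
    · intro a _ b _ hab
      exact (AA act g).injective hab
    · intro y hy
      simp only [Finset.mem_filter, Finset.mem_univ, true_and] at hy
      refine ⟨(AA act g)⁻¹ y, ?_, by simp⟩
      simp only [Finset.mem_filter, Finset.mem_univ, true_and]
      rw [← hgv] at hy
      have e : y = AA act g ((AA act g)⁻¹ y) := by simp
      rw [e] at hy
      exact (hP g hg v₀ _ hQv₀).mp hy
  have hax : ∀ x, ((Sg Q (⊤ : Submodule F (ι → F))).filter fun v => P v x).card =
      ((Sg Q (⊤ : Submodule F (ι → F))).filter fun v => P v x₀).card := by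
    intro x
    obtain ⟨g, hg, hgx⟩ := htr x₀ x
    have hI := omega_iso hg
    symm
    apply Finset.card_bij (fun v _ => (g : Matrix ι ι F) *ᵥ v)
    · intro v hv
      rw [Finset.mem_filter, mem_Sg] at hv ⊢
      obtain ⟨⟨_, hv0, hQv⟩, hPv⟩ := hv
      refine ⟨⟨trivial, ?_, by rw [(mem_isometryGroup_iff Q g).mp hI, hQv]⟩, ?_⟩
      · intro h
        apply hv0
        have := congrArg (fun y => ((g⁻¹ : GL ι F) : Matrix ι ι F) *ᵥ y) h
        simpa [inv_mulVec_mulVec] using this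
      · rw [← hgx]
        exact (hP g hg v x₀ hQv).mpr hPv
    · intro a _ b _ hab
      have := congrArg (fun y => ((g⁻¹ : GL ι F) : Matrix ι ι F) *ᵥ y) hab
      simpa [inv_mulVec_mulVec] using this
    · intro w hw
      rw [Finset.mem_filter, mem_Sg] at hw
      obtain ⟨⟨_, hw0, hQw⟩, hPw⟩ := hw
      refine ⟨((g⁻¹ : GL ι F) : Matrix ι ι F) *ᵥ w, ?_, mulVec_inv_mulVec _ _⟩
      have hQw' : Q (((g⁻¹ : GL ι F) : Matrix ι ι F) *ᵥ w) = 0 := by
        rw [(mem_isometryGroup_iff Q g⁻¹).mp ((isometryGroup F Q).inv_mem hI), hQw]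
      rw [Finset.mem_filter, mem_Sg]
      refine ⟨⟨trivial, ?_, hQw'⟩, ?_⟩
      · intro h
        apply hw0
        have := congrArg (fun y => (g : Matrix ι ι F) *ᵥ y) h
        simpa [mulVec_inv_mulVec] using this
      · rw [← hgx] at hPw
        have h5 := (hP g hg _ x₀ hQw').mp (by rwa [mulVec_inv_mulVec])
        exact h5
  have hdvd : (Fintype.card F - 1) ∣ ((Sg Q (⊤ : Submodule F (ι → F))).filter fun v => P v x₀).card := by
    apply card_scalar_closed
    · intro x hx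
      exact (mem_Sg.mp (Finset.mem_filter.mp hx).1).2.1
    · intro x hx t ht
      rw [Finset.mem_filter, mem_Sg] at hx ⊢
      obtain ⟨⟨_, hv0, hQv⟩, hPv⟩ := hx
      refine ⟨⟨trivial, smul_ne_zero ht hv0, by rw [hQ.smul, hQv, mul_zero]⟩, (hS t ht x x₀ hQv).mpr hPv⟩
  obtain ⟨α, hα⟩ := hdvd
  refine ⟨α, ?_⟩
  rw [← hα]
  have h2 := Finset.sum_card_bipartiteAbove_eq_sum_card_bipartiteBelow
    (s := (Finset.univ : Finset X)) (t := Sg Q (⊤ : Submodule F (ι → F))) (fun x v => P v x)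
  unfold Finset.bipartiteAbove Finset.bipartiteBelow at h2
  rw [Finset.sum_congr rfl (fun x _ => hax x), Finset.sum_congr rfl hfv] at h2
  simpa using h2

end Cfsg.Agent.Lib.MinOmega
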