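/-
The exceptional dimensions: the structure of the family when a totally singular member exists.
-/
import Cfsg.Agent.Lib.MinOmega.Move
set_option autoImplicit false

namespace Cfsg.Agent.Lib.MinOmega

open Cfsg Cfsg.Geo Cfsg.Agent.Lib.Geo.Basic Cfsg.Agent.Lib.Geo.QForm Cfsg.Agent.Lib.GeoOmega.Basic
open Cfsg.Agent.Lib.GeoOmega.Eichler
open scoped MatrixGroups Matrix
open scoped _root_.Classical

theorem num_B {m M N₀ A κ N : ℕ} (hm : 2 ≤ m) (h2m : 2 * m ≤ M) (hN : N < N₀) (hκm : κ * m ≤ N)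
    (hκA : A ≤ κ * (m - 1)) (hB : N₀ * (M - 2) ≤ A * M) : False := by
  obtain ⟨m', rfl⟩ : ∃ m', m = m' + 1 := ⟨m - 1, by omega⟩
  obtain ⟨M', rfl⟩ : ∃ M', M = M' + 2 := ⟨M - 2, by omega⟩
  simp only [Nat.add_sub_cancel] at hκA hB
  have h1 : 2 * m' ≤ M' := by omega
  have h2 : (κ * (m' + 1) + 1) * M' ≤ N₀ * M' := Nat.mul_le_mul_right _ (by omega)
  have h3 : A * (M' + 2) ≤ κ * m' * (M' + 2) := Nat.mul_le_mul_right _ hκA
  have h4 : κ * (2 * m') ≤ κ * M' := Nat.mul_le_mul_left _ h1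
  have h5 : 1 ≤ M' := by omega
  nlinarith

theorem nat_f_zero {K f R α : ℕ} (hf : f < R) (hKR : R * R ≤ 4 * K) (heq : (K + f) * α = (K + R) * f) : f = 0 := by
  by_contra hf0
  have hfpos : 0 < f := Nat.pos_of_ne_zero hf0
  have hK : 0 < K := by nlinarith
  rcases lt_trichotomy α f with h | h | h
  · -- `α < f`
    nlinarith
  · subst h
    have : α * (R - α) = 0 := by
      obtain ⟨r, rfl⟩ : ∃ r, R = α + r := ⟨R - α, by omega⟩
      have h3 : (K + α) * α = (K + (α + r)) * α := heq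
      have hr : 0 < r := by omega
      nlinarith
    obtain ⟨r, rfl⟩ : ∃ r, R = α + r := ⟨R - α, by omega⟩
    have hr : 0 < r := by omega
    have : (K + α) * α = (K + (α + r)) * α := heq
    nlinarith
  · -- `f < α`
    obtain ⟨d, rfl⟩ : ∃ d, α = f + (d + 1) := ⟨α - f - 1, by omega⟩
    obtain ⟨r, rfl⟩ : ∃ r, R = f + (r + 1) := ⟨R - f - 1, by omega⟩
    -- `K (d+1) + f (d + 1) = f (r + 1)`, hence `d < r`
    have h1 : K * (d + 1) + f * (d + 1) = f * (r + 1) := by nlinarith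
    have h2 : K * (d + 1) ≤ f * (r - d) := by
      have hdr : d ≤ r := by
        by_contra hdr
        push Not at hdr
        nlinarith
      obtain ⟨e, rfl⟩ : ∃ e, r = d + e := ⟨r - d, by omega⟩
      simp only [Nat.add_sub_cancel_left]
      nlinarith
    have h3 : K ≤ K * (d + 1) := Nat.le_mul_of_pos_right _ (by omega)
    have h4 : f * (r - d) ≤ f * r := Nat.mul_le_mul_left _ (Nat.sub_le _ _)
    have h5 : 4 * (f * r) ≤ (f + r) * (f + r) := by nlinarith [sq_nonneg ((f : ℤ) - r)]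
    have h6 : (f + (r + 1)) * (f + (r + 1)) ≤ 4 * K := hKR
    nlinarith

variable {ι : Type} [Fintype ι] [DecidableEq ι] {F : Type*} [Field F] [Fintype F] {Q : (ι → F) → F}

namespace Ctx

variable {hQ : IsNondegenerateQuadraticForm Q} {X : Type*} [Fintype X] {act : ↥(omegaGL Q) →* Equiv.Perm X}
  {ψ : AddChar F ℂ} {v v' : ι → F} (C : Ctx hQ act ψ v v')

include C

/-- Project a parameter to the complement. -/
theorem proj_mem {b : ι → F} (hb : pol Q v b = 0) : b - pol Q b v' • v ∈ WW hQ v v' := by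
  rw [mem_WW hQ]
  constructor
  · rw [pol_sub_right hQ, pol_smul_right hQ, pol_singular hQ C.h.ha, hb]
    ring
  · rw [pol_sub_right hQ, pol_smul_right hQ, pol_symm hQ v' v, C.h.hab, pol_symm hQ v' b]
    ring

theorem rr_proj {b : ι → F} (hb : pol Q v b = 0) : rr hQ v (b - pol Q b v' • v) = rr hQ v b := by
  have h0 : pol Q v (b - pol Q b v' • v) = 0 := ((mem_WW hQ).mp (C.proj_mem hb)).1
  have h1 : pol Q v (pol Q b v' • v) = 0 := by rw [pol_smul_right hQ, pol_singular hQ C.h.ha, mul_zero]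
  have e : b = (b - pol Q b v' • v) + pol Q b v' • v := by abel
  conv_rhs => rw [e]
  rw [rr_add hQ C.h.ha h0 h1, rr_self hQ C.h.ha, mul_one]

theorem ann_W_eq {u : ι → F} (hu : u ∈ WW hQ v v') (h : ∀ b ∈ WW hQ v v', ψ (pol Q u b) = 1) : u = 0 := by
  by_contra hu0
  obtain ⟨y, hy, huy⟩ := C.Nd u hu hu0
  obtain ⟨t, ht⟩ := C.hψ _ huy
  apply ht
  rw [← pol_smul_right hQ]
  exact h _ (Submodule.smul_mem _ _ hy)

theorem Ss_zero_iff (x : X) : Ss hQ act ψ v v' x = {0} ↔ FixAt hQ act v x := by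
  constructor
  · intro h b hb
    have h1 := Yy_eq_ann (hQ := hQ) (act := act) (ψ := ψ) C.h C.hn C.hψ x
    rw [h] at h1
    have h2 : b - pol Q b v' • v ∈ Yy hQ act v v' x := by
      rw [h1, mem_ann]
      refine ⟨C.proj_mem hb, fun c hc => ?_⟩
      rw [Finset.mem_singleton] at hc
      rw [hc, pol_zero_right hQ, AddChar.map_zero_eq_one]
    have h3 := (mem_Yy.mp h2).2
    rwa [C.rr_proj hb] at h3
  · intro h
    ext u
    rw [Ss, mem_ann, Finset.mem_singleton]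
    constructor
    · rintro ⟨hu, hu2⟩
      apply C.ann_W_eq hu
      intro b hb
      exact hu2 b (mem_Yy.mpr ⟨hb, h b ((mem_WW hQ).mp hb).1⟩)
    · rintro rfl
      refine ⟨Submodule.zero_mem _, fun b _ => ?_⟩
      rw [pol_zero_left hQ, AddChar.map_zero_eq_one]

theorem Ss_full_iff (x : X) : (∀ u ∈ WW hQ v v', u ∈ Ss hQ act ψ v v' x) ↔ RegAt hQ act v x := by
  constructor
  · intro h b hb hx
    have hb0 : b - pol Q b v' • v ∈ Yy hQ act v v' x := by
      rw [mem_Yy]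
      refine ⟨C.proj_mem hb, ?_⟩
      rw [C.rr_proj hb, hx]
    have h1 : b - pol Q b v' • v = 0 := by
      apply C.ann_W_eq (Yy_sub hb0)
      intro c hc
      rw [pol_symm hQ]
      exact (mem_ann.mp (h c hc)).2 _ hb0
    have e : b = pol Q b v' • v := sub_eq_zero.mp h1
    rw [e]
    exact Submodule.smul_mem _ _ (Submodule.mem_span_singleton_self v)
  · intro h u hu
    rw [Ss, mem_ann]
    refine ⟨hu, fun b hb => ?_⟩
    obtain ⟨hb1, hb2⟩ := mem_Yy.mp hb
    have h1 := h b ((mem_WW hQ).mp hb1).1 hb2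
    obtain ⟨t, rfl⟩ := Submodule.mem_span_singleton.mp h1
    rw [pol_smul_right hQ, pol_symm hQ u v, ((mem_WW hQ).mp hu).1, mul_zero, AddChar.map_zero_eq_one]

/-- The span of a totally singular member has dimension at most `w + 1`. -/
theorem ts_span_card {w : ℕ} (hw : ∀ T : Submodule F (ι → F), (∀ x ∈ T, Q x = 0) → Module.finrank F T ≤ w + 2)
    {S : Finset (ι → F)} (hS : S ∈ Sf hQ act ψ v v') (hTs : Ts Q S) :
    ((∀ (t : F) x, x ∈ S → t • x ∈ S) ∧ S.card = Fintype.card F ^ (w + 1)) ∨ 2 * S.card ≤ Fintype.card F ^ (w + 1) := by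
  set T := Submodule.span F (S : Set (ι → F)) with hT
  have hq : 2 ≤ Fintype.card F := Fintype.one_lt_card
  have hpolS : ∀ x ∈ S, ∀ y ∈ S, pol Q x y = 0 := by
    intro x hx y hy
    have h1 := Q_add hQ x y
    rw [hTs.1 _ (C.Sf_add hS hx hy), hTs.1 x hx, hTs.1 y hy] at h1
    linear_combination -h1
  have hTQ : ∀ x ∈ T, Q x = 0 := ts_span hQ (fun x hx => hTs.1 x hx) (fun x hx y hy => hpolS x hx y hy)
  have hTW : T ≤ WW hQ v v' := by
    rw [hT, Submodule.span_le]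
    intro x hx
    exact C.Sf_sub hS hx
  have hvT : v ∉ T := by
    intro hv
    have h1 := ((mem_WW hQ).mp (hTW hv)).2
    rw [pol_symm hQ, C.h.hab] at h1
    exact one_ne_zero h1
  have hd : Module.finrank F T ≤ w + 1 := by
    have h1 := hw (T ⊔ Submodule.span F {v}) (ts_sup hQ hTQ C.h.ha (fun x hx => by
      rw [pol_symm hQ]
      exact ((mem_WW hQ).mp (hTW hx)).1))
    rw [finrank_sup_singleton hvT] at h1
    omega
  have hFT : (Finset.univ.filter (· ∈ T)).card = Fintype.card F ^ Module.finrank F T := by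
    rw [← Module.card_eq_pow_finrank (K := F) (V := T), Fintype.card_subtype]
  have hle : Fintype.card F ^ Module.finrank F T ≤ Fintype.card F ^ (w + 1) := Nat.pow_le_pow_right (by omega) hd
  have hST : S ⊆ Finset.univ.filter (· ∈ T) := by
    intro x hx
    simp only [Finset.mem_filter, Finset.mem_univ, true_and]
    exact Submodule.subset_span hx
  by_cases hall : ∀ x ∈ T, x ∈ S
  · have hSeq : S = Finset.univ.filter (· ∈ T) := by
      apply Finset.Subset.antisymm hST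
      intro x hx
      simp only [Finset.mem_filter, Finset.mem_univ, true_and] at hx
      exact hall x hx
    by_cases hdeq : Module.finrank F T = w + 1
    · left
      refine ⟨fun t x hx => hall _ (T.smul_mem t (Submodule.subset_span hx)), ?_⟩
      rw [hSeq, hFT, hdeq]
    · right
      rw [hSeq, hFT]
      have h1 : Module.finrank F T + 1 ≤ w + 1 := by omega
      calc 2 * Fintype.card F ^ Module.finrank F T ≤ Fintype.card F * Fintype.card F ^ Module.finrank F T :=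
            Nat.mul_le_mul_right _ hq
        _ = Fintype.card F ^ (Module.finrank F T + 1) := by rw [pow_succ, mul_comm]
        _ ≤ _ := Nat.pow_le_pow_right (by omega) h1
  · right
    push Not at hall
    obtain ⟨t, htT, htS⟩ := hall
    have hdisj : Disjoint S (S.image (fun y => t + y)) := by
      rw [Finset.disjoint_left]
      intro y hy hy'
      obtain ⟨z, hz, rfl⟩ := Finset.mem_image.mp hy'
      apply htS
      have := C.Sf_add hS hy (C.Sf_neg hS hz)
      simpa using this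
    have hsub : S ∪ S.image (fun y => t + y) ⊆ Finset.univ.filter (· ∈ T) := by
      apply Finset.union_subset hST
      intro y hy
      obtain ⟨z, hz, rfl⟩ := Finset.mem_image.mp hy
      simp only [Finset.mem_filter, Finset.mem_univ, true_and]
      exact T.add_mem htT (Submodule.subset_span hz)
    have h1 := Finset.card_le_card hsub
    rw [Finset.card_union_of_disjoint hdisj, Finset.card_image_of_injective _ (add_right_injective t), hFT] at h1
    omega

/-- Numbers for the exceptional dimensions. -/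
structure CandNum (Q : (ι → F) → F) (R₀ : Submodule F (ι → F)) (w s' N₀ κ₀ R : ℕ) : Prop where
  hw : ∀ T : Submodule F (ι → F), (∀ x ∈ T, Q x = 0) → Module.finrank F T ≤ w + 2
  hc₀ : ∀ c, s' ≤ c * (Fintype.card F ^ w - 1) → Fintype.card F + 1 ≤ c
  hA : N₀ ≤ 2 * ((Sg Q R₀).card * (Fintype.card F + 1))
  hB : N₀ * (Fintype.card F ^ (w + 1) - 2) ≤ (Sg Q R₀).card * (Fintype.card F + 1) * Fintype.card F ^ (w + 1)
  hC : N₀ ≤ (Sg Q R₀).card * (Fintype.card F + 2)
  hκ : κ₀ * (Fintype.card F ^ (w + 1) - 1) = (Sg Q R₀).card * (Fintype.card F + 1)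
  hN₀ : N₀ = κ₀ * Fintype.card F ^ (w + 1) + R
  hM : 2 ≤ Fintype.card F ^ (w + 1)

/-- The shape of a totally singular member. -/
theorem cand_one {w s' N₀ κ₀ R : ℕ} (hnum : CandNum Q (WW hQ v v') w s' N₀ κ₀ R) (hN : Fintype.card X < N₀)
    (hs' : ∀ u u' : ι → F, u ∈ WW hQ v v' → u' ∈ WW hQ v v' → Hyp Q u u' →
      s' ≤ (Sg Q (Ort hQ (Ort hQ (WW hQ v v') u) u')).card)
    {S : Finset (ι → F)} (hS : S ∈ Sf hQ act ψ v v') (hTs : Ts Q S) :
    (∀ (t : F) x, x ∈ S → t • x ∈ S) ∧ S.card = Fintype.card F ^ (w + 1) ∧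
      (Xs hQ act ψ v v' S).card = Fintype.card F ^ (w + 1) := by
  obtain ⟨κ, c, hκ1, h1, h2, h3⟩ := C.ts_numbers hS hTs hnum.hw hs'
  have hc := hnum.hc₀ c h3
  set s := (Sg Q (WW hQ v v')).card with hs
  have hA1 : s * (Fintype.card F + 1) ≤ κ * (S.card - 1) := by
    rw [h1, mul_comm]
    exact Nat.mul_le_mul_right _ hc
  -- a single orbit
  have hm2 : 2 ≤ S.card := by
    obtain ⟨u, hu, hu0, -⟩ := hTs.exists_pair
    have h5 : ({0, u} : Finset (ι → F)) ⊆ S := by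
      intro y hy
      simp only [Finset.mem_insert, Finset.mem_singleton] at hy
      rcases hy with rfl | rfl
      · exact C.Sf_zero hS
      · exact hu
    have h6 := Finset.card_le_card h5
    rwa [Finset.card_pair (Ne.symm hu0)] at h6
  have hx : (Xs hQ act ψ v v' S).card = S.card := by
    rcases C.Xs_dich' hS with h4 | h4
    · exact h4
    · exfalso
      have h5 : κ * (2 * S.card) ≤ κ * (Xs hQ act ψ v v' S).card := Nat.mul_le_mul_left _ h4
      have h6 : κ * (S.card - 1) ≤ κ * S.card := Nat.mul_le_mul_left _ (Nat.sub_le _ _)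
      have h7 := hnum.hA
      rw [← hs] at h7
      nlinarith
  rw [hx] at h2
  rcases C.ts_span_card hnum.hw hS hTs with ⟨h4, h5⟩ | h4
  · exact ⟨h4, h5, hx.trans h5⟩
  · exfalso
    have h7 := hnum.hB
    rw [← hs] at h7
    exact num_B hm2 h4 hN h2 hA1 h7

/-- The structure in the exceptional dimensions. -/
theorem cand_struct {w s' N₀ κ₀ R : ℕ} (hnum : CandNum Q (WW hQ v v') w s' N₀ κ₀ R) (hN : Fintype.card X < N₀)
    (hs' : ∀ u u' : ι → F, u ∈ WW hQ v v' → u' ∈ WW hQ v v' → Hyp Q u u' →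
      s' ≤ (Sg Q (Ort hQ (Ort hQ (WW hQ v v') u) u')).card)
    (hR : ∀ u ∈ WW hQ v v', u ≠ 0 → R ≤ (Cl hQ v v' u).card)
    (hex : ∃ S ∈ Sf hQ act ψ v v', Ts Q S) :
    (∀ S ∈ Sf hQ act ψ v v', Ts Q S ∨ S = {0}) ∧
      Fintype.card X = κ₀ * Fintype.card F ^ (w + 1) + (Xs hQ act ψ v v' {0}).card ∧
      (Xs hQ act ψ v v' {0}).card < R ∧
      ∀ u ∈ WW hQ v v', u ≠ 0 → Q u = 0 → ∃ S ∈ Sf hQ act ψ v v', Ts Q S ∧ u ∈ S := by
  set M := Fintype.card F ^ (w + 1) with hM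
  set 𝓞₁ := (Sf hQ act ψ v v').filter fun S => Ts Q S with h𝓞₁
  set 𝓞₂ := (Sf hQ act ψ v v').filter fun S => ¬ Ts Q S with h𝓞₂
  have hinv1 : Inv Q v v' 𝓞₁ := by
    intro T hT S hS
    rw [h𝓞₁, Finset.mem_filter] at hS ⊢
    exact ⟨C.Adm_Sf hT hS.1, hT.Ts hQ hS.2⟩
  have hinv2 : Inv Q v v' 𝓞₂ := by
    intro T hT S hS
    rw [h𝓞₂, Finset.mem_filter] at hS ⊢
    refine ⟨C.Adm_Sf hT hS.1, fun h => hS.2 ?_⟩
    obtain ⟨T', hT', h1, -⟩ := hT.inv
    have h2 := hT'.Ts hQ h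
    have e : (S.image T).image T' = S := by
      rw [Finset.image_image]
      have : T' ∘ T = id := funext h1
      rw [this, Finset.image_id]
    rwa [e] at h2
  have hsub1 : 𝓞₁ ⊆ Sf hQ act ψ v v' := Finset.filter_subset _ _
  have hsub2 : 𝓞₂ ⊆ Sf hQ act ψ v v' := Finset.filter_subset _ _
  have hsing1 : ∀ S ∈ 𝓞₁, ∀ x ∈ S, Q x = 0 := fun S hS x hx => (Finset.mem_filter.mp hS).2.1 x hx
  obtain ⟨S₀, hS₀, hTs₀⟩ := hex
  have hS₀1 : S₀ ∈ 𝓞₁ := Finset.mem_filter.mpr ⟨hS₀, hTs₀⟩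
  have hone : ∀ S ∈ 𝓞₁, (∀ (t : F) x, x ∈ S → t • x ∈ S) ∧ S.card = M ∧ (Xs hQ act ψ v v' S).card = M := by
    intro S hS
    rw [Finset.mem_filter] at hS
    exact C.cand_one hnum hN hs' hS.1 hS.2
  have hc1 : ∀ u ∈ WW hQ v v', u ≠ 0 → Q u = 0 → Fintype.card F + 1 ≤ aa 𝓞₁ u := fun u hu hu0 hQu =>
    hnum.hc₀ _ (C.cover hsub1 hinv1 hsing1 hnum.hw hs' hS₀1 hTs₀ hu hu0 hQu)
  obtain ⟨u, hu, hu0, -⟩ := hTs₀.exists_pair
  have huW := C.Sf_sub hS₀ hu
  have hQu := hTs₀.1 u hu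
  set κ₁ := 𝓞₁.card with hκ₁
  set s := (Sg Q (WW hQ v v')).card with hs
  have hsum1 : κ₁ * (M - 1) = aa 𝓞₁ u * s := by
    rw [← C.sum_eq_aa hsub1 hinv1 hsing1 huW hu0 hQu, hκ₁, Finset.card_eq_sum_ones, Finset.sum_mul]
    refine Finset.sum_congr rfl fun S hS => ?_
    rw [(hone S hS).2.1, one_mul]
  have hsum2 : ∑ S ∈ 𝓞₁, (Xs hQ act ψ v v' S).card = κ₁ * M := by
    rw [hκ₁, Finset.card_eq_sum_ones, Finset.sum_mul]
    refine Finset.sum_congr rfl fun S hS => ?_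
    rw [(hone S hS).2.2, one_mul]
  have hsplit : Fintype.card X = κ₁ * M + ∑ S ∈ 𝓞₂, (Xs hQ act ψ v v' S).card := by
    rw [← C.sum_Xs_eq, ← Finset.sum_filter_add_sum_filter_not (Sf hQ act ψ v v') (fun S => Ts Q S), hsum2]
  have hMpos : 1 ≤ M - 1 := by
    have := hnum.hM
    omega
  have hc2 : aa 𝓞₁ u = Fintype.card F + 1 := by
    by_contra hne
    have h1 := hc1 u huW hu0 hQu
    have h2 : Fintype.card F + 2 ≤ aa 𝓞₁ u := by omega
    have h3 := hnum.hC
    have h4 : s * (Fintype.card F + 2) ≤ aa 𝓞₁ u * s := by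
      rw [mul_comm]
      exact Nat.mul_le_mul_right _ h2
    have h5 : κ₁ * (M - 1) ≤ κ₁ * M := Nat.mul_le_mul_left _ (Nat.sub_le _ _)
    rw [← hs] at h3
    omega
  have hκeq : κ₁ = κ₀ := by
    have h1 := hnum.hκ
    rw [← hs, ← hM] at h1
    rw [hc2, mul_comm (Fintype.card F + 1)] at hsum1
    rw [← h1] at hsum1
    exact Nat.eq_of_mul_eq_mul_right (by omega) hsum1
  rw [hκeq] at hsplit
  have hrest : ∑ S ∈ 𝓞₂, (Xs hQ act ψ v v' S).card < R := by
    have := hnum.hN₀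
    rw [← hM] at this
    omega
  have hzero : ∀ S ∈ 𝓞₂, S = {0} := by
    intro S hS
    by_contra hne
    have hS' := hsub2 hS
    have h0 := C.Sf_zero hS'
    obtain ⟨u₁, hu₁, hu₁0⟩ : ∃ u₁ ∈ S, u₁ ≠ 0 := by
      by_contra hcon
      push Not at hcon
      apply hne
      ext y
      rw [Finset.mem_singleton]
      exact ⟨hcon y, fun h => h ▸ h0⟩
    have hu₁W := C.Sf_sub hS' hu₁
    have h1 : 1 ≤ aa 𝓞₂ u₁ := Finset.card_pos.mpr ⟨S, Finset.mem_filter.mpr ⟨hS, hu₁⟩⟩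
    have h2 := C.aa_mul_Cl_le hsub2 hinv2 hu₁W hu₁0
    have h3 : ∑ S ∈ 𝓞₂, (S.card - 1) ≤ ∑ S ∈ 𝓞₂, (Xs hQ act ψ v v' S).card :=
      Finset.sum_le_sum fun S hS => (Nat.sub_le _ _).trans (C.card_le_Xs' (hsub2 hS))
    have h4 := hR u₁ hu₁W hu₁0
    have h5 : (Cl hQ v v' u₁).card ≤ aa 𝓞₂ u₁ * (Cl hQ v v' u₁).card := Nat.le_mul_of_pos_left _ h1
    omega
  have hrest2 : ∑ S ∈ 𝓞₂, (Xs hQ act ψ v v' S).card = (Xs hQ act ψ v v' {0}).card := by
    by_cases hmem : ({0} : Finset (ι → F)) ∈ 𝓞₂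
    · have e : 𝓞₂ = {{0}} := by
        ext S
        rw [Finset.mem_singleton]
        exact ⟨hzero S, fun h => h ▸ hmem⟩
      rw [e, Finset.sum_singleton]
    · have e : 𝓞₂ = ∅ := by
        rw [Finset.eq_empty_iff_forall_notMem]
        intro S hS
        rw [hzero S hS] at hS
        exact hmem hS
      rw [e, Finset.sum_empty]
      symm
      rw [Finset.card_eq_zero, Finset.eq_empty_iff_forall_notMem]
      intro x hx
      simp only [Xs, Finset.mem_filter, Finset.mem_univ, true_and] at hx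
      apply hmem
      rw [h𝓞₂, Finset.mem_filter]
      refine ⟨?_, fun h => h.2 ⟨0, fun y hy => ?_⟩⟩
      · rw [← hx]
        exact Finset.mem_image_of_mem _ (Finset.mem_univ _)
      · rw [Finset.mem_singleton] at hy
        rw [hy]
        exact Submodule.zero_mem _
  refine ⟨?_, ?_, ?_, ?_⟩
  · intro S hS
    by_cases h : Ts Q S
    · exact Or.inl h
    · exact Or.inr (hzero S (Finset.mem_filter.mpr ⟨hS, h⟩))
  · rw [hsplit, hrest2]
  · rw [← hrest2]
    exact hrest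
  · intro y hy hy0 hQy
    have h1 := hc1 y hy hy0 hQy
    have h2 : 0 < aa 𝓞₁ y := by omega
    obtain ⟨S, hS⟩ := Finset.card_pos.mp h2
    rw [Finset.mem_filter, h𝓞₁, Finset.mem_filter] at hS
    exact ⟨S, hS.1.1, hS.1.2, hS.2⟩

/-- No fixed points in the exceptional dimensions. -/
theorem cand_f_zero {w s' N₀ κ₀ R : ℕ} (hnum : CandNum Q (WW hQ v v') w s' N₀ κ₀ R) (hN : Fintype.card X < N₀)
    (hs' : ∀ u u' : ι → F, u ∈ WW hQ v v' → u' ∈ WW hQ v v' → Hyp Q u u' →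
      s' ≤ (Sg Q (Ort hQ (Ort hQ (WW hQ v v') u) u')).card)
    (hR : ∀ u ∈ WW hQ v v', u ≠ 0 → R ≤ (Cl hQ v v' u).card)
    (hex : ∃ S ∈ Sf hQ act ψ v v', Ts Q S)
    (htr : ∀ x y : X, ∃ g ∈ omegaGL Q, AA act g x = y) (hsV : (Sg Q (⊤ : Submodule F (ι → F))).card = (Fintype.card F - 1) * N₀)
    (hKR : R * R ≤ 4 * (κ₀ * Fintype.card F ^ (w + 1))) : (Xs hQ act ψ v v' {0}).card = 0 := by
  obtain ⟨-, h2, h3, -⟩ := C.cand_struct hnum hN hs' hR hex
  obtain ⟨S₀, hS₀, hTs₀⟩ := hex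
  obtain ⟨x₀, -, -⟩ := Finset.mem_image.mp hS₀
  have hv0 : v ≠ 0 := by
    rintro rfl
    have := C.h.hab
    rw [pol_zero_left hQ] at this
    exact zero_ne_one this
  obtain ⟨α, hα⟩ := double_count (hQ := hQ) (act := act) C.hn htr (FixAt hQ act)
    (fun g hg v x hv => FixAt_move C.hn hg hv x) (fun t ht v x hv => FixAt_smul ht hv x) hv0 C.h.ha x₀
  have e : (Finset.univ.filter fun x => FixAt hQ act v x) = Xs hQ act ψ v v' {0} := by
    ext x
    simp only [Xs, Finset.mem_filter, Finset.mem_univ, true_and]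
    exact (C.Ss_zero_iff x).symm
  rw [e, hsV] at hα
  have hq : 1 ≤ Fintype.card F - 1 := by
    have : 2 ≤ Fintype.card F := Fintype.one_lt_card
    omega
  have h5 : Fintype.card X * α = N₀ * (Xs hQ act ψ v v' {0}).card := by
    apply Nat.eq_of_mul_eq_mul_left hq
    rw [← mul_assoc, mul_comm (Fintype.card F - 1), mul_assoc, hα, mul_assoc]
  rw [h2, hnum.hN₀] at h5
  exact nat_f_zero h3 hKR h5

end Ctx

end Cfsg.Agent.Lib.MinOmega
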