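/-
The torus element: a unique fixed point in each orbit with a subspace as annihilator.
-/
import Cfsg.Agent.Lib.MinOmega.Cand
set_option autoImplicit false

namespace Cfsg.Agent.Lib.MinOmega

open Cfsg Cfsg.Geo Cfsg.Agent.Lib.Geo.Basic Cfsg.Agent.Lib.Geo.QForm Cfsg.Agent.Lib.GeoOmega.Basic
open Cfsg.Agent.Lib.GeoOmega.Eichler
open scoped MatrixGroups Matrix
open scoped _root_.Classical

variable {ι : Type} [Fintype ι] [DecidableEq ι] {F : Type*} [Field F] [Fintype F] {Q : (ι → F) → F}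

namespace Ctx

variable {hQ : IsNondegenerateQuadraticForm Q} {X : Type*} [Fintype X] {act : ↥(omegaGL Q) →* Equiv.Perm X}
  {ψ : AddChar F ℂ} {v v' : ι → F} (C : Ctx hQ act ψ v v')

include C

/-- A subspace member and its stabiliser. -/
theorem Yy_stable {x : X} (hF : ∀ (t : F) y, y ∈ Ss hQ act ψ v v' x → t • y ∈ Ss hQ act ψ v v' x) (t : F) {b : ι → F}
    (hb : b ∈ Yy hQ act v v' x) : t • b ∈ Yy hQ act v v' x := by
  rw [Yy_eq_ann (hQ := hQ) (act := act) (ψ := ψ) C.h C.hn C.hψ x, mem_ann] at hb ⊢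
  refine ⟨Submodule.smul_mem _ _ hb.1, fun u hu => ?_⟩
  rw [pol_smul_left hQ, ← pol_smul_right hQ]
  exact hb.2 _ (hF t u hu)

theorem Xs_eq_Orb {S : Finset (ι → F)} (hX : (Xs hQ act ψ v v' S).card = S.card) {x : X}
    (hx : x ∈ Xs hQ act ψ v v' S) : Xs hQ act ψ v v' S = Orb hQ act v v' x := by
  simp only [Xs, Finset.mem_filter, Finset.mem_univ, true_and] at hx
  symm
  apply Finset.eq_of_subset_of_card_le
  · rw [← hx]
    exact Orb_sub_Xs C.h C.hn x
  · rw [card_Orb_eq (ψ := ψ) C.h C.hn C.hψ x, hX, hx]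

/-- The unique fixed point of a torus element. -/
theorem z_point {z : GL ι F} (hz : z ∈ omegaGL Q) {l : F} (hd : IsDd Q z v v' l) (hl0 : l ≠ 0) (hl1 : l ≠ 1)
    {S : Finset (ι → F)} (hS : S ∈ Sf hQ act ψ v v') (hF : ∀ (t : F) y, y ∈ S → t • y ∈ S)
    (hX : (Xs hQ act ψ v v' S).card = S.card) :
    ∃ x₁ ∈ Xs hQ act ψ v v' S, AA act z x₁ = x₁ ∧ ∀ x₂ ∈ Xs hQ act ψ v v' S, AA act z x₂ = x₂ → x₂ = x₁ := by
  have h1 := hd.mulVec_left hQ C.h
  have h2 := hd.mulVec_right hQ C.h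
  have hfixW : ∀ u ∈ WW hQ v v', (z : Matrix ι ι F) *ᵥ u = u := by
    intro u hu
    rw [mem_WW hQ] at hu
    exact hd.mulVec_fix (by rw [pol_symm hQ]; exact hu.1) (by rw [pol_symm hQ]; exact hu.2)
  have himg : S.image (Tw z l) = S := by
    apply Finset.eq_of_subset_of_card_le
    · intro y hy
      obtain ⟨u, hu, rfl⟩ := Finset.mem_image.mp hy
      rw [Tw, hfixW u (C.Sf_sub hS hu)]
      exact hF _ _ hu
    · rw [Finset.card_image_of_injective _ (Tw_inj z hl0)]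
  have hzX : ∀ y, y ∈ Xs hQ act ψ v v' S → AA act z y ∈ Xs hQ act ψ v v' S := by
    intro y hy
    simp only [Xs, Finset.mem_filter, Finset.mem_univ, true_and] at hy ⊢
    rw [Ss_conj (hQ := hQ) (act := act) C.h C.hn hz hl0 h1 h2, hy, himg]
  obtain ⟨x, -, hxS⟩ := Finset.mem_image.mp hS
  have hx : x ∈ Xs hQ act ψ v v' S := by
    simp only [Xs, Finset.mem_filter, Finset.mem_univ, true_and]
    exact hxS
  have hconj : ∀ (b : ι → F), b ∈ WW hQ v v' → ∀ y : X,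
      AA act z (AA act (rr hQ v b) y) = AA act (rr hQ v (l • b)) (AA act z y) := by
    intro b hb y
    have := AA_conj (hQ := hQ) (act := act) C.h C.hn hz hl0 h1 h2 hb y
    rwa [hfixW b hb] at this
  have hl : (1 - l) ≠ 0 := sub_ne_zero.mpr (Ne.symm hl1)
  -- existence
  have h3 := hzX x hx
  rw [C.Xs_eq_Orb hX hx] at h3
  obtain ⟨b, hb, hbx⟩ := Finset.mem_image.mp h3
  rw [mem_WF] at hb
  set c := (1 - l)⁻¹ • b with hc
  have hcW : c ∈ WW hQ v v' := Submodule.smul_mem _ _ hb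
  set x₁ := AA act (rr hQ v c) x with hx₁
  have hx₁O : x₁ ∈ Orb hQ act v v' x := Finset.mem_image.mpr ⟨c, by rwa [mem_WF], rfl⟩
  have hx₁S : x₁ ∈ Xs hQ act ψ v v' S := by
    rw [C.Xs_eq_Orb hX hx]
    exact hx₁O
  have hfix : AA act z x₁ = x₁ := by
    have hb' : b = (1 - l) • c := by rw [hc, smul_smul, mul_inv_cancel₀ hl, one_smul]
    have e : l • c + b = c := by
      rw [hb']
      module
    rw [hx₁, hconj c hcW, ← hbx, ← AA_rr_add C.h C.hn (Submodule.smul_mem _ _ hcW) hb, e]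
  refine ⟨x₁, hx₁S, hfix, ?_⟩
  intro x₂ hx₂ hfix2
  rw [C.Xs_eq_Orb hX hx₁S] at hx₂
  obtain ⟨d, hd', rfl⟩ := Finset.mem_image.mp hx₂
  rw [mem_WF] at hd'
  rw [hconj d hd', hfix] at hfix2
  -- `(l - 1) d` stabilises `x₁`
  have hneg := Submodule.neg_mem _ hd'
  have h5 : AA act (rr hQ v ((l - 1) • d)) x₁ = x₁ := by
    have e : (l - 1) • d = -d + l • d := by
      rw [sub_smul, one_smul]
      abel
    rw [e, AA_rr_add C.h C.hn hneg (Submodule.smul_mem _ _ hd'), hfix2]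
    exact AA_rr_neg C.h C.hn hd' _ _ rfl
  have h6 : (l - 1) • d ∈ Yy hQ act v v' x₁ :=
    mem_Yy.mpr ⟨Submodule.smul_mem _ _ hd', h5⟩
  have hSx₁ : Ss hQ act ψ v v' x₁ = S := by
    simpa only [Xs, Finset.mem_filter, Finset.mem_univ, true_and] using hx₁S
  have h7 := C.Yy_stable (x := x₁) (by rw [hSx₁]; exact hF) (l - 1)⁻¹ h6
  rw [smul_smul, inv_mul_cancel₀ (sub_ne_zero.mpr hl1), one_smul] at h7
  exact (mem_Yy.mp h7).2

/-- Elements commuting with the torus element and preserving the orbit fix the fixed point. -/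
theorem z_comm {z : GL ι F} (hz : z ∈ omegaGL Q) {l : F} (hd : IsDd Q z v v' l) (hl0 : l ≠ 0) (hl1 : l ≠ 1)
    {S : Finset (ι → F)} (hS : S ∈ Sf hQ act ψ v v') (hF : ∀ (t : F) y, y ∈ S → t • y ∈ S)
    (hX : (Xs hQ act ψ v v' S).card = S.card) {x₁ : X} (hx₁ : x₁ ∈ Xs hQ act ψ v v' S) (hfix : AA act z x₁ = x₁)
    {g : GL ι F} (hg : g ∈ omegaGL Q) (hcomm : g * z = z * g) (hgS : ∀ y ∈ Xs hQ act ψ v v' S, AA act g y ∈ Xs hQ act ψ v v' S) :
    AA act g x₁ = x₁ := by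
  obtain ⟨x₀, hx₀, -, huniq⟩ := C.z_point hz hd hl0 hl1 hS hF hX
  have h1 := huniq x₁ hx₁ hfix
  have h2 : AA act z (AA act g x₁) = AA act g x₁ := by
    have h3 := congrArg (AA act) hcomm
    rw [AA_mul act hg hz, AA_mul act hz hg] at h3
    have h4 := DFunLike.congr_fun h3 x₁
    simp only [Equiv.Perm.coe_mul, Function.comp_apply] at h4
    rw [← h4, hfix]
  have h5 := huniq _ (hgS x₁ hx₁) h2
  rw [h5, h1]

/-- Torus elements commute with Eichler elements in the complement. -/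
theorem z_comm_rr {z : GL ι F} (hz : z ∈ omegaGL Q) {l : F} (hd : IsDd Q z v v' l) {e b : ι → F} (he : e ∈ WW hQ v v')
    (hb : b ∈ WW hQ v v') (hQe : Q e = 0) (heb : pol Q e b = 0) : rr hQ e b * z = z * rr hQ e b := by
  have hfixW : ∀ u ∈ WW hQ v v', (z : Matrix ι ι F) *ᵥ u = u := by
    intro u hu
    rw [mem_WW hQ] at hu
    exact hd.mulVec_fix (by rw [pol_symm hQ]; exact hu.1) (by rw [pol_symm hQ]; exact hu.2)
  have h1 := rr_conj hQ (omega_iso hz) hQe heb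
  rw [hfixW e he, hfixW b hb] at h1
  have h2 : z * rr hQ e b = rr hQ e b * z := by
    conv_rhs => rw [← h1]
    group
  exact h2.symm

end Ctx

end Cfsg.Agent.Lib.MinOmega
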