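/-
Contradiction for totally singular members, in the exceptional dimensions.
-/
import Cfsg.Agent.Lib.MinOmega.ZTrick
set_option autoImplicit false

namespace Cfsg.Agent.Lib.MinOmega

open Cfsg Cfsg.Geo Cfsg.Agent.Lib.Geo.Basic Cfsg.Agent.Lib.Geo.QForm Cfsg.Agent.Lib.GeoOmega.Basic
open Cfsg.Agent.Lib.GeoOmega.Eichler
open scoped MatrixGroups Matrix
open scoped _root_.Classical

variable {ι : Type} [Fintype ι] [DecidableEq ι] {F : Type*} [Field F] [Fintype F] {Q : (ι → F) → F}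

variable {hQ : IsNondegenerateQuadraticForm Q} {X : Type*} [Fintype X] {act : ↥(omegaGL Q) →* Equiv.Perm X}
  {ψ : AddChar F ℂ}

/-- A vector in the orthogonal of `W ∩ e^⊥ ∩ e'^⊥` within `e^⊥ ∩ e'^⊥` lies in the hyperbolic plane. -/
theorem plane_of_perp {v v' e e' u : ι → F} (h : Hyp Q v v') (he : e ∈ WW hQ v v') (he' : e' ∈ WW hQ v v')
    (hee' : Hyp Q e e') (hu : u ∈ WW hQ e e')
    (hperp : ∀ b ∈ Ort hQ (Ort hQ (WW hQ v v') e) e', pol Q u b = 0) :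
    u = pol Q u v' • v + pol Q u v • v' := by
  have hR : Nd Q (Ort hQ (Ort hQ (WW hQ v v') e) e') := Nd_ort2 hQ (Nd_WW hQ h) he he' hee'
  by_contra hne
  have hpp := proj_perp hQ h u
  set u₀ := u - pol Q u v' • v - pol Q u v • v' with hu₀
  have hu₀0 : u₀ ≠ 0 := by
    intro h0
    apply hne
    rw [hu₀] at h0
    linear_combination (norm := module) h0
  rw [mem_WW hQ] at hu he he'
  have hpe : pol Q e u₀ = 0 := by
    rw [hu₀, pol_sub_right hQ, pol_sub_right hQ, pol_smul_right hQ, pol_smul_right hQ, hu.1,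
      pol_symm hQ e v, he.1, pol_symm hQ e v', he.2]
    ring
  have hpe' : pol Q e' u₀ = 0 := by
    rw [hu₀, pol_sub_right hQ, pol_sub_right hQ, pol_smul_right hQ, pol_smul_right hQ, hu.2,
      pol_symm hQ e' v, he'.1, pol_symm hQ e' v', he'.2]
    ring
  have hu₀R : u₀ ∈ Ort hQ (Ort hQ (WW hQ v v') e) e' := by
    rw [mem_Ort hQ, mem_Ort hQ, mem_WW hQ]
    exact ⟨⟨⟨hpp.1, hpp.2⟩, hpe⟩, hpe'⟩
  obtain ⟨b, hb, hb0⟩ := hR u₀ hu₀R hu₀0
  apply hb0
  rw [hu₀, pol_sub_left hQ, pol_sub_left hQ, pol_smul_left hQ, pol_smul_left hQ, hperp b hb]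
  rw [mem_Ort hQ, mem_Ort hQ, mem_WW hQ] at hb
  rw [hb.1.1.1, hb.1.1.2]
  ring

namespace Ctx

/-- If an Eichler stabiliser contains a big subspace and the annihilator is totally singular, it lies
in a line. -/
theorem line_of_fix {v v' e e' : ι → F} (C : Ctx hQ act ψ e e') (h : Hyp Q v v') (he : e ∈ WW hQ v v')
    (he' : e' ∈ WW hQ v v') {x : X}
    (hfix : ∀ b ∈ Ort hQ (Ort hQ (WW hQ v v') e) e', AA act (rr hQ e b) x = x)
    (hs : ∀ u ∈ Ss hQ act ψ e e' x, Q u = 0) : Line (Ss hQ act ψ e e' x) := by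
  have hS : Ss hQ act ψ e e' x ∈ Sf hQ act ψ e e' := Finset.mem_image_of_mem _ (Finset.mem_univ _)
  have hsubR : Ort hQ (Ort hQ (WW hQ v v') e) e' ≤ WW hQ e e' := by
    intro b hb
    rw [mem_Ort hQ, mem_Ort hQ] at hb
    rw [mem_WW hQ]
    exact ⟨hb.1.2, hb.2⟩
  have hperp : ∀ u ∈ Ss hQ act ψ e e' x, ∀ b ∈ Ort hQ (Ort hQ (WW hQ v v') e) e', pol Q u b = 0 := by
    intro u hu b hb
    by_contra hne
    obtain ⟨t, ht⟩ := C.hψ _ hne
    apply ht
    rw [Ss, mem_ann] at hu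
    have h1 : t • b ∈ Yy hQ act e e' x :=
      mem_Yy.mpr ⟨hsubR (Submodule.smul_mem _ _ hb), hfix _ (Submodule.smul_mem _ _ hb)⟩
    have h2 := hu.2 _ h1
    rwa [pol_smul_right hQ] at h2
  have hpl : ∀ u ∈ Ss hQ act ψ e e' x, u = pol Q u v' • v + pol Q u v • v' := fun u hu =>
    plane_of_perp h he he' C.h (C.Sf_sub hS hu) (hperp u hu)
  have hprod : ∀ u ∈ Ss hQ act ψ e e' x, pol Q u v' * pol Q u v = 0 := by
    intro u hu
    have h1 := hs u hu
    rw [hpl u hu, Q_add hQ, hQ.smul, hQ.smul, h.ha, h.hb, pol_smul_left hQ, pol_smul_right hQ, h.hab] at h1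
    linear_combination h1
  by_cases hall : ∀ u ∈ Ss hQ act ψ e e' x, pol Q u v = 0
  · refine ⟨v, fun u hu => ?_⟩
    rw [hpl u hu, hall u hu, zero_smul, add_zero]
    exact Submodule.smul_mem _ _ (Submodule.mem_span_singleton_self _)
  · push Not at hall
    obtain ⟨u₁, hu₁, hu₁0⟩ := hall
    refine ⟨v', fun u hu => ?_⟩
    have hu0 : pol Q u v' = 0 := by
      by_contra hne
      have h1 := hprod _ (C.Sf_add hS hu hu₁)
      have h2 := hprod u hu
      have h3 := hprod u₁ hu₁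
      have hz : pol Q u v = 0 := (mul_eq_zero.mp h2).resolve_left hne
      have hz1 : pol Q u₁ v' = 0 := (mul_eq_zero.mp h3).resolve_right hu₁0
      rw [pol_add_left hQ, pol_add_left hQ, hz, hz1, add_zero, zero_add] at h1
      exact (mul_eq_zero.mp h1).elim hne hu₁0
    rw [hpl u hu, hu0, zero_smul, zero_add]
    exact Submodule.smul_mem _ _ (Submodule.mem_span_singleton_self _)

/-- The stabilised orbit. -/
theorem eE_image_Ts {v v' : ι → F} (C : Ctx hQ act ψ v v') {S : Finset (ι → F)} (hS : S ∈ Sf hQ act ψ v v') (hTs : Ts Q S)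
    (hF : ∀ (t : F) y, y ∈ S → t • y ∈ S) {e b : ι → F} (he : e ∈ S) (hb : b ∈ WW hQ v v') (heb : pol Q e b = 0) :
    S.image (Tw (rr hQ e b) 1) = S := by
  have hQe := hTs.1 e he
  apply Finset.eq_of_subset_of_card_le
  · intro y hy
    obtain ⟨u, hu, rfl⟩ := Finset.mem_image.mp hy
    rw [Tw, inv_one, one_smul, rr_mulVec hQ hQe heb, eE]
    have h1 : pol Q u e = 0 := by
      have h2 := Q_add hQ u e
      rw [hTs.1 _ (C.Sf_add hS hu he), hTs.1 u hu, hQe] at h2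
      linear_combination -h2
    rw [h1, zero_smul, sub_zero, mul_zero, zero_smul, sub_zero]
    exact C.Sf_add hS hu (hF _ _ he)
  · rw [Finset.card_image_of_injective _ (Tw_inj _ one_ne_zero)]

/-- No totally singular member exists, in the exceptional dimensions. -/
theorem no_ts_cand {v v' : ι → F} (C : Ctx hQ act ψ v v') {w s' N₀ κ₀ R : ℕ}
    (hnum : ∀ a a' : ι → F, Hyp Q a a' → CandNum Q (WW hQ a a') w s' N₀ κ₀ R) (hN : Fintype.card X < N₀)
    (hs' : ∀ a a' : ι → F, Hyp Q a a' → ∀ u u' : ι → F, u ∈ WW hQ a a' → u' ∈ WW hQ a a' → Hyp Q u u' →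
      s' ≤ (Sg Q (Ort hQ (Ort hQ (WW hQ a a') u) u')).card)
    (hR : ∀ a a' : ι → F, Hyp Q a a' → ∀ u ∈ WW hQ a a', u ≠ 0 → R ≤ (Cl hQ a a' u).card)
    (htr : ∀ x y : X, ∃ g ∈ omegaGL Q, AA act g x = y) (hsV : (Sg Q (⊤ : Submodule F (ι → F))).card = (Fintype.card F - 1) * N₀)
    (hKR : R * R ≤ 4 * (κ₀ * Fintype.card F ^ (w + 1))) {m : F} (hm0 : m ≠ 0) (hm1 : m ^ 2 ≠ 1)
    {S : Finset (ι → F)} (hS : S ∈ Sf hQ act ψ v v') (hTs : Ts Q S) : False := by
  obtain ⟨z, hz, hzd⟩ := exists_z_sq hQ C.hn C.h hm0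
  obtain ⟨hF, -, hX⟩ := C.cand_one (hnum _ _ C.h) hN (hs' _ _ C.h) hS hTs
  have hX' : (Xs hQ act ψ v v' S).card = S.card := by
    obtain ⟨-, h1, -⟩ := C.cand_one (hnum _ _ C.h) hN (hs' _ _ C.h) hS hTs
    rw [hX, h1]
  obtain ⟨e, he, he0, -⟩ := hTs.exists_pair
  have heW := C.Sf_sub hS he
  have hQe := hTs.1 e he
  obtain ⟨x₁, hx₁, hzx₁, -⟩ := C.z_point hz hzd (pow_ne_zero _ hm0) hm1 hS hF hX'
  -- Eichler elements at `e`
  have hfix : ∀ b ∈ WW hQ v v', pol Q e b = 0 → AA act (rr hQ e b) x₁ = x₁ := by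
    intro b hb heb
    have hr := rr_mem hQ C.hn hQe heb
    refine C.z_comm hz hzd (pow_ne_zero _ hm0) hm1 hS hF hX' hx₁ hzx₁ hr (C.z_comm_rr hz hzd heW hb hQe heb) ?_
    intro y hy
    simp only [Xs, Finset.mem_filter, Finset.mem_univ, true_and] at hy ⊢
    have h1 : ((rr hQ e b : GL ι F) : Matrix ι ι F) *ᵥ v = (1 : F) • v := by
      rw [rr_mulVec hQ hQe heb, one_smul]
      exact eE_fix (((mem_WW hQ).mp heW).1) (((mem_WW hQ).mp hb).1)
    have h2 : ((rr hQ e b : GL ι F) : Matrix ι ι F) *ᵥ v' = (1 : F)⁻¹ • v' := by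
      rw [rr_mulVec hQ hQe heb, inv_one, one_smul]
      exact eE_fix (((mem_WW hQ).mp heW).2) (((mem_WW hQ).mp hb).2)
    rw [Ss_conj (hQ := hQ) (act := act) C.h C.hn hr one_ne_zero h1 h2, hy]
    exact C.eE_image_Ts hS hTs hF he hb heb
  obtain ⟨e', he', hee'⟩ := (C.Nd).exists_partner hQ heW he0 hQe
  have C' : Ctx hQ act ψ e e' := ⟨C.hn, C.hψ, hee'⟩
  have hex' : ∃ S ∈ Sf hQ act ψ e e', Ts Q S := Ts_transfer C.hn C.h hee' ⟨S, hS, hTs⟩
  obtain ⟨h1, -, -, -⟩ := C'.cand_struct (hnum _ _ hee') hN (hs' _ _ hee') (hR _ _ hee') hex'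
  have h0 := C'.cand_f_zero (hnum _ _ hee') hN (hs' _ _ hee') (hR _ _ hee') hex' htr hsV hKR
  have hS' : Ss hQ act ψ e e' x₁ ∈ Sf hQ act ψ e e' := Finset.mem_image_of_mem _ (Finset.mem_univ _)
  have hTs' : Ts Q (Ss hQ act ψ e e' x₁) := by
    rcases h1 _ hS' with h | h
    · exact h
    · exfalso
      rw [Finset.card_eq_zero, Finset.eq_empty_iff_forall_notMem] at h0
      apply h0 x₁
      simp only [Xs, Finset.mem_filter, Finset.mem_univ, true_and]
      exact h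
  apply hTs'.2
  apply C'.line_of_fix C.h heW he' _ hTs'.1
  intro b hb
  rw [mem_Ort hQ, mem_Ort hQ] at hb
  exact hfix b hb.1.1 hb.1.2

end Ctx

end Cfsg.Agent.Lib.MinOmega
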