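/-
The two worlds without totally singular members.
-/
import Cfsg.Agent.Lib.MinOmega.CandEnd
set_option autoImplicit false

namespace Cfsg.Agent.Lib.MinOmega

open Cfsg Cfsg.Geo Cfsg.Agent.Lib.Geo.Basic Cfsg.Agent.Lib.Geo.QForm Cfsg.Agent.Lib.GeoOmega.Basic
open Cfsg.Agent.Lib.GeoOmega.Eichler
open scoped MatrixGroups Matrix
open scoped _root_.Classical

variable {ι : Type} [Fintype ι] [DecidableEq ι] {F : Type*} [Field F] [Fintype F] {Q : (ι → F) → F}

variable {hQ : IsNondegenerateQuadraticForm Q} {X : Type*} [Fintype X] {act : ↥(omegaGL Q) →* Equiv.Perm X}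
  {ψ : AddChar F ℂ}

/-- The stabiliser of a point as a subgroup of the general linear group. -/
def StabG (act : ↥(omegaGL Q) →* Equiv.Perm X) (x : X) : Subgroup (GL ι F) where
  carrier := {g | g ∈ omegaGL Q ∧ AA act g x = x}
  mul_mem' := by
    rintro a b ⟨ha, ha'⟩ ⟨hb, hb'⟩
    refine ⟨Subgroup.mul_mem _ ha hb, ?_⟩
    rw [AA_mul act ha hb]
    simp [ha', hb']
  one_mem' := by
    refine ⟨Subgroup.one_mem _, ?_⟩
    rw [AA_one]
    rfl
  inv_mem' := by
    rintro a ⟨ha, ha'⟩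
    refine ⟨Subgroup.inv_mem _ ha, ?_⟩
    rw [AA_inv act ha, Equiv.Perm.inv_eq_iff_eq]
    exact ha'.symm

/-- Two opposite fixed centres fix everything. -/
theorem fix_all {v v' : ι → F} (h : Hyp Q v v') (hn : 7 ≤ Fintype.card ι) {x : X} (h1 : FixAt hQ act v x)
    (h2 : FixAt hQ act v' x) {g : GL ι F} (hg : g ∈ omegaGL Q) : AA act g x = x := by
  have hle : omegaGL Q ≤ StabG act x := by
    refine omega_le_of_full hQ hn h.ha h.hb ?_ ?_ (by rw [pol_symm hQ, h.hab]; exact one_ne_zero)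
    · intro b g hb hgE
      have e := Eich.unique' hgE (rr_eich hQ h.ha hb)
      rw [e]
      exact ⟨rr_mem hQ hn h.ha hb, h1 b hb⟩
    · intro b g hb hgE
      have e := Eich.unique' hgE (rr_eich hQ h.hb hb)
      rw [e]
      exact ⟨rr_mem hQ hn h.hb hb, h2 b hb⟩
  exact (hle hg).2

namespace Ctx

theorem exists_line_gen {a a' : ι → F} (C : Ctx hQ act ψ a a') {S : Finset (ι → F)} (hS : S ∈ Sf hQ act ψ a a')
    (hL : Line S) : ∃ u ∈ WW hQ a a', ∀ x ∈ S, x ∈ Submodule.span F {u} := by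
  by_cases h0 : ∀ x ∈ S, x = 0
  · refine ⟨0, Submodule.zero_mem _, fun x hx => ?_⟩
    rw [h0 x hx]
    exact Submodule.zero_mem _
  · push Not at h0
    obtain ⟨y, hy, hy0⟩ := h0
    obtain ⟨u, hu⟩ := hL
    refine ⟨u, ?_, hu⟩
    obtain ⟨t, ht⟩ := Submodule.mem_span_singleton.mp (hu y hy)
    have ht0 : t ≠ 0 := by
      rintro rfl
      apply hy0
      rw [← ht, zero_smul]
    have e : u = t⁻¹ • y := by rw [← ht, smul_smul, inv_mul_cancel₀ ht0, one_smul]
    rw [e]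
    exact Submodule.smul_mem _ _ (C.Sf_sub hS hy)

theorem fix_of_perp {a a' : ι → F} (C : Ctx hQ act ψ a a') (x : X) {u : ι → F}
    (hu : ∀ y ∈ Ss hQ act ψ a a' x, y ∈ Submodule.span F {u}) {e : ι → F} (he : e ∈ WW hQ a a')
    (h : pol Q u e = 0) : AA act (rr hQ a e) x = x := by
  have h1 := Yy_eq_ann (hQ := hQ) (act := act) (ψ := ψ) C.h C.hn C.hψ x
  have h2 : e ∈ Yy hQ act a a' x := by
    rw [h1, mem_ann]
    refine ⟨he, fun b hb => ?_⟩
    obtain ⟨t, rfl⟩ := Submodule.mem_span_singleton.mp (hu b hb)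
    rw [pol_smul_right hQ, pol_symm hQ e u, h, mul_zero, AddChar.map_zero_eq_one]
  exact (mem_Yy.mp h2).2

end Ctx

/-- The commutator step in the world of lines. -/
theorem line_step (hn : 7 ≤ Fintype.card ι) (hψ : ∀ c : F, c ≠ 0 → ∃ t : F, ψ (t * c) ≠ 1)
    (hL : ∀ a a' : ι → F, Hyp Q a a' → ∀ S ∈ Sf hQ act ψ a a', Line S) (x : X) {a b : ι → F} (hQa : Q a = 0)
    (hQb : Q b = 0) (hb0 : b ≠ 0) (hab : pol Q a b = 0) (hind : a ∉ Submodule.span F {b}) :
    AA act (rr hQ a b) x = x := by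
  -- partners
  obtain ⟨f₀, -, hbf₀, haf₀⟩ := (Nd_top hQ).exists_sep hQ trivial trivial hind
  have hba : pol Q b a = 0 := by rw [pol_symm hQ, hab]
  obtain ⟨a', ha', haa'⟩ := exists_partner_of hQ (T := Ort hQ ⊤ b) ((mem_Ort hQ).mpr ⟨trivial, hba⟩)
    ((mem_Ort hQ).mpr ⟨trivial, hbf₀⟩) hQa haf₀
  have hba' : pol Q b a' = 0 := ((mem_Ort hQ).mp ha').2
  have hbW : b ∈ WW hQ a a' := (mem_WW hQ).mpr ⟨hab, by rw [pol_symm hQ, hba']⟩
  obtain ⟨b', hb'W, hbb'⟩ := (Nd_WW hQ haa').exists_partner hQ hbW hb0 hQb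
  have hab' : pol Q a b' = 0 := ((mem_WW hQ).mp hb'W).1
  have ha'b' : pol Q a' b' = 0 := ((mem_WW hQ).mp hb'W).2
  have C₁ : Ctx hQ act ψ a a' := ⟨hn, hψ, haa'⟩
  have C₂ : Ctx hQ act ψ b b' := ⟨hn, hψ, hbb'⟩
  set Z := Ort hQ (Ort hQ (WW hQ a a') b) b' with hZ
  have hZnd : Nd Q Z := Nd_ort2 hQ (Nd_WW hQ haa') hbW hb'W hbb'
  have hZfr : 3 ≤ Module.finrank F Z := by
    have h1 := finrank_WW hQ a a'
    have h2 := finrank_Ort hQ (WW hQ a a') b
    have h3 := finrank_Ort hQ (Ort hQ (WW hQ a a') b) b'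
    rw [hZ]
    omega
  have mem_Z : ∀ y, y ∈ Z ↔ (pol Q a y = 0 ∧ pol Q a' y = 0) ∧ pol Q b y = 0 ∧ pol Q b' y = 0 := by
    intro y
    rw [hZ, mem_Ort hQ, mem_Ort hQ, mem_WW hQ]
    tauto
  obtain ⟨ua, hua, hSa⟩ := C₁.exists_line_gen (Finset.mem_image_of_mem _ (Finset.mem_univ x)) (hL a a' haa' _ (Finset.mem_image_of_mem _ (Finset.mem_univ x)))
  obtain ⟨ub, hub, hSb⟩ := C₂.exists_line_gen (Finset.mem_image_of_mem _ (Finset.mem_univ x)) (hL b b' hbb' _ (Finset.mem_image_of_mem _ (Finset.mem_univ x)))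
  -- the projection
  set π := ub - pol Q ub a' • a - pol Q ub a • a' with hπ
  have hubW := (mem_WW hQ).mp hub
  have hπZ : π ∈ Z := by
    rw [mem_Z]
    have hpp := proj_perp hQ haa' ub
    refine ⟨⟨hpp.1, hpp.2⟩, ?_, ?_⟩
    · rw [hπ, pol_sub_right hQ, pol_sub_right hQ, pol_smul_right hQ, pol_smul_right hQ, hubW.1, hba, hba']
      ring
    · rw [hπ, pol_sub_right hQ, pol_sub_right hQ, pol_smul_right hQ, pol_smul_right hQ, hubW.2, pol_symm hQ b' a, hab',
        pol_symm hQ b' a', ha'b']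
      ring
  have hT : 2 ≤ Module.finrank F (Ort hQ Z ua) := by
    have h1 := finrank_Ort hQ Z ua
    omega
  obtain ⟨e, he, heπ⟩ : ∃ e ∈ Ort hQ Z ua, e ∉ Submodule.span F {π} := by
    by_contra hcon
    push Not at hcon
    have hle : Ort hQ Z ua ≤ Submodule.span F {π} := fun y hy => hcon y hy
    have h1 := Submodule.finrank_mono hle
    have h2 : Module.finrank F (Submodule.span F {π}) ≤ 1 := by
      simpa using finrank_span_le_card (R := F) ({π} : Set (ι → F))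
    omega
  rw [mem_Ort hQ] at he
  obtain ⟨heZ, huae⟩ := he
  obtain ⟨f, hf, hπf, hef⟩ := hZnd.exists_sep hQ heZ hπZ heπ
  have heZ' := (mem_Z e).mp heZ
  have hfZ' := (mem_Z f).mp hf
  have hfW : f ∈ WW hQ b b' := (mem_WW hQ).mpr hfZ'.2
  have hubf : pol Q ub f = 0 := by
    rw [hπ, pol_sub_left hQ, pol_sub_left hQ, pol_smul_left hQ, pol_smul_left hQ, hfZ'.1.1, hfZ'.1.2] at hπf
    linear_combination hπf
  have hσ := C₂.fix_of_perp x hSb hfW hubf
  set t := (pol Q e f)⁻¹ with ht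
  have hteW : t • e ∈ WW hQ a a' := Submodule.smul_mem _ _ ((mem_WW hQ).mpr heZ'.1)
  have hρ : AA act (rr hQ a (t • e)) x = x := C₁.fix_of_perp x hSa hteW (by rw [pol_smul_right hQ, huae, mul_zero])
  have hσm := rr_mem hQ hn hQb hfZ'.2.1
  have h3 := AA_rr_conj (hQ := hQ) (act := act) hn hσm hQa (p := a) (b := t • e)
    (by rw [pol_smul_right hQ, heZ'.1.1, mul_zero]) x
  rw [hρ, hσ, rr_mulVec hQ hQb hfZ'.2.1, rr_mulVec hQ hQb hfZ'.2.1, eE_fix hab hfZ'.1.1] at h3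
  have e2 : eE Q b f (t • e) = t • e + b := by
    rw [eE, pol_smul_left hQ, pol_smul_left hQ, pol_symm hQ e b, heZ'.2.1]
    simp only [mul_zero, zero_smul, sub_zero]
    rw [ht, inv_mul_cancel₀ hef, one_smul]
  rw [e2, AA_rr_add haa' hn hteW hbW] at h3
  have h4 : AA act (rr hQ a (t • e)) (AA act (rr hQ a b) x) = AA act (rr hQ a (t • e)) x := by
    rw [← h3, hρ]
  exact (AA act (rr hQ a (t • e))).injective h4

/-- The world of lines: everything is fixed. -/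
theorem line_fix (hn : 7 ≤ Fintype.card ι) (hψ : ∀ c : F, c ≠ 0 → ∃ t : F, ψ (t * c) ≠ 1)
    (hL : ∀ a a' : ι → F, Hyp Q a a' → ∀ S ∈ Sf hQ act ψ a a', Line S) (x : X) {a a' : ι → F} (haa' : Hyp Q a a') :
    FixAt hQ act a x := by
  have C : Ctx hQ act ψ a a' := ⟨hn, hψ, haa'⟩
  intro b hb
  rw [← C.rr_proj hb]
  have hb₀ := C.proj_mem hb
  generalize b - pol Q b a' • a = b₀ at hb₀ ⊢
  have hfr := C.finrank_W
  obtain ⟨c, hc, hc0, hQc⟩ := exists_singular hQ (WW hQ a a') (by omega)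
  obtain ⟨c', hc', hcc'⟩ := (Nd_WW hQ haa').exists_partner hQ hc hc0 hQc
  have hsp := span_singular hQ hc hc' hcc' hb₀
  have hspW : Submodule.span F {c | c ∈ WW hQ a a' ∧ Q c = 0} ≤ WW hQ a a' := by
    rw [Submodule.span_le]
    exact fun y hy => hy.1
  have key : ∀ y ∈ Submodule.span F {c | c ∈ WW hQ a a' ∧ Q c = 0}, ∀ t : F, AA act (rr hQ a (t • y)) x = x := by
    intro y hy
    induction hy using Submodule.span_induction with
    | mem y hy =>
      intro t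
      by_cases h0 : t • y = 0
      · rw [h0, rr_zero hQ haa'.ha, AA_one]
        rfl
      · have hyW := (mem_WW hQ).mp hy.1
        refine line_step hn hψ hL x haa'.ha (by rw [hQ.smul, hy.2, mul_zero]) h0
          (by rw [pol_smul_right hQ, hyW.1, mul_zero]) ?_
        intro hm
        obtain ⟨s, hs⟩ := Submodule.mem_span_singleton.mp hm
        have h1 := haa'.hab
        rw [← hs, pol_smul_left hQ, pol_smul_left hQ, pol_symm hQ y a', hyW.2] at h1
        simp at h1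
    | zero =>
      intro t
      rw [smul_zero, rr_zero hQ haa'.ha, AA_one]
      rfl
    | add y₁ y₂ h₁ h₂ hy₁ hy₂ =>
      intro t
      rw [smul_add, AA_rr_add haa' hn (Submodule.smul_mem _ _ (hspW h₁)) (Submodule.smul_mem _ _ (hspW h₂)), hy₂ t, hy₁ t]
    | smul s y h₁ hy =>
      intro t
      rw [smul_smul]
      exact hy _
  have := key b₀ hsp 1
  rwa [one_smul] at this

/-- The world of lines: every element fixes every point. -/
theorem line_world (hn : 7 ≤ Fintype.card ι) (hψ : ∀ c : F, c ≠ 0 → ∃ t : F, ψ (t * c) ≠ 1)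
    (hL : ∀ a a' : ι → F, Hyp Q a a' → ∀ S ∈ Sf hQ act ψ a a', Line S) {a a' : ι → F} (haa' : Hyp Q a a') (x : X)
    {g : GL ι F} (hg : g ∈ omegaGL Q) : AA act g x = x := by
  have h' : Hyp Q a' a := ⟨haa'.hb, haa'.ha, by rw [pol_symm hQ, haa'.hab]⟩
  exact fix_all (hQ := hQ) haa' hn (line_fix hn hψ hL x haa') (line_fix hn hψ hL x h') hg

end Cfsg.Agent.Lib.MinOmega
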