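/-
The regular world: a point whose stabiliser in the Eichler group is trivial.
-/
import Cfsg.Agent.Lib.MinOmega.World
set_option autoImplicit false

namespace Cfsg.Agent.Lib.MinOmega

open Cfsg Cfsg.Geo Cfsg.Agent.Lib.Geo.Basic Cfsg.Agent.Lib.Geo.QForm Cfsg.Agent.Lib.GeoOmega.Basic
open Cfsg.Agent.Lib.GeoOmega.Eichler
open scoped MatrixGroups Matrix
open scoped _root_.Classical

theorem nat_reg {q D Pw k α : ℕ} (hq : 2 ≤ q) (hD : 2 ≤ D) (hPw : Pw = 1 + q * k)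
    (h : (q ^ D + q * Pw) * α = (1 + (q ^ D + q * Pw)) * q ^ D) : False := by
  set N := q ^ D + q * Pw with hN
  have h1 : N ∣ (1 + N) * q ^ D := ⟨α, h.symm⟩
  have hc : Nat.Coprime N (1 + N) := by
    rw [Nat.coprime_comm]
    simp
  have h2 : N ∣ q ^ D := hc.dvd_of_dvd_mul_left h1
  obtain ⟨d, rfl⟩ : ∃ d, D = d + 2 := ⟨D - 2, by omega⟩
  set c := 1 + q * (q ^ d + k) with hc'
  have hNc : N = q * c := by
    rw [hN, hc', hPw, pow_add]
    ring
  have h3 : c ∣ q ^ (d + 2) := by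
    refine dvd_trans ?_ h2
    rw [hNc]
    exact dvd_mul_left _ _
  have h4 : Nat.Coprime c q := by
    rw [hc']
    simp
  have h5 : c = 1 := (h4.pow_right (d + 2)).eq_one_of_dvd h3
  have h6 : 1 ≤ q ^ d := Nat.one_le_pow _ _ (by omega)
  have h7 : q * 1 ≤ q * (q ^ d + k) := Nat.mul_le_mul_left _ (by omega)
  omega

variable {ι : Type} [Fintype ι] [DecidableEq ι] {F : Type*} [Field F] [Fintype F] {Q : (ι → F) → F}

/-- Numerical data for the core argument. -/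
structure Num (hQ : IsNondegenerateQuadraticForm Q) (D Pw N₀ : ℕ) : Prop where
  hn : 7 ≤ Fintype.card ι
  hD : ∀ a a' : ι → F, Hyp Q a a' → (WF (WW hQ a a')).card = Fintype.card F ^ D
  hs : ∀ a a' : ι → F, Hyp Q a a' → (Sg Q (WW hQ a a')).card = (Fintype.card F - 1) * Pw
  hsV : (Sg Q (⊤ : Submodule F (ι → F))).card = (Fintype.card F - 1) * N₀
  hN₀ : N₀ = 1 + Fintype.card F ^ D + Fintype.card F * Pw
  h2 : N₀ ≤ 2 * Fintype.card F ^ D
  hCl : ∀ a a' : ι → F, Hyp Q a a' → ∀ u ∈ WW hQ a a', Q u ≠ 0 → Fintype.card F * Pw < (Cl hQ a a' u).card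
  hPw : ∃ k, Pw = 1 + Fintype.card F * k
  hD2 : 2 ≤ D
  hm : ∃ m : F, m ≠ 0 ∧ m ^ 2 ≠ 1

variable {hQ : IsNondegenerateQuadraticForm Q} {X : Type*} [Fintype X] {act : ↥(omegaGL Q) →* Equiv.Perm X}
  {ψ : AddChar F ℂ}

theorem Line.card_le {S : Finset (ι → F)} (h : Line S) : S.card ≤ Fintype.card F := by
  obtain ⟨u, hu⟩ := h
  have h1 : S ⊆ Finset.univ.image fun t : F => t • u := by
    intro x hx
    obtain ⟨t, ht⟩ := Submodule.mem_span_singleton.mp (hu x hx)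
    exact Finset.mem_image.mpr ⟨t, Finset.mem_univ _, ht⟩
  exact (Finset.card_le_card h1).trans (Finset.card_image_le.trans (le_of_eq Finset.card_univ))

theorem rr_swap {p b : ι → F} (hp : Q p = 0) (hb : Q b = 0) (hpb : pol Q p b = 0) : rr hQ p b = rr hQ b (-p) := by
  have h1 : pol Q b (-p) = 0 := by rw [pol_neg_right hQ, pol_symm hQ, hpb, neg_zero]
  refine Eich.unique' (rr_eich hQ hp hpb) ?_
  intro x
  have hn : Q (-p) = 0 := by rw [← neg_one_smul F p, hQ.smul, hp, mul_zero]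
  rw [rr_mulVec hQ hb h1, eE, pol_neg_right hQ, hn]
  simp only [hb, zero_mul, zero_smul, sub_zero, neg_smul, smul_neg]
  abel

namespace Ctx

variable {v v' : ι → F} (C : Ctx hQ act ψ v v')

include C

theorem WF_of_reg {x : X} (h : RegAt hQ act v x) : Ss hQ act ψ v v' x = WF (WW hQ v v') := by
  ext u
  rw [mem_WF]
  constructor
  · intro hu
    exact (mem_ann.mp hu).1
  · intro hu
    exact (C.Ss_full_iff x).mpr h u hu

theorem reg_of_WF {x : X} (h : Ss hQ act ψ v v' x = WF (WW hQ v v')) : RegAt hQ act v x := by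
  refine (C.Ss_full_iff x).mp fun u hu => ?_
  rw [h, mem_WF]
  exact hu

theorem image_WF {T : (ι → F) → (ι → F)} (hT : Adm Q v v' T) : (WF (WW hQ v v')).image T = WF (WW hQ v v') := by
  apply Finset.eq_of_subset_of_card_le
  · intro y hy
    obtain ⟨u, hu, rfl⟩ := Finset.mem_image.mp hy
    rw [mem_WF] at hu ⊢
    exact C.Adm_W hT hu
  · rw [Finset.card_image_of_injective _ hT.inj]

/-- Only two members in the regular world. -/
theorem reg_two {D Pw N₀ : ℕ} (N : Num hQ D Pw N₀) (hN : Fintype.card X < N₀)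
    (htr : ∀ x y : X, ∃ g ∈ omegaGL Q, AA act g x = y)
    (hLW : ∀ S ∈ Sf hQ act ψ v v', S = WF (WW hQ v v') ∨ Line S)
    (hreg : ∃ x, RegAt hQ act v x) {S : Finset (ι → F)} (hS : S ∈ Sf hQ act ψ v v') :
    S = WF (WW hQ v v') ∨ S = {0} := by
  obtain ⟨x₀, hx₀⟩ := hreg
  set W := WW hQ v v' with hW
  have hWF : WF W ∈ Sf hQ act ψ v v' := by
    rw [← C.WF_of_reg hx₀]
    exact Finset.mem_image_of_mem _ (Finset.mem_univ _)
  have hq : 2 ≤ Fintype.card F := Fintype.one_lt_card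
  have hD := N.hD v v' C.h
  have hXs : (Xs hQ act ψ v v' (WF W)).card = Fintype.card F ^ D := by
    rcases C.Xs_dich' hWF with h | h
    · rw [h, hD]
    · exfalso
      have h1 : (Xs hQ act ψ v v' (WF W)).card ≤ Fintype.card X := Finset.card_le_univ _
      have h2 := N.h2
      rw [hD] at h
      omega
  set 𝓞 := (Sf hQ act ψ v v').erase (WF W) with h𝓞
  have hsub : 𝓞 ⊆ Sf hQ act ψ v v' := Finset.erase_subset _ _
  have hinv : Inv Q v v' 𝓞 := by
    intro T hT S hS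
    rw [h𝓞, Finset.mem_erase] at hS ⊢
    refine ⟨?_, C.Adm_Sf hT hS.2⟩
    intro he
    apply hS.1
    obtain ⟨T', hT', h1, -⟩ := hT.inv
    have h2 : (S.image T).image T' = S := by
      rw [Finset.image_image]
      have : T' ∘ T = id := funext h1
      rw [this, Finset.image_id]
    rw [← h2, he]
    exact C.image_WF hT'
  have hsum : Fintype.card F ^ D + ∑ S ∈ 𝓞, (Xs hQ act ψ v v' S).card = Fintype.card X := by
    rw [← C.sum_Xs_eq, ← Finset.add_sum_erase _ _ hWF, hXs]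
  have hrest : ∑ S ∈ 𝓞, (Xs hQ act ψ v v' S).card ≤ Fintype.card F * Pw := by
    have := N.hN₀
    omega
  have hle : ∑ S ∈ 𝓞, (S.card - 1) ≤ ∑ S ∈ 𝓞, (Xs hQ act ψ v v' S).card :=
    Finset.sum_le_sum fun S hS => (Nat.sub_le _ _).trans (C.card_le_Xs' (hsub hS))
  have hsing : ∀ S ∈ 𝓞, ∀ u ∈ S, Q u = 0 := by
    intro S hS u hu
    by_contra hne
    have hu0 : u ≠ 0 := by
      rintro rfl
      exact hne (Q_zero hQ)
    have huW := C.Sf_sub (hsub hS) hu
    have h1 := C.aa_mul_Cl_le hsub hinv huW hu0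
    have h2 : 1 ≤ aa 𝓞 u := Finset.card_pos.mpr ⟨S, Finset.mem_filter.mpr ⟨hS, hu⟩⟩
    have h3 := N.hCl v v' C.h u huW hne
    have h4 : (Cl hQ v v' u).card ≤ aa 𝓞 u * (Cl hQ v v' u).card := Nat.le_mul_of_pos_left _ h2
    omega
  by_contra hcon
  push Not at hcon
  have hS𝓞 : S ∈ 𝓞 := Finset.mem_erase.mpr ⟨hcon.1, hS⟩
  obtain ⟨u, hu, hu0⟩ : ∃ u ∈ S, u ≠ 0 := by
    by_contra hc
    push Not at hc
    apply hcon.2
    ext y
    rw [Finset.mem_singleton]
    exact ⟨hc y, fun h => h ▸ C.Sf_zero hS⟩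
  have huW := C.Sf_sub hS hu
  have hQu := hsing S hS𝓞 u hu
  have hCl : Cl hQ v v' u = Sg Q W := by
    ext y
    rw [mem_Cl, mem_Sg, hQu]
    constructor
    · rintro ⟨h1, h2, m, -, h3⟩
      exact ⟨h1, h2, by rw [h3, mul_zero]⟩
    · rintro ⟨h1, h2, h3⟩
      exact ⟨h1, h2, 1, one_ne_zero, by rw [h3, mul_zero]⟩
  have h1 := C.aa_mul_Cl_le hsub hinv huW hu0
  rw [hCl, N.hs v v' C.h] at h1
  have haa : 1 ≤ aa 𝓞 u := Finset.card_pos.mpr ⟨S, Finset.mem_filter.mpr ⟨hS𝓞, hu⟩⟩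
  have h2 : (Fintype.card F - 1) * Pw ≤ ∑ S ∈ 𝓞, (S.card - 1) :=
    (Nat.le_mul_of_pos_left _ haa).trans h1
  set 𝓟 := 𝓞.filter fun S => S ≠ {0} with h𝓟
  have hsumP : ∑ S ∈ 𝓟, (S.card - 1) = ∑ S ∈ 𝓞, (S.card - 1) := by
    rw [h𝓟]
    apply Finset.sum_filter_of_ne
    intro S _ hne h0
    exact hne (by simp [h0])
  have hcardle : ∀ S ∈ 𝓟, S.card - 1 ≤ Fintype.card F - 1 := by
    intro S hS
    rw [h𝓟, Finset.mem_filter, h𝓞, Finset.mem_erase] at hS
    rcases hLW S hS.1.2 with h | h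
    · exact absurd h hS.1.1
    · have := h.card_le
      omega
  have h3 : ∑ S ∈ 𝓟, (S.card - 1) ≤ 𝓟.card * (Fintype.card F - 1) := by
    have := Finset.sum_le_card_nsmul 𝓟 (fun S => S.card - 1) _ hcardle
    simpa using this
  have hq1 : 1 ≤ Fintype.card F - 1 := by omega
  have hPwle : Pw ≤ 𝓟.card := by
    have h4 : (Fintype.card F - 1) * Pw ≤ (Fintype.card F - 1) * 𝓟.card := by
      rw [mul_comm _ 𝓟.card]
      omega
    exact Nat.le_of_mul_le_mul_left h4 (by omega)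
  have hP2 : ∑ S ∈ 𝓟, S.card = ∑ S ∈ 𝓟, (S.card - 1) + 𝓟.card := by
    rw [Finset.card_eq_sum_ones 𝓟, ← Finset.sum_add_distrib]
    refine Finset.sum_congr rfl fun S hS => ?_
    have hpos : 1 ≤ S.card := Finset.card_pos.mpr ⟨0, C.Sf_zero (hsub (Finset.mem_filter.mp hS).1)⟩
    omega
  have hP3 : ∑ S ∈ 𝓟, S.card ≤ ∑ S ∈ 𝓟, (Xs hQ act ψ v v' S).card :=
    Finset.sum_le_sum fun S hS => C.card_le_Xs' (hsub (Finset.mem_filter.mp hS).1)
  have hP4 : ∑ S ∈ 𝓟, (Xs hQ act ψ v v' S).card ≤ ∑ S ∈ 𝓞, (Xs hQ act ψ v v' S).card :=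
    Finset.sum_le_sum_of_subset (Finset.filter_subset _ _)
  have hqPw : Fintype.card F * Pw = (Fintype.card F - 1) * Pw + Pw := by
    obtain ⟨c, hc⟩ : ∃ c, Fintype.card F = c + 1 := ⟨Fintype.card F - 1, by omega⟩
    rw [hc]
    simp only [Nat.add_sub_cancel]
    ring
  have hX : Fintype.card X = Fintype.card F ^ D + Fintype.card F * Pw := by
    rw [← hsum]
    congr 1
    omega
  have hv0 : v ≠ 0 := by
    rintro h0
    have := C.h.hab
    rw [h0, pol_zero_left hQ] at this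
    exact zero_ne_one this
  obtain ⟨α, hα⟩ := double_count (hQ := hQ) (act := act) C.hn htr (RegAt hQ act)
    (fun g hg v x hv => RegAt_move C.hn hg hv x) (fun t ht v x hv => RegAt_smul ht hv x) hv0 C.h.ha x₀
  have e : (Finset.univ.filter fun x => RegAt hQ act v x) = Xs hQ act ψ v v' (WF W) := by
    ext x
    simp only [Xs, Finset.mem_filter, Finset.mem_univ, true_and]
    exact ⟨C.WF_of_reg, C.reg_of_WF⟩
  rw [e, hXs, N.hsV, hX] at hα
  obtain ⟨k, hk⟩ := N.hPw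
  have h5 : (Fintype.card F ^ D + Fintype.card F * Pw) * α =
      (1 + (Fintype.card F ^ D + Fintype.card F * Pw)) * Fintype.card F ^ D := by
    apply Nat.eq_of_mul_eq_mul_left (show 0 < Fintype.card F - 1 by omega)
    have h6 := N.hN₀
    rw [h6] at hα
    rw [show (1 + (Fintype.card F ^ D + Fintype.card F * Pw)) = 1 + Fintype.card F ^ D + Fintype.card F * Pw by ring]
    calc (Fintype.card F - 1) * ((Fintype.card F ^ D + Fintype.card F * Pw) * α)
        = (Fintype.card F ^ D + Fintype.card F * Pw) * ((Fintype.card F - 1) * α) := by ring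
      _ = _ := by rw [hα]; ring
  exact nat_reg hq N.hD2 hk h5

end Ctx

/-- Spreading fixed centres. -/
theorem fix_spread {c c₁ : ι → F} {x : X} (hQc : Q c = 0) (hQc₁ : Q c₁ = 0) (hcc₁ : pol Q c₁ c = 0)
    (hind : c ∉ Submodule.span F {c₁}) (hdich : RegAt hQ act c₁ x ∨ FixAt hQ act c₁ x) (hF : FixAt hQ act c x) :
    FixAt hQ act c₁ x := by
  rcases hdich with hR | hR
  · exfalso
    apply hind
    apply hR c hcc₁
    rw [rr_swap hQc₁ hQc hcc₁]
    exact hF _ (by rw [pol_neg_right hQ, pol_symm hQ, hcc₁, neg_zero])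
  · exact hR

/-- **The regular world does not exist.** -/
theorem reg_false {D Pw N₀ : ℕ} (N : Num hQ D Pw N₀) (hψ : ∀ c : F, c ≠ 0 → ∃ t : F, ψ (t * c) ≠ 1)
    (hN : Fintype.card X < N₀) (htr : ∀ x y : X, ∃ g ∈ omegaGL Q, AA act g x = y)
    (hLW : ∀ a a' : ι → F, Hyp Q a a' → ∀ S ∈ Sf hQ act ψ a a', S = WF (WW hQ a a') ∨ Line S)
    {v v' : ι → F} (hvv' : Hyp Q v v') {x₀ : X} (hx₀ : RegAt hQ act v x₀) : False := by
  have hn := N.hn
  have hpart : ∀ a : ι → F, a ≠ 0 → Q a = 0 → ∃ a', Hyp Q a a' := by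
    intro a ha0 hQa
    obtain ⟨a', -, h⟩ := (Nd_top hQ).exists_partner hQ (a := a) trivial ha0 hQa
    exact ⟨a', h⟩
  have hne : ∀ {a a' : ι → F}, Hyp Q a a' → a ≠ 0 := by
    rintro a a' h rfl
    have := h.hab
    rw [pol_zero_left hQ] at this
    exact zero_ne_one this
  have hregAll : ∀ a : ι → F, a ≠ 0 → Q a = 0 → ∃ x, RegAt hQ act a x := by
    intro a ha0 hQa
    obtain ⟨g, hg, hga⟩ := exists_omega_move hQ hn (hne hvv') ha0 (by rw [hvv'.ha, hQa])
    refine ⟨AA act g x₀, ?_⟩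
    rw [← hga]
    exact (RegAt_move hn hg hvv'.ha x₀).mpr hx₀
  have hdich : ∀ a : ι → F, a ≠ 0 → Q a = 0 → ∀ x, RegAt hQ act a x ∨ FixAt hQ act a x := by
    intro a ha0 hQa x
    obtain ⟨a', h⟩ := hpart a ha0 hQa
    have C : Ctx hQ act ψ a a' := ⟨hn, hψ, h⟩
    rcases C.reg_two N hN htr (hLW a a' h) (hregAll a ha0 hQa) (Finset.mem_image_of_mem _ (Finset.mem_univ x)) with h1 | h1
    · exact Or.inl (C.reg_of_WF h1)
    · exact Or.inr ((C.Ss_zero_iff x).mp h1)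
  have hW5 : ∀ {a a' : ι → F}, Hyp Q a a' → 5 ≤ Module.finrank F (WW hQ a a') := by
    intro a a' _
    have := finrank_WW hQ a a'
    omega
  -- no fixed centres
  have hnofix : ∀ c : ι → F, c ≠ 0 → Q c = 0 → ∀ x, ¬ FixAt hQ act c x := by
    intro c hc0 hQc x hF
    obtain ⟨c', hcc'⟩ := hpart c hc0 hQc
    obtain ⟨c₁, hc₁, hc₁0, hQc₁⟩ := exists_singular hQ (WW hQ c c') (by have := hW5 hcc'; omega)
    have hc₁W := (mem_WW hQ).mp hc₁
    have hF1 : FixAt hQ act c₁ x := by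
      refine fix_spread hQc hQc₁ (by rw [pol_symm hQ]; exact hc₁W.1) ?_ (hdich c₁ hc₁0 hQc₁ x) hF
      intro hm
      obtain ⟨t, rfl⟩ := Submodule.mem_span_singleton.mp hm
      have h1 := hcc'.hab
      rw [pol_smul_left hQ, pol_symm hQ c₁ c', hc₁W.2, mul_zero] at h1
      exact zero_ne_one h1
    have hc'0 : c' ≠ 0 := by
      rintro rfl
      have := hcc'.hab
      rw [pol_zero_right hQ] at this
      exact zero_ne_one this
    have hF2 : FixAt hQ act c' x := by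
      refine fix_spread hQc₁ hcc'.hb (by exact hc₁W.2) ?_ (hdich c' hc'0 hcc'.hb x) hF1
      intro hm
      obtain ⟨t, rfl⟩ := Submodule.mem_span_singleton.mp hm
      have h1 := hc₁W.1
      rw [pol_smul_right hQ, hcc'.hab, mul_one] at h1
      apply hc₁0
      rw [h1, zero_smul]
    have hall : ∀ g ∈ omegaGL Q, AA act g x = x := fun g hg => fix_all (hQ := hQ) hcc' hn hF hF2 hg
    -- then `x₀ = x`
    obtain ⟨g, hg, hgx⟩ := htr x x₀
    rw [hall g hg] at hgx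
    subst hgx
    obtain ⟨b, hb, hb0, -⟩ := exists_singular hQ (WW hQ v v') (by have := hW5 hvv'; omega)
    have hbW := (mem_WW hQ).mp hb
    have h1 := hx₀ b hbW.1 (hall _ (rr_mem hQ hn hvv'.ha hbW.1))
    obtain ⟨t, rfl⟩ := Submodule.mem_span_singleton.mp h1
    have h2 := hbW.2
    rw [pol_smul_right hQ, pol_symm hQ v' v, hvv'.hab, mul_one] at h2
    apply hb0
    rw [h2, zero_smul]
  have hregs : ∀ a : ι → F, a ≠ 0 → Q a = 0 → ∀ x, RegAt hQ act a x := by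
    intro a ha0 hQa x
    rcases hdich a ha0 hQa x with h | h
    · exact h
    · exact absurd h (hnofix a ha0 hQa x)
  -- the torus
  have C : Ctx hQ act ψ v v' := ⟨hn, hψ, hvv'⟩
  obtain ⟨m, hm0, hm1⟩ := N.hm
  obtain ⟨z, hz, hzd⟩ := exists_z_sq hQ hn hvv' hm0
  have hWF : WF (WW hQ v v') ∈ Sf hQ act ψ v v' := by
    rw [← C.WF_of_reg hx₀]
    exact Finset.mem_image_of_mem _ (Finset.mem_univ _)
  have hXuniv : Xs hQ act ψ v v' (WF (WW hQ v v')) = Finset.univ := by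
    ext x
    simp only [Xs, Finset.mem_filter, Finset.mem_univ, true_and, iff_true]
    exact C.WF_of_reg (hregs v (hne hvv') hvv'.ha x)
  have hXcard : (Xs hQ act ψ v v' (WF (WW hQ v v'))).card = (WF (WW hQ v v')).card := by
    rcases C.Xs_dich' hWF with h | h
    · exact h
    · exfalso
      have h1 : (Xs hQ act ψ v v' (WF (WW hQ v v'))).card ≤ Fintype.card X := Finset.card_le_univ _
      have h2 := N.h2
      rw [N.hD v v' hvv'] at h
      omega
  have hFF : ∀ (t : F) y, y ∈ WF (WW hQ v v') → t • y ∈ WF (WW hQ v v') := by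
    intro t y hy
    rw [mem_WF] at hy ⊢
    exact Submodule.smul_mem _ _ hy
  obtain ⟨x₁, hx₁, hzx₁, -⟩ := C.z_point hz hzd (pow_ne_zero _ hm0) hm1 hWF hFF hXcard
  obtain ⟨e, he, he0, hQe⟩ := exists_singular hQ (WW hQ v v') (by have := hW5 hvv'; omega)
  obtain ⟨e', he', hee'⟩ := (Nd_WW hQ hvv').exists_partner hQ he he0 hQe
  have hR3 : 3 ≤ Module.finrank F (Ort hQ (Ort hQ (WW hQ v v') e) e') := by
    have h1 := finrank_WW hQ v v'
    have h2 := finrank_Ort hQ (WW hQ v v') e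
    have h3 := finrank_Ort hQ (Ort hQ (WW hQ v v') e) e'
    omega
  obtain ⟨b, hb, hb0, -⟩ := exists_singular hQ (Ort hQ (Ort hQ (WW hQ v v') e) e') hR3
  rw [mem_Ort hQ, mem_Ort hQ] at hb
  obtain ⟨⟨hbW, heb⟩, he'b⟩ := hb
  have hfix : AA act (rr hQ e b) x₁ = x₁ := by
    refine C.z_comm hz hzd (pow_ne_zero _ hm0) hm1 hWF hFF hXcard hx₁ hzx₁ (rr_mem hQ hn hQe heb)
      (C.z_comm_rr hz hzd he hbW hQe heb) ?_
    intro y _
    rw [hXuniv]
    exact Finset.mem_univ _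
  have h1 := hregs e he0 hQe x₁ b heb hfix
  obtain ⟨t, rfl⟩ := Submodule.mem_span_singleton.mp h1
  rw [pol_smul_right hQ, pol_symm hQ e' e, hee'.hab, mul_one] at he'b
  apply hb0
  rw [he'b, zero_smul]

/-- **Core theorem**: small transitive sets of `Ω` are trivial, when only lines and the whole space occur. -/
theorem core {D Pw N₀ : ℕ} (N : Num hQ D Pw N₀) (hψ : ∀ c : F, c ≠ 0 → ∃ t : F, ψ (t * c) ≠ 1)
    (hN : Fintype.card X < N₀) (htr : ∀ x y : X, ∃ g ∈ omegaGL Q, AA act g x = y)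
    (hLW : ∀ a a' : ι → F, Hyp Q a a' → ∀ S ∈ Sf hQ act ψ a a', S = WF (WW hQ a a') ∨ Line S)
    {v v' : ι → F} (hvv' : Hyp Q v v') (x : X) {g : GL ι F} (hg : g ∈ omegaGL Q) : AA act g x = x := by
  have hn := N.hn
  refine line_world (hQ := hQ) (ψ := ψ) hn hψ ?_ hvv' x hg
  intro a a' haa' S hS
  rcases hLW a a' haa' S hS with h | h
  · exfalso
    have C : Ctx hQ act ψ a a' := ⟨hn, hψ, haa'⟩
    obtain ⟨y, -, hy⟩ := Finset.mem_image.mp hS
    have hreg := C.reg_of_WF (x := y) (by rw [hy, h])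
    exact reg_false N hψ hN htr hLW haa' hreg
  · exact h

end Cfsg.Agent.Lib.MinOmega
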