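/-
Counting vectors of given norm across a hyperbolic pair.
-/
import Cfsg.Agent.Lib.MinOmega.Reg
set_option autoImplicit false

namespace Cfsg.Agent.Lib.MinOmega

open Cfsg Cfsg.Geo Cfsg.Agent.Lib.Geo.Basic Cfsg.Agent.Lib.Geo.QForm Cfsg.Agent.Lib.GeoOmega.Basic
open Cfsg.Agent.Lib.GeoOmega.Eichler
open scoped MatrixGroups Matrix
open scoped _root_.Classical

variable {ι : Type} [Fintype ι] [DecidableEq ι] {F : Type*} [Field F] [Fintype F] {Q : (ι → F) → F}

/-- The vectors of a subspace with given norm. -/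
noncomputable def NR (Q : (ι → F) → F) (R : Submodule F (ι → F)) (c : F) : ℕ :=
  ((WF R).filter fun x => Q x = c).card

/-- Solutions of `α β = t`. -/
theorem card_mul_eq (t : F) :
    (Finset.univ.filter fun p : F × F => p.1 * p.2 = t).card =
      (Fintype.card F - 1) + (if t = 0 then Fintype.card F else 0) := by
  have h1 : ∀ α : F, (Finset.univ.filter fun β : F => α * β = t).card =
      if α = 0 then (if t = 0 then Fintype.card F else 0) else 1 := by
    intro α
    by_cases hα : α = 0
    · subst hα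
      simp only [zero_mul, if_true]
      by_cases ht : t = 0
      · subst ht
        simp
      · have : (Finset.univ.filter fun _ : F => (0 : F) = t) = ∅ := by
          ext x
          simp [Ne.symm ht]
        rw [this, if_neg ht, Finset.card_empty]
    · rw [if_neg hα, Finset.card_eq_one]
      refine ⟨t / α, ?_⟩
      ext β
      simp only [Finset.mem_filter, Finset.mem_univ, true_and, Finset.mem_singleton]
      constructor
      · intro h
        rw [← h]
        field_simp
      · rintro rfl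
        field_simp
  rw [Finset.card_filter, Fintype.sum_prod_type]
  simp only [← Finset.card_filter, h1]
  rw [← Finset.add_sum_erase Finset.univ _ (Finset.mem_univ (0 : F)), if_pos rfl, add_comm]
  congr 1
  rw [Finset.sum_congr rfl (g := fun _ => 1)]
  · rw [Finset.sum_const, Finset.card_erase_of_mem (Finset.mem_univ _), Finset.card_univ, smul_eq_mul, mul_one]
  · intro x hx
    rw [if_neg (Finset.ne_of_mem_erase hx)]

variable (hQ : IsNondegenerateQuadraticForm Q) {R : Submodule F (ι → F)} {a b : ι → F}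

include hQ in
/-- The counting bijection across a hyperbolic pair. -/
theorem split_bij (ha : a ∈ R) (hb : b ∈ R) (h : Hyp Q a b) (P : F → Prop) :
    ((WF R).filter fun x => P (Q x)).card =
      ((Finset.univ ×ˢ WF (Ort hQ (Ort hQ R a) b)).filter
        fun p : (F × F) × (ι → F) => P (p.1.1 * p.1.2 + Q p.2)).card := by
  have hba : pol Q b a = 1 := by rw [pol_symm hQ, h.hab]
  have haa := pol_singular hQ h.ha
  have hbb := pol_singular hQ h.hb
  have hpt : ∀ (α β : F) (r : ι → F), pol Q r a = 0 → pol Q r b = 0 →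
      Q (α • a + β • b + r) = α * β + Q r := by
    intro α β r hra hrb
    rw [Q_add hQ, Q_add hQ, hQ.smul, hQ.smul, h.ha, h.hb, pol_smul_left hQ, pol_smul_right hQ, h.hab,
      pol_add_left hQ, pol_smul_left hQ, pol_smul_left hQ, pol_symm hQ a r, pol_symm hQ b r, hra, hrb]
    ring
  apply Finset.card_bij' (fun x _ => ((pol Q x b, pol Q x a), x - pol Q x b • a - pol Q x a • b))
    (fun p _ => p.1.1 • a + p.1.2 • b + p.2)
  · intro x hx
    rw [Finset.mem_filter, mem_WF] at hx
    obtain ⟨hxR, hxP⟩ := hx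
    obtain ⟨h1, h2⟩ := proj_perp hQ h x
    rw [Finset.mem_filter, Finset.mem_product, mem_WF, mem_Ort hQ, mem_Ort hQ]
    refine ⟨⟨Finset.mem_univ _, ⟨R.sub_mem (R.sub_mem hxR (R.smul_mem _ ha)) (R.smul_mem _ hb), h1⟩, h2⟩, ?_⟩
    have e := hpt (pol Q x b) (pol Q x a) (x - pol Q x b • a - pol Q x a • b)
      (by rw [pol_symm hQ]; exact h1) (by rw [pol_symm hQ]; exact h2)
    have e2 : pol Q x b • a + pol Q x a • b + (x - pol Q x b • a - pol Q x a • b) = x := by abel
    rw [e2] at e
    simp only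
    rw [← e]
    exact hxP
  · rintro ⟨⟨α, β⟩, r⟩ hp
    rw [Finset.mem_filter, Finset.mem_product, mem_WF, mem_Ort hQ, mem_Ort hQ] at hp
    obtain ⟨⟨-, ⟨hrR, har⟩, hbr⟩, hP⟩ := hp
    rw [Finset.mem_filter, mem_WF]
    refine ⟨R.add_mem (R.add_mem (R.smul_mem _ ha) (R.smul_mem _ hb)) hrR, ?_⟩
    simp only at hP ⊢
    rw [hpt α β r (by rw [pol_symm hQ]; exact har) (by rw [pol_symm hQ]; exact hbr)]
    exact hP
  · intro x _
    simp only
    abel
  · rintro ⟨⟨α, β⟩, r⟩ hp
    rw [Finset.mem_filter, Finset.mem_product, mem_WF, mem_Ort hQ, mem_Ort hQ] at hp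
    obtain ⟨⟨-, ⟨hrR, har⟩, hbr⟩, hP⟩ := hp
    simp only
    have e1 : pol Q (α • a + β • b + r) b = α := by
      rw [pol_add_left hQ, pol_add_left hQ, pol_smul_left hQ, pol_smul_left hQ, h.hab, hbb, pol_symm hQ r b, hbr]
      ring
    have e2 : pol Q (α • a + β • b + r) a = β := by
      rw [pol_add_left hQ, pol_add_left hQ, pol_smul_left hQ, pol_smul_left hQ, hba, haa, pol_symm hQ r a, har]
      ring
    rw [e1, e2]
    congr 2
    abel

include hQ in
/-- The basic counting formula. -/
theorem split_NR (ha : a ∈ R) (hb : b ∈ R) (h : Hyp Q a b) (c : F) :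
    NR Q R c = (Fintype.card F - 1) * (WF (Ort hQ (Ort hQ R a) b)).card +
      Fintype.card F * NR Q (Ort hQ (Ort hQ R a) b) c := by
  rw [NR, split_bij hQ ha hb h (fun t => t = c), Finset.card_filter, Finset.sum_product_right]
  have h1 : ∀ r : ι → F, ∑ p : F × F, (if p.1 * p.2 + Q r = c then 1 else 0) =
      (Fintype.card F - 1) + (if Q r = c then Fintype.card F else 0) := by
    intro r
    rw [← Finset.card_filter]
    have e : (Finset.univ.filter fun p : F × F => p.1 * p.2 + Q r = c) =
        Finset.univ.filter fun p : F × F => p.1 * p.2 = c - Q r := by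
      ext p
      simp only [Finset.mem_filter, Finset.mem_univ, true_and]
      exact eq_sub_iff_add_eq.symm
    rw [e, card_mul_eq]
    simp only [sub_eq_zero, eq_comm (a := c)]
  simp only [h1]
  rw [Finset.sum_add_distrib, Finset.sum_const, smul_eq_mul, mul_comm, NR, Finset.card_filter, Finset.mul_sum]
  congr 1
  refine Finset.sum_congr rfl fun x _ => ?_
  split_ifs <;> simp

include hQ in
/-- The cardinality across a hyperbolic pair. -/
theorem split_card (ha : a ∈ R) (hb : b ∈ R) (h : Hyp Q a b) :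
    (WF R).card = Fintype.card F ^ 2 * (WF (Ort hQ (Ort hQ R a) b)).card := by
  have h1 := split_bij hQ ha hb h (fun _ => True)
  simp only [Finset.filter_true, Finset.card_product, Finset.card_univ, Fintype.card_prod] at h1
  rw [h1, pow_two]

include hQ in
theorem card_Sg_add_one : (Sg Q R).card + 1 = NR Q R 0 := by
  have h1 : Sg Q R = ((WF R).filter fun x => Q x = 0).erase 0 := by
    ext y
    rw [mem_Sg, Finset.mem_erase, Finset.mem_filter, mem_WF]
    tauto
  rw [h1, Finset.card_erase_add_one, NR]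
  rw [Finset.mem_filter, mem_WF]
  exact ⟨R.zero_mem, Q_zero hQ⟩

include hQ in
/-- Singular vectors across a hyperbolic pair. -/
theorem split_Sg (ha : a ∈ R) (hb : b ∈ R) (h : Hyp Q a b) :
    (Sg Q R).card = (Fintype.card F - 1) * ((WF (Ort hQ (Ort hQ R a) b)).card + 1) +
      Fintype.card F * (Sg Q (Ort hQ (Ort hQ R a) b)).card := by
  have h1 := card_Sg_add_one hQ (R := R)
  have h2 := card_Sg_add_one hQ (R := Ort hQ (Ort hQ R a) b)
  have h3 := split_NR hQ ha hb h 0
  rw [← h1, ← h2] at h3
  have hq : 1 ≤ Fintype.card F := Fintype.card_pos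
  obtain ⟨c, hc⟩ : ∃ c, Fintype.card F = c + 1 := ⟨Fintype.card F - 1, by omega⟩
  rw [hc] at h3 ⊢
  simp only [Nat.add_sub_cancel] at h3 ⊢
  nlinarith

/-- The size of the top. -/
theorem card_WF_top : (WF (⊤ : Submodule F (ι → F))).card = Fintype.card F ^ Fintype.card ι := by
  have : WF (⊤ : Submodule F (ι → F)) = Finset.univ := by
    ext
    simp
  rw [this, Finset.card_univ, Fintype.card_fun]

/-- Base numerical data. -/
structure Base (hQ : IsNondegenerateQuadraticForm Q) (D P₂ Pw N₀ : ℕ) : Prop where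
  hcard : Fintype.card ι = D + 2
  hD4 : 5 ≤ D
  hZ : (Sg Q (⊤ : Submodule F (ι → F))).card = (Fintype.card F - 1) * N₀
  hN₀ : N₀ = 1 + Fintype.card F ^ D + Fintype.card F * Pw
  hPw : Pw = 1 + Fintype.card F ^ (D - 2) + Fintype.card F * P₂

namespace Base

variable {hQ} {D P₂ Pw N₀ : ℕ} (B : Base hQ D P₂ Pw N₀)

include B

theorem card_W {v v' : ι → F} (h : Hyp Q v v') : (WF (WW hQ v v')).card = Fintype.card F ^ D := by
  have h1 := split_card hQ (R := ⊤) (a := v) (b := v') trivial trivial h
  rw [card_WF_top, B.hcard] at h1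
  have hq : 0 < Fintype.card F := Fintype.card_pos
  have h2 : Fintype.card F ^ (D + 2) = Fintype.card F ^ 2 * Fintype.card F ^ D := by rw [pow_add]; ring
  rw [h2] at h1
  exact (Nat.eq_of_mul_eq_mul_left (by positivity) h1).symm

theorem card_Sg_W {v v' : ι → F} (h : Hyp Q v v') : (Sg Q (WW hQ v v')).card = (Fintype.card F - 1) * Pw := by
  have h1 := split_Sg hQ (R := ⊤) (a := v) (b := v') trivial trivial h
  rw [B.hZ] at h1
  have h2 : WF (Ort hQ (Ort hQ ⊤ v) v') = WF (WW hQ v v') := rfl
  have h3 : Sg Q (Ort hQ (Ort hQ ⊤ v) v') = Sg Q (WW hQ v v') := rfl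
  rw [h2, h3, B.card_W h, B.hN₀] at h1
  have hq : 0 < Fintype.card F := Fintype.card_pos
  apply Nat.eq_of_mul_eq_mul_left hq
  have e : (Fintype.card F - 1) * (1 + Fintype.card F ^ D + Fintype.card F * Pw) =
      (Fintype.card F - 1) * (Fintype.card F ^ D + 1) + Fintype.card F * ((Fintype.card F - 1) * Pw) := by ring
  rw [e] at h1
  exact (Nat.add_left_cancel h1).symm

theorem card_W₂ {v v' u u' : ι → F} (h : Hyp Q v v') (hu : u ∈ WW hQ v v') (hu' : u' ∈ WW hQ v v')
    (huu' : Hyp Q u u') : (WF (Ort hQ (Ort hQ (WW hQ v v') u) u')).card = Fintype.card F ^ (D - 2) := by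
  have h1 := split_card hQ hu hu' huu'
  rw [B.card_W h] at h1
  have hq : 0 < Fintype.card F := Fintype.card_pos
  have hD := B.hD4
  have h2 : Fintype.card F ^ D = Fintype.card F ^ 2 * Fintype.card F ^ (D - 2) := by
    rw [← pow_add]
    congr 1
    omega
  rw [h2] at h1
  exact (Nat.eq_of_mul_eq_mul_left (by positivity) h1).symm

theorem card_Sg_W₂ {v v' u u' : ι → F} (h : Hyp Q v v') (hu : u ∈ WW hQ v v') (hu' : u' ∈ WW hQ v v')
    (huu' : Hyp Q u u') : (Sg Q (Ort hQ (Ort hQ (WW hQ v v') u) u')).card = (Fintype.card F - 1) * P₂ := by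
  have h1 := split_Sg hQ hu hu' huu'
  rw [B.card_Sg_W h, B.card_W₂ h hu hu' huu', B.hPw] at h1
  have hq : 0 < Fintype.card F := Fintype.card_pos
  apply Nat.eq_of_mul_eq_mul_left hq
  have e : (Fintype.card F - 1) * (1 + Fintype.card F ^ (D - 2) + Fintype.card F * P₂) =
      (Fintype.card F - 1) * (Fintype.card F ^ (D - 2) + 1) + Fintype.card F * ((Fintype.card F - 1) * P₂) := by ring
  rw [e] at h1
  exact (Nat.add_left_cancel h1).symm

end Base

end Cfsg.Agent.Lib.MinOmega
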