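/-
Assembly of the small-orbit theorem.
-/
import Cfsg.Agent.Lib.MinOmega.Split
set_option autoImplicit false

namespace Cfsg.Agent.Lib.MinOmega

open Cfsg Cfsg.Geo Cfsg.Agent.Lib.Geo.Basic Cfsg.Agent.Lib.Geo.QForm Cfsg.Agent.Lib.GeoOmega.Basic
open Cfsg.Agent.Lib.GeoOmega.Eichler
open scoped MatrixGroups Matrix
open scoped _root_.Classical

variable {ι : Type} [Fintype ι] [DecidableEq ι] {F : Type*} [Field F] [Fintype F] {Q : (ι → F) → F}

variable {hQ : IsNondegenerateQuadraticForm Q} {X : Type*} [Fintype X] {act : ↥(omegaGL Q) →* Equiv.Perm X}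
  {ψ : AddChar F ℂ}

/-- Lower bound for a non-singular class. -/
theorem Cl_bound {v v' u : ι → F} (hQu : Q u ≠ 0) {n e : ℕ}
    (hn : ∀ t : F, t ≠ 0 → n ≤ NR Q (WW hQ v v') t)
    (he : ∀ t : F, t ≠ 0 → (Finset.univ.filter fun m : F => m ≠ 0 ∧ m ^ 2 = t).card ≤ e) :
    (Fintype.card F - 1) * n ≤ e * (Cl hQ v v' u).card := by
  set A : Finset F := Finset.univ.erase 0 with hA
  have h2 := Finset.sum_card_bipartiteAbove_eq_sum_card_bipartiteBelow (s := A) (t := Cl hQ v v' u)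
    (fun m y => Q y = m ^ 2 * Q u)
  unfold Finset.bipartiteAbove Finset.bipartiteBelow at h2
  have h3 : ∀ m ∈ A, n ≤ ((Cl hQ v v' u).filter fun y => Q y = m ^ 2 * Q u).card := by
    intro m hm
    have hm0 : m ≠ 0 := Finset.ne_of_mem_erase hm
    have hne : m ^ 2 * Q u ≠ 0 := mul_ne_zero (pow_ne_zero _ hm0) hQu
    refine (hn _ hne).trans (le_of_eq ?_)
    rw [NR]
    congr 1
    ext y
    rw [Finset.mem_filter, Finset.mem_filter, mem_WF, mem_Cl]
    constructor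
    · rintro ⟨h1, h4⟩
      refine ⟨⟨h1, ?_, m, hm0, h4⟩, h4⟩
      rintro rfl
      rw [Q_zero hQ] at h4
      exact hne h4.symm
    · rintro ⟨⟨h1, -, -⟩, h4⟩
      exact ⟨h1, h4⟩
  have h4 : ∀ y ∈ Cl hQ v v' u, (A.filter fun m => Q y = m ^ 2 * Q u).card ≤ e := by
    intro y hy
    obtain ⟨-, hy0, m₀, hm₀, hyQ⟩ := mem_Cl.mp hy
    have hne : Q y / Q u ≠ 0 := by
      rw [hyQ]
      exact div_ne_zero (mul_ne_zero (pow_ne_zero _ hm₀) hQu) hQu
    refine le_trans (Finset.card_le_card ?_) (he (Q y / Q u) hne)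
    intro m hm
    rw [Finset.mem_filter] at hm ⊢
    refine ⟨Finset.mem_univ _, Finset.ne_of_mem_erase hm.1, ?_⟩
    rw [hm.2]
    field_simp
  have hcardA : A.card = Fintype.card F - 1 := by
    rw [hA, Finset.card_erase_of_mem (Finset.mem_univ _), Finset.card_univ]
  calc (Fintype.card F - 1) * n = A.card * n := by rw [hcardA]
    _ ≤ ∑ m ∈ A, ((Cl hQ v v' u).filter fun y => Q y = m ^ 2 * Q u).card := by
        rw [← smul_eq_mul]
        exact Finset.card_nsmul_le_sum _ _ _ h3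
    _ = ∑ y ∈ Cl hQ v v' u, (A.filter fun m => Q y = m ^ 2 * Q u).card := h2
    _ ≤ (Cl hQ v v' u).card • e := Finset.sum_le_card_nsmul _ _ _ h4
    _ = e * (Cl hQ v v' u).card := by rw [smul_eq_mul, mul_comm]

/-- Finer numerical data. -/
structure Fine (hQ : IsNondegenerateQuadraticForm Q) (D P₂ Pw N₀ n e : ℕ) : Prop extends Base hQ D P₂ Pw N₀ where
  h2 : N₀ ≤ 2 * Fintype.card F ^ D
  hnV : ∀ t : F, t ≠ 0 → (Fintype.card F - 1) * Fintype.card F ^ D + Fintype.card F * n ≤ NR Q ⊤ t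
  he : ∀ t : F, t ≠ 0 → (Finset.univ.filter fun m : F => m ≠ 0 ∧ m ^ 2 = t).card ≤ e
  he1 : 1 ≤ e
  heq : e < Fintype.card F - 1
  hc1 : e * (Fintype.card F * Pw) < (Fintype.card F - 1) * n
  hc2 : e * N₀ ≤ ringChar F * ((Fintype.card F - 1) * n)
  hdim' : (2 : F) = 0 → 6 ≤ D

namespace Fine

variable {D P₂ Pw N₀ n e : ℕ} (B : Fine hQ D P₂ Pw N₀ n e)

include B

theorem n_le {v v' : ι → F} (h : Hyp Q v v') {t : F} (ht : t ≠ 0) : n ≤ NR Q (WW hQ v v') t := by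
  have h1 := split_NR hQ (R := ⊤) (a := v) (b := v') trivial trivial h t
  have h2 := B.hnV t ht
  have e1 : WF (Ort hQ (Ort hQ ⊤ v) v') = WF (WW hQ v v') := rfl
  have e2 : NR Q (Ort hQ (Ort hQ ⊤ v) v') t = NR Q (WW hQ v v') t := rfl
  rw [e1, e2, B.card_W h] at h1
  rw [h1] at h2
  have h3 := Nat.le_of_add_le_add_left h2
  exact Nat.le_of_mul_le_mul_left h3 Fintype.card_pos

theorem cl_bound {v v' : ι → F} (h : Hyp Q v v') {u : ι → F} (hQu : Q u ≠ 0) :
    (Fintype.card F - 1) * n ≤ e * (Cl hQ v v' u).card :=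
  Cl_bound (hQ := hQ) hQu (fun _ ht => B.n_le h ht) B.he

theorem cl_gt {v v' : ι → F} (h : Hyp Q v v') {u : ι → F} (hQu : Q u ≠ 0) :
    Fintype.card F * Pw < (Cl hQ v v' u).card := by
  have h1 := B.cl_bound h hQu
  have h2 := B.hc1
  exact lt_of_mul_lt_mul_left (h2.trans_le h1) (Nat.zero_le _)

theorem cl_p {v v' : ι → F} (h : Hyp Q v v') {u : ι → F} (hQu : Q u ≠ 0) :
    N₀ ≤ ringChar F * (Cl hQ v v' u).card := by
  have h1 := B.cl_bound h hQu
  have h2 := B.hc2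
  have h3 : e * N₀ ≤ e * (ringChar F * (Cl hQ v v' u).card) := by
    calc e * N₀ ≤ ringChar F * ((Fintype.card F - 1) * n) := h2
      _ ≤ ringChar F * (e * (Cl hQ v v' u).card) := Nat.mul_le_mul_left _ h1
      _ = _ := by ring
  exact Nat.le_of_mul_le_mul_left h3 B.he1

theorem exists_m : ∃ m : F, m ≠ 0 ∧ m ^ 2 ≠ 1 := by
  by_contra hcon
  push Not at hcon
  have h1 := B.he 1 one_ne_zero
  have h2 : (Finset.univ.filter fun m : F => m ≠ 0 ∧ m ^ 2 = 1) = Finset.univ.erase 0 := by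
    ext m
    simp only [Finset.mem_filter, Finset.mem_univ, true_and, Finset.mem_erase, and_true]
    exact ⟨fun h => h.1, fun h => ⟨h, hcon m h⟩⟩
  rw [h2, Finset.card_erase_of_mem (Finset.mem_univ _), Finset.card_univ] at h1
  have := B.heq
  omega

theorem num : Num hQ D Pw N₀ where
  hn := by
    have h1 := B.hcard
    have h2 := B.hD4
    omega
  hD := fun _ _ h => B.card_W h
  hs := fun _ _ h => B.card_Sg_W h
  hsV := B.hZ
  hN₀ := B.hN₀
  h2 := B.h2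
  hCl := fun _ _ h _ _ hQu => B.cl_gt h hQu
  hPw := by
    refine ⟨Fintype.card F ^ (D - 3) + P₂, ?_⟩
    rw [B.hPw]
    have h3 : Fintype.card F ^ (D - 2) = Fintype.card F * Fintype.card F ^ (D - 3) := by
      rw [← pow_succ']
      congr 1
      have := B.hD4
      omega
    rw [h3]
    ring
  hD2 := by
    have := B.hD4
    omega
  hm := B.exists_m

/-- Without totally singular members, small transitive sets are trivial. -/
theorem main_of_noTs (hψ : ∀ c : F, c ≠ 0 → ∃ t : F, ψ (t * c) ≠ 1) (hN : Fintype.card X < N₀)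
    (htr : ∀ x y : X, ∃ g ∈ omegaGL Q, AA act g x = y)
    (hnoTs : ∀ a a' : ι → F, Hyp Q a a' → ∀ S ∈ Sf hQ act ψ a a', ¬ Ts Q S)
    {v v' : ι → F} (hvv' : Hyp Q v v') (x : X) {g : GL ι F} (hg : g ∈ omegaGL Q) : AA act g x = x := by
  have N := B.num
  refine core N hψ hN htr ?_ hvv' x hg
  intro a a' haa' S hS
  have C : Ctx hQ act ψ a a' := ⟨N.hn, hψ, haa'⟩
  rcases C.tri hN (fun h2 => by
      have h3 := B.hdim' h2
      have h4 := finrank_WW hQ a a'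
      have h5 := B.hcard
      omega) (fun u _ hQu => B.cl_p haa' hQu) hS with h | h | h
  · left
    ext y
    rw [mem_WF]
    exact ⟨fun hy => C.Sf_sub hS hy, h y⟩
  · exact Or.inr h
  · exact absurd h (hnoTs a a' haa' S hS)

/-- **Small transitive sets, generic dimensions.** -/
theorem main_gen {w c₀ : ℕ} (hψ : ∀ c : F, c ≠ 0 → ∃ t : F, ψ (t * c) ≠ 1) (hN : Fintype.card X < N₀)
    (htr : ∀ x y : X, ∃ g ∈ omegaGL Q, AA act g x = y)
    (hw : ∀ T : Submodule F (ι → F), (∀ x ∈ T, Q x = 0) → Module.finrank F T ≤ w + 2)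
    (hc₀ : ∀ c, (Fintype.card F - 1) * P₂ ≤ c * (Fintype.card F ^ w - 1) → c₀ ≤ c)
    (hgen : N₀ ≤ (Fintype.card F - 1) * Pw * c₀)
    {v v' : ι → F} (hvv' : Hyp Q v v') (x : X) {g : GL ι F} (hg : g ∈ omegaGL Q) : AA act g x = x := by
  refine B.main_of_noTs hψ hN htr ?_ hvv' x hg
  intro a a' haa' S hS
  have N := B.num
  have C : Ctx hQ act ψ a a' := ⟨N.hn, hψ, haa'⟩
  refine C.no_ts_generic hN hw (s' := (Fintype.card F - 1) * P₂) ?_ hc₀ ?_ hS
  · intro u u' hu hu' huu'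
    rw [B.card_Sg_W₂ haa' hu hu' huu']
  · rw [B.card_Sg_W haa']
    exact hgen

/-- **Small transitive sets, exceptional dimensions.** -/
theorem main_cand {w κ₀ R : ℕ} (hψ : ∀ c : F, c ≠ 0 → ∃ t : F, ψ (t * c) ≠ 1) (hN : Fintype.card X < N₀)
    (htr : ∀ x y : X, ∃ g ∈ omegaGL Q, AA act g x = y)
    (hw : ∀ T : Submodule F (ι → F), (∀ x ∈ T, Q x = 0) → Module.finrank F T ≤ w + 2)
    (hc₀ : ∀ c, (Fintype.card F - 1) * P₂ ≤ c * (Fintype.card F ^ w - 1) → Fintype.card F + 1 ≤ c)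
    (hA : N₀ ≤ 2 * ((Fintype.card F - 1) * Pw * (Fintype.card F + 1)))
    (hB : N₀ * (Fintype.card F ^ (w + 1) - 2) ≤ (Fintype.card F - 1) * Pw * (Fintype.card F + 1) * Fintype.card F ^ (w + 1))
    (hC : N₀ ≤ (Fintype.card F - 1) * Pw * (Fintype.card F + 2))
    (hκ : κ₀ * (Fintype.card F ^ (w + 1) - 1) = (Fintype.card F - 1) * Pw * (Fintype.card F + 1))
    (hN₀' : N₀ = κ₀ * Fintype.card F ^ (w + 1) + R) (hM : 2 ≤ Fintype.card F ^ (w + 1))
    (hR₁ : R ≤ Fintype.card F * Pw) (hR₂ : R ≤ (Fintype.card F - 1) * Pw)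
    (hKR : R * R ≤ 4 * (κ₀ * Fintype.card F ^ (w + 1)))
    {v v' : ι → F} (hvv' : Hyp Q v v') (x : X) {g : GL ι F} (hg : g ∈ omegaGL Q) : AA act g x = x := by
  refine B.main_of_noTs hψ hN htr ?_ hvv' x hg
  intro a a' haa' S hS hTs
  have N := B.num
  have C : Ctx hQ act ψ a a' := ⟨N.hn, hψ, haa'⟩
  obtain ⟨m, hm0, hm1⟩ := B.exists_m
  refine C.no_ts_cand (w := w) (s' := (Fintype.card F - 1) * P₂) (N₀ := N₀) (κ₀ := κ₀) (R := R) ?_ hN ?_ ?_ htr B.hZ hKR hm0 hm1 hS hTs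
  · intro b b' hbb'
    refine ⟨hw, hc₀, ?_, ?_, ?_, ?_, hN₀', hM⟩ <;> rw [B.card_Sg_W hbb']
    · exact hA
    · exact hB
    · exact hC
    · exact hκ
  · intro b b' hbb' u u' hu hu' huu'
    rw [B.card_Sg_W₂ hbb' hu hu' huu']
  · intro b b' hbb' u hu hu0
    by_cases hQu : Q u = 0
    · have hCl : Cl hQ b b' u = Sg Q (WW hQ b b') := by
        ext y
        rw [mem_Cl, mem_Sg, hQu]
        constructor
        · rintro ⟨h1, h2, m, -, h3⟩
          exact ⟨h1, h2, by rw [h3, mul_zero]⟩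
        · rintro ⟨h1, h2, h3⟩
          exact ⟨h1, h2, 1, one_ne_zero, by rw [h3, mul_zero]⟩
      rw [hCl, B.card_Sg_W hbb']
      exact hR₂
    · exact hR₁.trans (B.cl_gt hbb' hQu).le

end Fine

end Cfsg.Agent.Lib.MinOmega
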