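/-
Numerical facts for the plus type (generated with certificates).
-/
import Mathlib
set_option autoImplicit false
set_option maxRecDepth 4000
set_option linter.unusedSimpArgs false

namespace Cfsg.Agent.Lib.MinOmega.NumP

/-- The geometric sum. -/
def GG (q : ℕ) : ℕ → ℕ
  | 0 => 0
  | k + 1 => 1 + q * GG q k

theorem GG_mul (a k : ℕ) : a * GG (a + 1) k + 1 = (a + 1) ^ k := by
  induction k with
  | zero => simp [GG]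
  | succ k ih =>
    rw [GG, pow_succ, ← ih]
    ring

theorem GG_pos {q k : ℕ} (hk : 1 ≤ k) : 1 ≤ GG q k := by
  obtain ⟨j, rfl⟩ : ∃ j, k = j + 1 := ⟨k - 1, by omega⟩
  rw [GG]
  exact Nat.le_add_right _ _

def px (a g : ℕ) : ℕ := a * g + 1
def pg2 (a g : ℕ) : ℕ := 1 + (a + 1) * g
def pg1 (a g : ℕ) : ℕ := 1 + (a + 1) * pg2 a g
def pg0 (a g : ℕ) : ℕ := 1 + (a + 1) * pg1 a g
def pP2 (a g : ℕ) : ℕ := pg2 a g * (px a g + 1)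
def pPw (a g : ℕ) : ℕ := pg1 a g * ((a + 1) * px a g + 1)
def pN0 (a g : ℕ) : ℕ := pg0 a g * ((a + 1) * (a + 1) * px a g + 1)
def pn (a g : ℕ) : ℕ := (a + 1) * px a g * (a * pg1 a g)


theorem E1 (a g : ℕ) : pN0 a g = 1 + (a + 1) ^ 4 * (px a g) ^ 2 + (a + 1) * pPw a g := by
  simp only [px, pg2, pg1, pg0, pP2, pPw, pN0, pn]
  ring

theorem E2 (a g : ℕ) : pPw a g = 1 + (a + 1) ^ 2 * (px a g) ^ 2 + (a + 1) * pP2 a g := by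
  simp only [px, pg2, pg1, pg0, pP2, pPw, pN0, pn]
  ring

theorem E3 (a g : ℕ) : a * pg0 a g + 1 = (a + 1) ^ 3 * px a g := by
  simp only [px, pg2, pg1, pg0, pP2, pPw, pN0, pn]
  ring

theorem E4 (a g : ℕ) : a * pN0 a g + 1 = (a + 1) ^ 3 * px a g + a * pg0 a g * ((a + 1) ^ 2 * px a g) := by
  simp only [px, pg2, pg1, pg0, pP2, pPw, pN0, pn]
  ring

theorem E5 (a g : ℕ) : a * (a + 1) ^ 4 * (px a g) ^ 2 + (a + 1) * pn a g = a * pg0 a g * ((a + 1) ^ 2 * px a g) := by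
  simp only [px, pg2, pg1, pg0, pP2, pPw, pN0, pn]
  ring

theorem E6 (a g : ℕ) : a * pg2 a g + 1 = (a + 1) * px a g := by
  simp only [px, pg2, pg1, pg0, pP2, pPw, pN0, pn]
  ring

theorem E7 (a g : ℕ) : a * pP2 a g = (a * pg2 a g) * (px a g + 1) := by
  simp only [px, pg2, pg1, pg0, pP2, pPw, pN0, pn]
  ring

theorem E8 (a g : ℕ) : a * pg1 a g + 1 = (a + 1) ^ 2 * px a g := by
  simp only [px, pg2, pg1, pg0, pP2, pPw, pN0, pn]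
  ring

theorem I1 {a g : ℕ} (ha : 3 ≤ a) (hg : 1 ≤ g) : pN0 a g ≤ 2 * (a + 1) ^ 4 * (px a g) ^ 2 := by
  obtain ⟨A, rfl⟩ : ∃ A, a = A + 3 := ⟨a - 3, by omega⟩
  obtain ⟨B, rfl⟩ : ∃ B, g = B + 1 := ⟨g - 1, by omega⟩
  simp only [px, pg2, pg1, pg0, pP2, pPw, pN0, pn]
  refine Nat.le.intro (k := A^6*B^2 + 21*A^5*B^2 + 2*A^6*B + 182*A^4*B^2 + 44*A^5*B + A^6 + 832*A^3*B^2 + 400*A^4*B + 23*A^5 + 2112*A^2*B^2 + 1919*A^3*B + 219*A^4 + 2816*A*B^2 + 5109*A^2*B + 1102*A^3 + 7128*A*B + 3079*A^2 + 1536*B^2 + 4503*A + 4048*B + 2667) ?_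
  ring

theorem I2e {a g : ℕ} (ha : 3 ≤ a) (hg : 1 ≤ g) : (a + 1) * pPw a g < a * pn a g := by
  obtain ⟨A, rfl⟩ : ∃ A, a = A + 3 := ⟨a - 3, by omega⟩
  obtain ⟨B, rfl⟩ : ∃ B, g = B + 1 := ⟨g - 1, by omega⟩
  simp only [px, pg2, pg1, pg0, pP2, pPw, pN0, pn]
  refine Nat.lt_of_add_one_le (Nat.le.intro (k := A^6*B^2 + 20*A^5*B^2 + 2*A^6*B + 164*A^4*B^2 + 42*A^5*B + A^6 + 703*A^3*B^2 + 362*A^4*B + 22*A^5 + 1652*A^2*B^2 + 1630*A^3*B + 199*A^4 + 2000*A*B^2 + 4011*A^2*B + 941*A^3 + 5047*A*B + 2428*A^2 + 960*B^2 + 3183*A + 2476*B + 1595) ?_)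
  ring

theorem I3e {a g : ℕ} (ha : 3 ≤ a) (hg : 1 ≤ g) : pN0 a g ≤ 2 * (a * pn a g) := by
  obtain ⟨A, rfl⟩ : ∃ A, a = A + 3 := ⟨a - 3, by omega⟩
  obtain ⟨B, rfl⟩ : ∃ B, g = B + 1 := ⟨g - 1, by omega⟩
  simp only [px, pg2, pg1, pg0, pP2, pPw, pN0, pn]
  refine Nat.le.intro (k := A^6*B^2 + 19*A^5*B^2 + 2*A^6*B + 146*A^4*B^2 + 40*A^5*B + A^6 + 574*A^3*B^2 + 324*A^4*B + 21*A^5 + 1192*A^2*B^2 + 1341*A^3*B + 179*A^4 + 1184*A*B^2 + 2913*A^2*B + 780*A^3 + 2966*A*B + 1777*A^2 + 384*B^2 + 1863*A + 904*B + 523) ?_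
  ring

theorem I2o {a g : ℕ} (ha : 4 ≤ a) (hg : 1 ≤ g) : 2 * ((a + 1) * pPw a g) < a * pn a g := by
  obtain ⟨A, rfl⟩ : ∃ A, a = A + 4 := ⟨a - 4, by omega⟩
  obtain ⟨B, rfl⟩ : ∃ B, g = B + 1 := ⟨g - 1, by omega⟩
  simp only [px, pg2, pg1, pg0, pP2, pPw, pN0, pn]
  refine Nat.lt_of_add_one_le (Nat.le.intro (k := A^6*B^2 + 25*A^5*B^2 + 2*A^6*B + 255*A^4*B^2 + 52*A^5*B + A^6 + 1349*A^3*B^2 + 552*A^4*B + 27*A^5 + 3860*A^2*B^2 + 3037*A^3*B + 298*A^4 + 5550*A*B^2 + 9009*A^2*B + 1705*A^3 + 13314*A*B + 5249*A^2 + 3000*B^2 + 7988*A + 7220*B + 4339) ?_)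
  ring

theorem I3o3 {a g : ℕ} (ha : 8 ≤ a) (hg : 1 ≤ g) : 2 * pN0 a g ≤ 3 * (a * pn a g) := by
  obtain ⟨A, rfl⟩ : ∃ A, a = A + 8 := ⟨a - 8, by omega⟩
  obtain ⟨B, rfl⟩ : ∃ B, g = B + 1 := ⟨g - 1, by omega⟩
  simp only [px, pg2, pg1, pg0, pP2, pPw, pN0, pn]
  refine Nat.le.intro (k := A^6*B^2 + 47*A^5*B^2 + 2*A^6*B + 909*A^4*B^2 + 96*A^5*B + A^6 + 9231*A^3*B^2 + 1896*A^4*B + 49*A^5 + 51678*A^2*B^2 + 19651*A^3*B + 988*A^4 + 150174*A*B^2 + 112139*A^2*B + 10451*A^3 + 331350*A*B + 60805*A^2 + 174960*B^2 + 182752*A + 390636*B + 218032) ?_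
  ring

theorem I3o5 {g : ℕ} (hg : 1 ≤ g) : 2 * pN0 4 g ≤ 5 * (4 * pn 4 g) := by
  obtain ⟨B, rfl⟩ : ∃ B, g = B + 1 := ⟨g - 1, by omega⟩
  simp only [px, pg2, pg1, pg0, pP2, pPw, pN0, pn]
  refine Nat.le.intro (k := 15000*B^2 + 36900*B + 22688) ?_
  ring

theorem I3o7 {g : ℕ} (hg : 1 ≤ g) : 2 * pN0 6 g ≤ 7 * (6 * pn 6 g) := by
  obtain ⟨B, rfl⟩ : ∃ B, g = B + 1 := ⟨g - 1, by omega⟩
  simp only [px, pg2, pg1, pg0, pP2, pPw, pN0, pn]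
  refine Nat.le.intro (k := 316932*B^2 + 737156*B + 428636) ?_
  ring

theorem Igen {a h : ℕ} (ha : 3 ≤ a) (hh : 1 ≤ h) : pN0 a (1 + (a + 1) * h) ≤ a * pPw a (1 + (a + 1) * h) * (px a (1 + (a + 1) * h) + 1) := by
  obtain ⟨A, rfl⟩ : ∃ A, a = A + 3 := ⟨a - 3, by omega⟩
  obtain ⟨B, rfl⟩ : ∃ B, h = B + 1 := ⟨h - 1, by omega⟩
  simp only [px, pg2, pg1, pg0, pP2, pPw, pN0, pn]
  refine Nat.le.intro (k := A^9*B^3 + 33*A^8*B^3 + 3*A^9*B^2 + 483*A^7*B^3 + 101*A^8*B^2 + 3*A^9*B + 4115*A^6*B^3 + 1509*A^7*B^2 + 103*A^8*B + A^9 + 22488*A^5*B^3 + 13131*A^6*B^2 + 1570*A^7*B + 35*A^8 + 81744*A^4*B^3 + 73334*A^5*B^2 + 13944*A^6*B + 544*A^7 + 197632*A^3*B^3 + 272555*A^4*B^2 + 79516*A^5*B + 4928*A^6 + 306432*A^2*B^3 + 674031*A^3*B^2 + 301874*A^4*B + 28670*A^5 + 276480*A*B^3 + 1069332*A^2*B^2 + 762783*A^3*B + 111063*A^4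 + 987344*A*B^2 + 1236660*A^2*B + 286382*A^3 + 110592*B^3 + 1166801*A*B + 473734*A^2 + 404160*B^2 + 455823*A + 487876*B + 194138) ?_
  ring

theorem cA {a : ℕ} (ha : 3 ≤ a) : pN0 a 1 ≤ 2 * (a * pPw a 1 * ((a + 1) + 1)) := by
  obtain ⟨A, rfl⟩ : ∃ A, a = A + 3 := ⟨a - 3, by omega⟩
  simp only [px, pg2, pg1, pg0, pP2, pPw, pN0, pn]
  refine Nat.le.intro (k := A^6 + 25*A^5 + 261*A^4 + 1454*A^3 + 4549*A^2 + 7557*A + 5185) ?_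
  ring

theorem cC {a : ℕ} (ha : 3 ≤ a) : pN0 a 1 ≤ a * pPw a 1 * ((a + 1) + 2) := by
  obtain ⟨A, rfl⟩ : ∃ A, a = A + 3 := ⟨a - 3, by omega⟩
  simp only [px, pg2, pg1, pg0, pP2, pPw, pN0, pn]
  refine Nat.le.intro (k := A^5 + 20*A^4 + 159*A^3 + 625*A^2 + 1206*A + 901) ?_
  ring

theorem cR1 {a : ℕ} (ha : 3 ≤ a) : pg0 a 1 ≤ (a + 1) * pPw a 1 := by
  obtain ⟨A, rfl⟩ : ∃ A, a = A + 3 := ⟨a - 3, by omega⟩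
  simp only [px, pg2, pg1, pg0, pP2, pPw, pN0, pn]
  refine Nat.le.intro (k := A^5 + 21*A^4 + 177*A^3 + 748*A^2 + 1584*A + 1343) ?_
  ring

theorem cR2 {a : ℕ} (ha : 3 ≤ a) : pg0 a 1 ≤ a * pPw a 1 := by
  obtain ⟨A, rfl⟩ : ∃ A, a = A + 3 := ⟨a - 3, by omega⟩
  simp only [px, pg2, pg1, pg0, pP2, pPw, pN0, pn]
  refine Nat.le.intro (k := A^5 + 20*A^4 + 160*A^3 + 638*A^2 + 1263*A + 986) ?_
  ring

theorem cKR {a : ℕ} (ha : 3 ≤ a) : pg0 a 1 * pg0 a 1 ≤ 4 * (pg0 a 1 * (a + 1) ^ 3) := by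
  obtain ⟨A, rfl⟩ : ∃ A, a = A + 3 := ⟨a - 3, by omega⟩
  simp only [px, pg2, pg1, pg0, pP2, pPw, pN0, pn]
  refine Nat.le.intro (k := 3*A^6 + 74*A^5 + 761*A^4 + 4176*A^3 + 12893*A^2 + 21222*A + 14535) ?_
  ring

theorem cB {a : ℕ} (ha : 3 ≤ a) : pN0 a 1 * ((a + 1) ^ 3 - 2) ≤ a * pPw a 1 * ((a + 1) + 1) * (a + 1) ^ 3 := by
  obtain ⟨A, rfl⟩ : ∃ A, a = A + 3 := ⟨a - 3, by omega⟩
  have h : (A + 3 + 1) ^ 3 - 2 = A^3 + 12*A^2 + 48*A + 62 := by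
    have : (A + 3 + 1) ^ 3 = A^3 + 12*A^2 + 48*A + 62 + 2 := by ring
    omega
  rw [h]
  simp only [px, pg2, pg1, pg0, pP2, pPw, pN0, pn]
  refine Nat.le.intro (k := 2*A^3 + 26*A^2 + 114*A + 170) ?_
  ring

theorem cK {a : ℕ} (ha : 1 ≤ a) : pg0 a 1 * ((a + 1) ^ 3 - 1) = a * pPw a 1 * ((a + 1) + 1) := by
  have h : (a + 1) ^ 3 - 1 = a ^ 3 + 3 * a ^ 2 + 3 * a := by
    have : (a + 1) ^ 3 = a ^ 3 + 3 * a ^ 2 + 3 * a + 1 := by ring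
    omega
  rw [h]
  simp only [px, pg2, pg1, pg0, pP2, pPw, pN0, pn]
  ring

theorem cN (a : ℕ) : pN0 a 1 = pg0 a 1 * (a + 1) ^ 3 + pg0 a 1 := by
  simp only [px, pg2, pg1, pg0, pP2, pPw, pN0, pn]
  ring

end Cfsg.Agent.Lib.MinOmega.NumP
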