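/-
Numerical facts for the odd-dimensional type (generated with certificates).
-/
import Cfsg.Agent.Lib.MinOmega.NumP
set_option autoImplicit false
set_option maxRecDepth 4000
set_option linter.unusedSimpArgs false

namespace Cfsg.Agent.Lib.MinOmega.NumO

open NumP

def oy (a g : ℕ) : ℕ := 1 + (a + 1) * g
def oP2 (a g : ℕ) : ℕ := g * (px a g + 1)
def oPw (a g : ℕ) : ℕ := 1 + (a + 1) * (1 + (a + 1) * oP2 a g)
def oN0 (a g : ℕ) : ℕ := 1 + (a + 1) * (1 + (a + 1) * oPw a g)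
def on' (a g : ℕ) : ℕ := (a + 1) * px a g * (a * oy a g)


theorem F1 (a g : ℕ) : a * oP2 a g + 1 = (px a g) ^ 2 := by
  simp only [px, oy, oP2, oPw, oN0, on']
  ring

theorem F2 (a g : ℕ) : a * oPw a g + 1 = (a + 1) ^ 2 * (px a g) ^ 2 := by
  simp only [px, oy, oP2, oPw, oN0, on']
  ring

theorem F3 (a g : ℕ) : a * oN0 a g + 1 = (a + 1) ^ 4 * (px a g) ^ 2 := by
  simp only [px, oy, oP2, oPw, oN0, on']
  ring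

theorem F4 (a g : ℕ) : oN0 a g = 1 + (a + 1) ^ 3 * (px a g) ^ 2 + (a + 1) * oPw a g := by
  simp only [px, oy, oP2, oPw, oN0, on']
  ring

theorem F5 (a g : ℕ) : oPw a g = 1 + (a + 1) * (px a g) ^ 2 + (a + 1) * oP2 a g := by
  simp only [px, oy, oP2, oPw, oN0, on']
  ring

theorem F6 (a g : ℕ) : a * oy a g + 1 = (a + 1) * px a g := by
  simp only [px, oy, oP2, oPw, oN0, on']
  ring

theorem F7 (a g : ℕ) : a * (a + 1) ^ 3 * (px a g) ^ 2 + (a + 1) * on' a g = (a * (1 + (a + 1) * oy a g)) * ((a + 1) ^ 2 * px a g) := by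
  simp only [px, oy, oP2, oPw, oN0, on']
  ring

theorem F8 (a g : ℕ) : a * (1 + (a + 1) * oy a g) + 1 = (a + 1) ^ 2 * px a g := by
  simp only [px, oy, oP2, oPw, oN0, on']
  ring

theorem J1 {a g : ℕ} (ha : 1 ≤ a) (hg : 1 ≤ g) : oN0 a g ≤ 2 * (a + 1) ^ 3 * (px a g) ^ 2 := by
  obtain ⟨A, rfl⟩ : ∃ A, a = A + 1 := ⟨a - 1, by omega⟩
  obtain ⟨B, rfl⟩ : ∃ B, g = B + 1 := ⟨g - 1, by omega⟩
  simp only [px, oy, oP2, oPw, oN0, on']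
  refine Nat.le.intro (k := A^5*B^2 + 7*A^4*B^2 + 2*A^5*B + 18*A^3*B^2 + 16*A^4*B + A^5 + 20*A^2*B^2 + 48*A^3*B + 9*A^4 + 8*A*B^2 + 64*A^2*B + 31*A^3 + 32*A*B + 49*A^2 + 31*A + 1) ?_
  ring

theorem J2 {a g : ℕ} (ha : 4 ≤ a) (hg : 1 ≤ g) : 2 * ((a + 1) * oPw a g) < a * on' a g := by
  obtain ⟨A, rfl⟩ : ∃ A, a = A + 4 := ⟨a - 4, by omega⟩
  obtain ⟨B, rfl⟩ : ∃ B, g = B + 1 := ⟨g - 1, by omega⟩
  simp only [px, oy, oP2, oPw, oN0, on']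
  refine Nat.lt_of_add_one_le (Nat.le.intro (k := A^5*B^2 + 20*A^4*B^2 + 2*A^5*B + 155*A^3*B^2 + 42*A^4*B + A^5 + 574*A^2*B^2 + 341*A^3*B + 22*A^4 + 990*A*B^2 + 1317*A^2*B + 187*A^3 + 2344*A*B + 754*A^2 + 600*B^2 + 1388*A + 1420*B + 839) ?_)
  ring

theorem J3 {a g : ℕ} (ha : 8 ≤ a) (hg : 1 ≤ g) : 2 * oN0 a g ≤ 3 * (a * on' a g) := by
  obtain ⟨A, rfl⟩ : ∃ A, a = A + 8 := ⟨a - 8, by omega⟩
  obtain ⟨B, rfl⟩ : ∃ B, g = B + 1 := ⟨g - 1, by omega⟩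
  simp only [px, oy, oP2, oPw, oN0, on']
  refine Nat.le.intro (k := A^5*B^2 + 38*A^4*B^2 + 2*A^5*B + 567*A^3*B^2 + 78*A^4*B + A^5 + 4128*A^2*B^2 + 1191*A^3*B + 40*A^4 + 14526*A*B^2 + 8835*A^2*B + 625*A^3 + 31452*A*B + 4726*A^2 + 19440*B^2 + 17026*A + 42012*B + 22660) ?_
  ring

theorem J3o5 {g : ℕ} (hg : 1 ≤ g) : 2 * oN0 4 g ≤ 5 * (4 * on' 4 g) := by
  obtain ⟨B, rfl⟩ : ∃ B, g = B + 1 := ⟨g - 1, by omega⟩
  simp only [px, oy, oP2, oPw, oN0, on']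
  refine Nat.le.intro (k := 3000*B^2 + 7100*B + 4188) ?_
  ring

theorem J3o7 {g : ℕ} (hg : 1 ≤ g) : 2 * oN0 6 g ≤ 7 * (6 * on' 6 g) := by
  obtain ⟨B, rfl⟩ : ∃ B, g = B + 1 := ⟨g - 1, by omega⟩
  simp only [px, oy, oP2, oPw, oN0, on']
  refine Nat.le.intro (k := 45276*B^2 + 103880*B + 59568) ?_
  ring

theorem Jgen {a h : ℕ} (ha : 4 ≤ a) (hh : 1 ≤ h) : oN0 a (1 + (a + 1) * h) ≤ a * oPw a (1 + (a + 1) * h) * (px a (1 + (a + 1) * h) + 1) := by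
  obtain ⟨A, rfl⟩ : ∃ A, a = A + 4 := ⟨a - 4, by omega⟩
  obtain ⟨B, rfl⟩ : ∃ B, h = B + 1 := ⟨h - 1, by omega⟩
  simp only [px, oy, oP2, oPw, oN0, on']
  refine Nat.le.intro (k := A^8*B^3 + 37*A^7*B^3 + 3*A^8*B^2 + 598*A^6*B^3 + 113*A^7*B^2 + 3*A^8*B + 5514*A^5*B^3 + 1860*A^6*B^2 + 115*A^7*B + A^8 + 31725*A^4*B^3 + 17473*A^5*B^2 + 1927*A^6*B + 39*A^7 + 116625*A^3*B^3 + 102451*A^4*B^2 + 18433*A^5*B + 665*A^6 + 267500*A^2*B^3 + 383895*A^3*B^2 + 110075*A^4*B + 6474*A^5 + 350000*A*B^3 + 897650*A^2*B^2 + 420125*A^3*B + 39349*A^4 + 1197375*A*B^2 + 1000624*A^2*B + 152854*A^3 + 200000*B^3 + 1359366*A*B + 370458*A^2 + 697500*B^2 + 511904*A + 806230*B + 308568) ?_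
  ring

theorem dA {a : ℕ} (ha : 4 ≤ a) : oN0 a 1 ≤ 2 * (a * oPw a 1 * ((a + 1) + 1)) := by
  obtain ⟨A, rfl⟩ : ∃ A, a = A + 4 := ⟨a - 4, by omega⟩
  try simp only [px, oy, oP2, oPw, oN0, on']
  refine Nat.le.intro (k := A^5 + 26*A^4 + 269*A^3 + 1384*A^2 + 3537*A + 3582) ?_
  ring

theorem dC {a : ℕ} (ha : 4 ≤ a) : oN0 a 1 ≤ a * oPw a 1 * ((a + 1) + 2) := by
  obtain ⟨A, rfl⟩ : ∃ A, a = A + 4 := ⟨a - 4, by omega⟩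
  try simp only [px, oy, oP2, oPw, oN0, on']
  refine Nat.le.intro (k := A^4 + 19*A^3 + 134*A^2 + 413*A + 462) ?_
  ring

theorem dR1 {a : ℕ} (ha : 4 ≤ a) : ((a + 1) + 1) ≤ (a + 1) * oPw a 1 := by
  obtain ⟨A, rfl⟩ : ∃ A, a = A + 4 := ⟨a - 4, by omega⟩
  try simp only [px, oy, oP2, oPw, oN0, on']
  refine Nat.le.intro (k := A^4 + 21*A^3 + 166*A^2 + 585*A + 774) ?_
  ring

theorem dR2 {a : ℕ} (ha : 4 ≤ a) : ((a + 1) + 1) ≤ a * oPw a 1 := by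
  obtain ⟨A, rfl⟩ : ∃ A, a = A + 4 := ⟨a - 4, by omega⟩
  try simp only [px, oy, oP2, oPw, oN0, on']
  refine Nat.le.intro (k := A^4 + 20*A^3 + 150*A^2 + 499*A + 618) ?_
  ring

theorem dKR {a : ℕ} (ha : 4 ≤ a) : ((a + 1) + 1) * ((a + 1) + 1) ≤ 4 * ((((a + 1) * (a + 1) + 1) * ((a + 1) + 1)) * (a + 1) ^ 2) := by
  obtain ⟨A, rfl⟩ : ∃ A, a = A + 4 := ⟨a - 4, by omega⟩
  try simp only [px, oy, oP2, oPw, oN0, on']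
  refine Nat.le.intro (k := 4*A^5 + 104*A^4 + 1084*A^3 + 5663*A^2 + 14828*A + 15564) ?_
  ring

theorem dB {a : ℕ} (ha : 4 ≤ a) : oN0 a 1 * ((a + 1) ^ 2 - 2) ≤ a * oPw a 1 * ((a + 1) + 1) * (a + 1) ^ 2 := by
  obtain ⟨A, rfl⟩ : ∃ A, a = A + 4 := ⟨a - 4, by omega⟩
  have h : (A + 4 + 1) ^ 2 - 2 = A^2 + 10*A + 23 := by
    have : (A + 4 + 1) ^ 2 = A^2 + 10*A + 23 + 2 := by ring
    omega
  rw [h]
  simp only [px, oy, oP2, oPw, oN0, on']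
  refine Nat.le.intro (k := A^5 + 26*A^4 + 270*A^3 + 1400*A^2 + 3627*A + 3762) ?_
  ring

theorem dK {a : ℕ} (ha : 1 ≤ a) : (((a + 1) * (a + 1) + 1) * ((a + 1) + 1)) * ((a + 1) ^ 2 - 1) = a * oPw a 1 * ((a + 1) + 1) := by
  have h : (a + 1) ^ 2 - 1 = a ^ 2 + 2 * a := by
    have : (a + 1) ^ 2 = a ^ 2 + 2 * a + 1 := by ring
    omega
  rw [h]
  simp only [px, oy, oP2, oPw, oN0, on']
  ring

theorem dN (a : ℕ) : oN0 a 1 = (((a + 1) * (a + 1) + 1) * ((a + 1) + 1)) * (a + 1) ^ 2 + ((a + 1) + 1) := by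
  simp only [px, oy, oP2, oPw, oN0, on']
  ring

theorem GG_eq_oP2 {a k : ℕ} (ha : 1 ≤ a) : GG (a + 1) (2 * k) = oP2 a (GG (a + 1) k) := by
  have h1 := GG_mul a (2 * k)
  have h2 := F1 a (GG (a + 1) k)
  have h3 : px a (GG (a + 1) k) = (a + 1) ^ k := by rw [px, GG_mul]
  rw [h3] at h2
  have h4 : (a + 1) ^ (2 * k) = ((a + 1) ^ k) ^ 2 := by ring
  rw [h4, ← h2] at h1
  exact Nat.eq_of_mul_eq_mul_left ha (Nat.add_right_cancel h1)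

end Cfsg.Agent.Lib.MinOmega.NumO
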