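/-
From the small-orbit theorem to the minimal index of `PΩ`.
-/
import Cfsg.Agent.Lib.MinOmega.Main
set_option autoImplicit false

namespace Cfsg.Agent.Lib.MinOmega

open Cfsg Cfsg.Geo Cfsg.Agent.Lib.Geo.Basic Cfsg.Agent.Lib.Geo.QForm Cfsg.Agent.Lib.GeoOmega.Basic
open Cfsg.Agent.Lib.GeoOmega.Eichler
open scoped MatrixGroups Matrix
open scoped _root_.Classical

universe u

variable {ι : Type} [Fintype ι] [DecidableEq ι] {F : Type u} [Field F] [Fintype F] {Q : (ι → F) → F}

theorem exists_psi : ∃ ψ : AddChar F ℂ, ∀ c : F, c ≠ 0 → ∃ t : F, ψ (t * c) ≠ 1 := by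
  obtain ⟨ψ, hψ⟩ := AddChar.exists_apply_ne_zero.mpr (one_ne_zero (α := F))
  refine ⟨ψ, fun c hc => ⟨c⁻¹, ?_⟩⟩
  rwa [inv_mul_cancel₀ hc]

/-- The equivalence between `Ω` and its image in the general linear group. -/
noncomputable def omegaEquiv' (Q : (ι → F) → F) : Omega F Q ≃* omegaGL Q :=
  (Omega F Q).equivMapOfInjective (isometryGroup F Q).subtype (Subgroup.subtype_injective _)

theorem omegaEquiv'_coe (g : Omega F Q) : ((omegaEquiv' Q g : omegaGL Q) : GL ι F) = g.1.1 := rfl

/-- The natural map to `PΩ`. -/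
noncomputable def toP (Q : (ι → F) → F) : omegaGL Q →* POmega F Q :=
  (QuotientGroup.mk' _).comp (omegaEquiv' Q).symm.toMonoidHom

theorem toP_surj : Function.Surjective (toP Q) := by
  rw [toP, MonoidHom.coe_comp]
  exact (QuotientGroup.mk'_surjective _).comp (omegaEquiv' Q).symm.surjective

/-- **Lower bound for the index.** -/
theorem index_lower {N₀ : ℕ}
    (hmain : ∀ (X : Type u) [Fintype X] (act : omegaGL Q →* Equiv.Perm X), Fintype.card X < N₀ →
      (∀ x y : X, ∃ g ∈ omegaGL Q, AA act g x = y) → ∀ (x : X), ∀ g ∈ omegaGL Q, AA act g x = x)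
    (K : Subgroup (POmega F Q)) (hK : K ≠ ⊤) : N₀ ≤ K.index := by
  by_contra hlt
  push Not at hlt
  haveI : Finite (POmega F Q ⧸ K) := inferInstance
  letI : Fintype (POmega F Q ⧸ K) := Fintype.ofFinite _
  let act : omegaGL Q →* Equiv.Perm (POmega F Q ⧸ K) := (MulAction.toPermHom (POmega F Q) (POmega F Q ⧸ K)).comp (toP Q)
  have hcard : Fintype.card (POmega F Q ⧸ K) = K.index := by
    rw [Subgroup.index, Nat.card_eq_fintype_card]
  have hA : ∀ (g : GL ι F) (hg : g ∈ omegaGL Q) (y : POmega F Q ⧸ K), AA act g y = toP Q ⟨g, hg⟩ • y := by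
    intro g hg y
    rw [AA_of_mem act hg]
    rfl
  apply hK
  refine (Subgroup.eq_top_iff' K).mpr fun p => ?_
  obtain ⟨⟨g, hg⟩, rfl⟩ := toP_surj p
  have h1 := hmain _ act (by rw [hcard]; exact hlt) ?_ (QuotientGroup.mk 1) g hg
  · rw [hA g hg] at h1
    have h2 : ((toP Q ⟨g, hg⟩ : POmega F Q) • (QuotientGroup.mk 1 : POmega F Q ⧸ K)) = QuotientGroup.mk (toP Q ⟨g, hg⟩ * 1) := rfl
    rw [h2, mul_one, QuotientGroup.eq] at h1
    simpa using h1
  · intro x y
    obtain ⟨a, rfl⟩ := QuotientGroup.mk_surjective x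
    obtain ⟨b, rfl⟩ := QuotientGroup.mk_surjective y
    obtain ⟨⟨g, hg⟩, hgab⟩ := toP_surj (b * a⁻¹)
    refine ⟨g, hg, ?_⟩
    rw [hA g hg, hgab]
    have h2 : ((b * a⁻¹ : POmega F Q) • (QuotientGroup.mk a : POmega F Q ⧸ K)) = QuotientGroup.mk (b * a⁻¹ * a) := rfl
    rw [h2, inv_mul_cancel_right]

variable (hQ : IsNondegenerateQuadraticForm Q)

include hQ in
/-- A central element of `Ω` stabilises every singular point. -/
theorem center_line (hn : 7 ≤ Fintype.card ι) {v v' : ι → F} (h : Hyp Q v v') {z : GL ι F}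
    (hz : ∀ g ∈ omegaGL Q, z * g = g * z) : (z : Matrix ι ι F) *ᵥ v ∈ Submodule.span F {v} := by
  set x := (z : Matrix ι ι F) *ᵥ v with hx
  have hfix : ∀ b, pol Q v b = 0 → eE Q v b x = x := by
    intro b hb
    have h1 := hz _ (rr_mem hQ hn h.ha hb)
    have h2 : ((z * rr hQ v b : GL ι F) : Matrix ι ι F) *ᵥ v = ((rr hQ v b * z : GL ι F) : Matrix ι ι F) *ᵥ v := by
      rw [h1]
    rw [Units.val_mul, Units.val_mul, ← Matrix.mulVec_mulVec, ← Matrix.mulVec_mulVec, rr_mulVec hQ h.ha hb, rr_mulVec hQ h.ha hb] at h2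
    have e1 : eE Q v b v = v := by
      rw [eE, pol_singular hQ h.ha, hb]
      simp
    rw [e1] at h2
    exact h2.symm
  obtain ⟨b, hb, hb0, -⟩ := exists_singular hQ (WW hQ v v') (by have := finrank_WW hQ v v'; omega)
  have hbW := (mem_WW hQ).mp hb
  have hxv : pol Q x v = 0 := by
    have h1 := hfix b hbW.1
    rw [eE] at h1
    by_contra hne
    apply hb0
    have h2 : pol Q x b • v - pol Q x v • b - (Q b * pol Q x v) • v = 0 := by
      have : x + pol Q x b • v - pol Q x v • b - (Q b * pol Q x v) • v = x + (pol Q x b • v - pol Q x v • b - (Q b * pol Q x v) • v) := by abel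
      rw [this] at h1
      simpa using h1
    have h3 := congrArg (fun y => pol Q y v') h2
    simp only [pol_sub_left hQ, pol_smul_left hQ, h.hab, pol_zero_left hQ] at h3
    rw [pol_symm hQ b v', hbW.2] at h3
    have h4 : pol Q x b = Q b * pol Q x v := by linear_combination h3
    rw [h4] at h2
    have h5 : pol Q x v • b = 0 := by
      linear_combination (norm := module) -h2
    exact (smul_eq_zero.mp h5).resolve_left hne
  have hsep : x ∈ Submodule.span F {v} := by
    apply (Nd_top hQ).sep hQ trivial trivial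
    intro f _ hvf
    have h1 := hfix f hvf
    rw [eE, hxv] at h1
    simp only [zero_smul, sub_zero, mul_zero] at h1
    have h2 : pol Q x f • v = 0 := by simpa using h1
    have hv0 : v ≠ 0 := by
      rintro rfl
      have := h.hab
      rw [pol_zero_left hQ] at this
      exact zero_ne_one this
    exact (smul_eq_zero.mp h2).resolve_right hv0
  exact hsep

omit hQ in
/-- The singular lines. -/
theorem card_lines {A : Finset (ι → F)} (h0 : ∀ x ∈ A, x ≠ 0) (hA : ∀ x ∈ A, ∀ t : F, t ≠ 0 → t • x ∈ A) :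
    A.card = (A.image fun y => Submodule.span F {y}).card * (Fintype.card F - 1) := by
  rw [Finset.card_eq_sum_card_image (fun y => Submodule.span F {y}) A]
  rw [Finset.sum_congr rfl (g := fun _ => Fintype.card F - 1), Finset.sum_const, smul_eq_mul]
  intro L hL
  obtain ⟨y₀, hy₀, rfl⟩ := Finset.mem_image.mp hL
  have hy00 := h0 y₀ hy₀
  have e : (A.filter fun y => Submodule.span F {y} = Submodule.span F {y₀}) =
      (Finset.univ.erase (0 : F)).image fun t => t • y₀ := by
    ext y
    simp only [Finset.mem_filter, Finset.mem_image, Finset.mem_erase, Finset.mem_univ, and_true]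
    constructor
    · rintro ⟨hy, hsp⟩
      have h1 : y ∈ Submodule.span F {y₀} := by
        rw [← hsp]
        exact Submodule.mem_span_singleton_self _
      obtain ⟨t, rfl⟩ := Submodule.mem_span_singleton.mp h1
      refine ⟨t, ?_, rfl⟩
      rintro rfl
      exact h0 _ hy (zero_smul _ _)
    · rintro ⟨t, ht, rfl⟩
      exact ⟨hA _ hy₀ _ ht, Submodule.span_singleton_smul_eq (Ne.isUnit ht) _⟩
  rw [e, Finset.card_image_of_injOn, Finset.card_erase_of_mem (Finset.mem_univ _), Finset.card_univ]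
  intro s _ t _ hst
  exact smul_left_injective F hy00 hst

include hQ in
/-- **Existence of a subgroup of given index: singular points.** -/
theorem exists_index (hn : 7 ≤ Fintype.card ι) {v v' : ι → F} (h : Hyp Q v v') {N₀ : ℕ}
    (hZ : (Sg Q (⊤ : Submodule F (ι → F))).card = (Fintype.card F - 1) * N₀) :
    ∃ H : Subgroup (POmega F Q), H.index = N₀ := by
  have hv0 : v ≠ 0 := by
    rintro rfl
    have := h.hab
    rw [pol_zero_left hQ] at this
    exact zero_ne_one this
  have hq : 2 ≤ Fintype.card F := Fintype.one_lt_card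
  -- the stabiliser
  let K : Subgroup (Omega F Q) :=
    { carrier := {g | ∃ t : F, t ≠ 0 ∧ ((g.1.1 : GL ι F) : Matrix ι ι F) *ᵥ v = t • v}
      mul_mem' := by
        rintro a b ⟨s, hs, h1⟩ ⟨t, ht, h2⟩
        refine ⟨s * t, mul_ne_zero hs ht, ?_⟩
        change (((a.1.1 * b.1.1 : GL ι F) : Matrix ι ι F)) *ᵥ v = _
        rw [Units.val_mul, ← Matrix.mulVec_mulVec, h2, Matrix.mulVec_smul, h1, smul_smul, mul_comm]
      one_mem' := by
        refine ⟨1, one_ne_zero, ?_⟩
        change (((1 : GL ι F) : Matrix ι ι F)) *ᵥ v = _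
        simp
      inv_mem' := by
        rintro a ⟨s, hs, h1⟩
        refine ⟨s⁻¹, inv_ne_zero hs, ?_⟩
        change (((a.1.1⁻¹ : GL ι F) : Matrix ι ι F)) *ᵥ v = _
        have := inv_mulVec_mulVec a.1.1 v
        rw [h1, Matrix.mulVec_smul] at this
        conv_rhs => rw [← this]
        rw [smul_smul, inv_mul_cancel₀ hs, one_smul]
        }
  have hKmem : ∀ g : Omega F Q, g ∈ K ↔ ∃ t : F, t ≠ 0 ∧ ((g.1.1 : GL ι F) : Matrix ι ι F) *ᵥ v = t • v := fun _ => Iff.rfl
  have hcen : Subgroup.center (Omega F Q) ≤ K := by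
    intro z hz
    rw [hKmem]
    have h1 := center_line hQ hn h (z := z.1.1) (by
      rintro g ⟨x, hx, rfl⟩
      have h2 := (Subgroup.mem_center_iff.mp hz) ⟨x, hx⟩
      have h3 := congrArg (fun y : Omega F Q => (y.1.1 : GL ι F)) h2
      exact h3.symm)
    obtain ⟨t, ht⟩ := Submodule.mem_span_singleton.mp h1
    refine ⟨t, ?_, ht.symm⟩
    rintro rfl
    have h2 : ((z.1.1 : GL ι F) : Matrix ι ι F) *ᵥ v = 0 := by rw [← ht, zero_smul]
    apply hv0
    have := inv_mulVec_mulVec z.1.1 v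
    rw [h2, Matrix.mulVec_zero] at this
    exact this.symm
  let H : Subgroup (POmega F Q) := K.map (QuotientGroup.mk' _)
  have hH : H.index = K.index := by
    rw [Subgroup.index_map]
    rw [QuotientGroup.ker_mk', sup_eq_left.mpr hcen, (MonoidHom.range_eq_top.mpr (QuotientGroup.mk'_surjective _)),
      Subgroup.index_top, mul_one]
  refine ⟨H, hH.trans ?_⟩
  -- the lines
  set Y := Sg Q (⊤ : Submodule F (ι → F)) with hY
  set Λ := Y.image (fun y => Submodule.span F {y}) with hΛ
  have hY0 : ∀ x ∈ Y, x ≠ 0 := fun x hx => (mem_Sg.mp hx).2.1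
  have hYs : ∀ x ∈ Y, ∀ t : F, t ≠ 0 → t • x ∈ Y := by
    intro x hx t ht
    rw [hY, mem_Sg] at hx ⊢
    exact ⟨trivial, smul_ne_zero ht hx.2.1, by rw [hQ.smul, hx.2.2, mul_zero]⟩
  have hΛc : Λ.card = N₀ := by
    have h1 := card_lines hY0 hYs
    rw [hZ, mul_comm] at h1
    exact (Nat.eq_of_mul_eq_mul_right (by omega) h1).symm
  rw [← hΛc, Subgroup.index]
  have hfmem : ∀ g : Omega F Q, Submodule.span F {((g.1.1 : GL ι F) : Matrix ι ι F) *ᵥ v} ∈ Λ := by
    intro g
    refine Finset.mem_image_of_mem _ ?_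
    rw [hY, mem_Sg]
    have hI : g.1.1 ∈ isometryGroup F Q := g.1.2
    refine ⟨trivial, ?_, by rw [(mem_isometryGroup_iff Q _).mp hI, h.ha]⟩
    intro h0
    apply hv0
    have := inv_mulVec_mulVec g.1.1 v
    rw [h0, Matrix.mulVec_zero] at this
    exact this.symm
  let f : Omega F Q → Λ := fun g => ⟨_, hfmem g⟩
  have hf : ∀ a b : Omega F Q, f a = f b ↔ a⁻¹ * b ∈ K := by
    intro a b
    constructor
    · intro hab
      have h1 : Submodule.span F {((a.1.1 : GL ι F) : Matrix ι ι F) *ᵥ v} = Submodule.span F {((b.1.1 : GL ι F) : Matrix ι ι F) *ᵥ v} :=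
        congrArg Subtype.val hab
      have h2 : ((b.1.1 : GL ι F) : Matrix ι ι F) *ᵥ v ∈ Submodule.span F {((a.1.1 : GL ι F) : Matrix ι ι F) *ᵥ v} := by
        rw [h1]
        exact Submodule.mem_span_singleton_self _
      obtain ⟨t, ht⟩ := Submodule.mem_span_singleton.mp h2
      rw [hKmem]
      refine ⟨t, ?_, ?_⟩
      · rintro rfl
        rw [zero_smul] at ht
        apply hv0
        have := inv_mulVec_mulVec b.1.1 v
        rw [← ht, Matrix.mulVec_zero] at this
        exact this.symm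
      · change (((a.1.1⁻¹ * b.1.1 : GL ι F) : Matrix ι ι F)) *ᵥ v = _
        rw [Units.val_mul, ← Matrix.mulVec_mulVec, ← ht, Matrix.mulVec_smul, inv_mulVec_mulVec]
    · intro hab
      obtain ⟨t, ht0, ht⟩ := (hKmem _).mp hab
      apply Subtype.ext
      change Submodule.span F {((a.1.1 : GL ι F) : Matrix ι ι F) *ᵥ v} = Submodule.span F {((b.1.1 : GL ι F) : Matrix ι ι F) *ᵥ v}
      have h1 : (((a.1.1⁻¹ * b.1.1 : GL ι F) : Matrix ι ι F)) *ᵥ v = t • v := ht
      rw [Units.val_mul, ← Matrix.mulVec_mulVec] at h1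
      have h2 := congrArg (fun y => ((a.1.1 : GL ι F) : Matrix ι ι F) *ᵥ y) h1
      simp only [mulVec_inv_mulVec, Matrix.mulVec_smul] at h2
      rw [h2]
      exact (Submodule.span_singleton_smul_eq (Ne.isUnit ht0) _).symm
  have hsurj : Function.Surjective f := by
    rintro ⟨L, hL⟩
    obtain ⟨y, hy, rfl⟩ := Finset.mem_image.mp hL
    obtain ⟨-, hy0, hQy⟩ := mem_Sg.mp hy
    obtain ⟨g, ⟨x, hx, rfl⟩, hgy⟩ := exists_omega_move hQ hn hv0 hy0 (by rw [h.ha, hQy])
    refine ⟨⟨x, hx⟩, Subtype.ext ?_⟩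
    change Submodule.span F {((x.1 : GL ι F) : Matrix ι ι F) *ᵥ v} = _
    rw [show ((x.1 : GL ι F) : Matrix ι ι F) *ᵥ v = y from hgy]
  have hcard : Nat.card (Omega F Q ⧸ K) = Nat.card Λ := by
    refine Nat.card_congr (Equiv.ofBijective (Quotient.lift f ?_) ⟨?_, ?_⟩)
    · intro a b hab
      exact (hf a b).mpr (QuotientGroup.leftRel_apply.mp hab)
    · intro a b
      induction a using QuotientGroup.induction_on with | _ a => ?_
      induction b using QuotientGroup.induction_on with | _ b => ?_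
      intro hab
      exact QuotientGroup.eq.mpr ((hf a b).mp hab)
    · intro y
      obtain ⟨g, hg⟩ := hsurj y
      exact ⟨QuotientGroup.mk g, hg⟩
  rw [hcard, Nat.card_eq_fintype_card, Fintype.card_coe]

end Cfsg.Agent.Lib.MinOmega
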