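/-
The plus type: assembling the numbers.
-/
import Cfsg.Agent.Lib.MinOmega.Wrap
import Cfsg.Agent.Lib.MinOmega.NumP
import Cfsg.Agent.Lib.Elusive.QuadCount
import Cfsg.Agent.Lib.Orth.Forms
import Cfsg.Agent.Lib.OrthRefl.Singular
import Cfsg.Agent.Lib.GeoOmega.Singular
set_option autoImplicit false

namespace Cfsg.Agent.Lib.MinOmega

open Cfsg Cfsg.Geo Cfsg.Agent.Lib.Geo.Basic Cfsg.Agent.Lib.Geo.QForm Cfsg.Agent.Lib.GeoOmega.Basic
open Cfsg.Agent.Lib.GeoOmega.Eichler NumP
open scoped MatrixGroups Matrix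
open scoped _root_.Classical

universe u

variable {F : Type u} [Field F] [Fintype F]

section common

theorem NR_top {ι : Type} [Fintype ι] [DecidableEq ι] (Q : (ι → F) → F) (t : F) :
    NR Q ⊤ t = Nat.card {v : ι → F // Q v = t} := by
  rw [NR, Nat.card_eq_fintype_card, Fintype.card_subtype]
  congr 1
  ext v
  simp [WF]

theorem he_even (h2 : (2 : F) = 0) (t : F) :
    (Finset.univ.filter fun m : F => m ≠ 0 ∧ m ^ 2 = t).card ≤ 1 := by
  rw [Finset.card_le_one]
  intro a ha b hb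
  simp only [Finset.mem_filter, Finset.mem_univ, true_and] at ha hb
  have h1 : (a + b) ^ 2 = 0 := by
    have : (a + b) ^ 2 = a ^ 2 + b ^ 2 + 2 * (a * b) := by ring
    rw [this, h2, ha.2, hb.2]
    have h3 : t + t = 2 * t := by ring
    rw [h3, h2]
    ring
  have h3 : a + b = 0 := by simpa using h1
  have h4 : a = -b := eq_neg_of_add_eq_zero_left h3
  rw [h4]
  have h5 : (2 : F) * b = 0 := by rw [h2, zero_mul]
  have h6 : b + b = 0 := by rw [← h5]; ring
  exact (eq_neg_of_add_eq_zero_left h6).symm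

theorem he_odd (t : F) : (Finset.univ.filter fun m : F => m ≠ 0 ∧ m ^ 2 = t).card ≤ 2 := by
  by_cases hne : (Finset.univ.filter fun m : F => m ≠ 0 ∧ m ^ 2 = t).Nonempty
  · obtain ⟨k, hk⟩ := hne
    simp only [Finset.mem_filter, Finset.mem_univ, true_and] at hk
    refine le_trans (Finset.card_le_card ?_) (Finset.card_le_two (a := k) (b := -k))
    intro m hm
    simp only [Finset.mem_filter, Finset.mem_univ, true_and] at hm
    simp only [Finset.mem_insert, Finset.mem_singleton]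
    have h1 : (m - k) * (m + k) = 0 := by
      have : (m - k) * (m + k) = m ^ 2 - k ^ 2 := by ring
      rw [this, hm.2, hk.2, sub_self]
    rcases mul_eq_zero.mp h1 with h | h
    · left
      exact sub_eq_zero.mp h
    · right
      exact eq_neg_of_add_eq_zero_left h
  · rw [Finset.not_nonempty_iff_eq_empty] at hne
    rw [hne]
    simp

theorem ringChar_two (h2 : (2 : F) = 0) : ringChar F = 2 := by
  have hp := CharP.char_is_prime F (ringChar F)
  have h1 : ringChar F ∣ 2 := (ringChar.spec F 2).mp (by exact_mod_cast h2)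
  exact (Nat.prime_dvd_prime_iff_eq hp Nat.prime_two).mp h1

theorem ringChar_ne_two (h2 : (2 : F) ≠ 0) : ringChar F ≠ 2 := by
  intro h
  apply h2
  have := (ringChar.spec F 2).mpr (by rw [h])
  exact_mod_cast this

theorem ringChar_three (h2 : (2 : F) ≠ 0) : 3 ≤ ringChar F := by
  have hp := CharP.char_is_prime F (ringChar F)
  have h1 := hp.two_le
  have h3 := ringChar_ne_two h2
  omega

theorem ringChar_dvd : ringChar F ∣ Fintype.card F := by
  obtain ⟨n, -, hn⟩ := FiniteField.card F (ringChar F)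
  rw [hn]
  exact dvd_pow_self _ n.ne_zero

theorem odd_card_of (h2 : (2 : F) ≠ 0) : Fintype.card F % 2 = 1 :=
  FiniteField.odd_card_of_char_ne_two (ringChar_ne_two h2)

/-- The Witt bound. -/
theorem witt_bound {ι : Type} [Fintype ι] [DecidableEq ι] {Q : (ι → F) → F} (hQ : IsNondegenerateQuadraticForm Q)
    {w : ℕ} (hw : Fintype.card ι ≤ 2 * (w + 2) + 1) (T : Submodule F (ι → F)) (hT : ∀ x ∈ T, Q x = 0) :
    Module.finrank F T ≤ w + 2 := by
  have h1 := Cfsg.Agent.Lib.GeoOmega.Singular.two_finrank_le hQ (U := T) hT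
  omega

end common

variable {k a : ℕ}

theorem nd_plusQ (m : ℕ) : IsNondegenerateQuadraticForm (quadFormPlus m F) :=
  Cfsg.Agent.Lib.OrthRefl.Singular.isNondeg _ (Cfsg.Agent.Lib.Orth.Forms.plusForm_nondeg m)

section plus

variable (ha : Fintype.card F = a + 1) (hk : 1 ≤ k)

include ha

theorem px_eq : px a (GG (Fintype.card F) k) = (a + 1) ^ k := by
  rw [ha, px, GG_mul]

theorem plus_NR (t : F) :
    NR (quadFormPlus (k + 3) F) ⊤ t = (if t = 0 then (a + 1) ^ (k + 3) else 0) +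
      (a * pg0 a (GG (Fintype.card F) k)) * ((a + 1) ^ 2 * px a (GG (Fintype.card F) k)) := by
  have h3 : a * pg0 a (GG (Fintype.card F) k) + 1 = (a + 1) ^ (k + 3) := by
    rw [E3, px_eq ha, pow_add]
    ring
  rw [NR_top, Cfsg.Agent.Lib.Elusive.QuadCount.card_plus_eq ha (k + 3) t]
  congr 1
  rw [px_eq ha, ← h3, Nat.add_sub_cancel]
  congr 1
  rw [show k + 3 - 1 = k + 2 by omega, pow_add]
  ring

theorem plus_Sg :
    (Sg (quadFormPlus (k + 3) F) (⊤ : Submodule F (Fin (k + 3) ⊕ Fin (k + 3) → F))).card =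
      (Fintype.card F - 1) * pN0 a (GG (Fintype.card F) k) := by
  have h1 := card_Sg_add_one (nd_plusQ (F := F) (k + 3)) (R := ⊤)
  rw [plus_NR ha, if_pos rfl] at h1
  have h4 := E4 a (GG (Fintype.card F) k)
  have h3 : (a + 1) ^ (k + 3) = (a + 1) ^ 3 * px a (GG (Fintype.card F) k) := by
    rw [px_eq ha, pow_add]
    ring
  rw [h3, ← h4] at h1
  rw [ha, Nat.add_sub_cancel]
  rw [← ha]
  exact Nat.add_right_cancel h1

/-- The fine data. -/
theorem plus_fine (h3 : 3 ≤ a) (hk : 1 ≤ k) : ∃ e, Fine (nd_plusQ (F := F) (k + 3)) (2 * k + 4) (pP2 a (GG (Fintype.card F) k))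
    (pPw a (GG (Fintype.card F) k)) (pN0 a (GG (Fintype.card F) k)) (pn a (GG (Fintype.card F) k)) e := by
  set g := GG (Fintype.card F) k with hg
  have hg1 : 1 ≤ g := GG_pos hk
  have hx := px_eq (k := k) ha
  rw [← hg] at hx
  have hA : Fintype.card F - 1 = a := by rw [ha, Nat.add_sub_cancel]
  have hbase : Base (nd_plusQ (F := F) (k + 3)) (2 * k + 4) (pP2 a g) (pPw a g) (pN0 a g) := by
    refine ⟨?_, by omega, ?_, ?_, ?_⟩
    · simp
      omega
    · exact plus_Sg ha
    · rw [E1, ha, show (a + 1) ^ (2 * k + 4) = (a + 1) ^ 4 * ((a + 1) ^ k) ^ 2 by ring, hx]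
    · rw [E2, ha, show 2 * k + 4 - 2 = 2 * k + 2 by omega, show (a + 1) ^ (2 * k + 2) = (a + 1) ^ 2 * ((a + 1) ^ k) ^ 2 by ring, hx]
  have hqD : (a + 1) ^ (2 * k + 4) = (a + 1) ^ 4 * (px a g) ^ 2 := by
    rw [hx]
    ring
  by_cases h2 : (2 : F) = 0
  · refine ⟨1, hbase, ?_, ?_, fun t _ => he_even h2 t, le_refl _, by rw [hA]; omega, ?_, ?_, fun _ => by omega⟩
    · rw [ha, hqD, ← mul_assoc]
      exact I1 h3 hg1
    · intro t ht
      have hqD' : Fintype.card F ^ (2 * k + 4) = (a + 1) ^ 4 * (px a g) ^ 2 := by rw [ha]; exact hqD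
      have hqq : Fintype.card F * pn a g = (a + 1) * pn a g := by rw [ha]
      rw [plus_NR ha, if_neg ht, zero_add, hA, ← hg, hqD', hqq, ← E5, mul_assoc]
    · rw [hA, ha, one_mul]
      exact I2e h3 hg1
    · rw [hA, ringChar_two h2, one_mul]
      exact I3e h3 hg1
  · have hodd := odd_card_of h2
    have hq5 : 5 ≤ a + 1 := by
      rw [← ha] at *
      omega
    have hA4 : 4 ≤ a := by omega
    refine ⟨2, hbase, ?_, ?_, fun t _ => he_odd t, by omega, by rw [hA]; omega, ?_, ?_, fun h => absurd h h2⟩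
    · rw [ha, hqD, ← mul_assoc]
      exact I1 h3 hg1
    · intro t ht
      have hqD' : Fintype.card F ^ (2 * k + 4) = (a + 1) ^ 4 * (px a g) ^ 2 := by rw [ha]; exact hqD
      have hqq : Fintype.card F * pn a g = (a + 1) * pn a g := by rw [ha]
      rw [plus_NR ha, if_neg ht, zero_add, hA, ← hg, hqD', hqq, ← E5, mul_assoc]
    · rw [hA, ha]
      exact I2o hA4 hg1
    · rw [hA]
      have hp3 := ringChar_three h2
      have hdvd := ringChar_dvd (F := F)
      have hp := CharP.char_is_prime F (ringChar F)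
      by_cases h8 : 8 ≤ a
      · calc 2 * pN0 a g ≤ 3 * (a * pn a g) := I3o3 h8 hg1
          _ ≤ _ := Nat.mul_le_mul_right _ hp3
      · have ha46 : a = 4 ∨ a = 6 := by
          rw [ha] at hodd
          omega
        rcases ha46 with rfl | rfl
        · have h5 : ringChar F = 5 := by
            rw [ha] at hdvd
            exact (Nat.prime_dvd_prime_iff_eq hp (by norm_num)).mp hdvd
          rw [h5]
          exact I3o5 hg1
        · have h5 : ringChar F = 7 := by
            rw [ha] at hdvd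
            exact (Nat.prime_dvd_prime_iff_eq hp (by norm_num)).mp hdvd
          rw [h5]
          exact I3o7 hg1

end plus

/-- The small-orbit theorem for the plus type. -/
theorem plus_small (ha : Fintype.card F = a + 1) (h3 : 3 ≤ a) (hk : 1 ≤ k) (X : Type u) [Fintype X]
    (act : omegaGL (quadFormPlus (k + 3) F) →* Equiv.Perm X)
    (hN : Fintype.card X < pN0 a (GG (Fintype.card F) k))
    (htr : ∀ x y : X, ∃ g ∈ omegaGL (quadFormPlus (k + 3) F), AA act g x = y) :
    ∀ (x : X), ∀ g ∈ omegaGL (quadFormPlus (k + 3) F), AA act g x = x := by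
  intro x g hg
  obtain ⟨e, hF⟩ := plus_fine ha h3 hk
  set hQ := nd_plusQ (F := F) (k + 3)
  obtain ⟨ψ, hψ⟩ := exists_psi (F := F)
  obtain ⟨p, hp, hp0, hQp⟩ := exists_singular hQ (⊤ : Submodule F (Fin (k + 3) ⊕ Fin (k + 3) → F)) (by simp; omega)
  obtain ⟨p', -, hpp'⟩ := (Nd_top hQ).exists_partner hQ hp hp0 hQp
  have hA : Fintype.card F - 1 = a := by rw [ha, Nat.add_sub_cancel]
  set G := GG (Fintype.card F) k with hG
  have hx := px_eq (k := k) ha
  rw [← hG] at hx
  have hw : ∀ T : Submodule F (Fin (k + 3) ⊕ Fin (k + 3) → F), (∀ x ∈ T, quadFormPlus (k + 3) F x = 0) →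
      Module.finrank F T ≤ (k + 1) + 2 :=
    witt_bound hQ (by simp; omega)
  have hc₀ : ∀ c, (Fintype.card F - 1) * pP2 a G ≤ c * (Fintype.card F ^ (k + 1) - 1) → px a G + 1 ≤ c := by
    intro c hc
    have h6 := E6 a G
    have h7 := E7 a G
    have h8 : (a + 1) ^ (k + 1) - 1 = a * pg2 a G := by
      rw [pow_succ, mul_comm, ← hx, ← h6, Nat.add_sub_cancel]
    rw [hA, ha, h8, h7, mul_comm c] at hc
    exact Nat.le_of_mul_le_mul_left hc (by
      have : 1 ≤ pg2 a G := by rw [pg2]; omega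
      have h9 : 1 ≤ a := by omega
      exact Nat.mul_pos h9 this)
  rcases Nat.lt_or_ge k 2 with hk2 | hk2
  · -- the exceptional dimension
    obtain rfl : k = 1 := by omega
    have hG1 : G = 1 := by
      rw [hG]
      simp [GG]
    rw [hG1] at hF hN hx hc₀
    have hpx1 : px a 1 = a + 1 := by rw [px]; ring
    refine hF.main_cand (w := 2) (κ₀ := pg0 a 1) (R := pg0 a 1) hψ hN htr hw ?_ ?_ ?_ ?_ ?_ ?_ ?_ ?_ ?_ ?_ hpp' x hg
    · intro c hc
      have := hc₀ c hc
      rw [hpx1] at this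
      rw [ha]
      exact this
    · rw [hA, ha]
      exact cA h3
    · rw [hA, ha]
      exact cB h3
    · rw [hA, ha]
      exact cC h3
    · rw [hA, ha]
      exact cK (by omega)
    · rw [ha]
      exact cN a
    · rw [ha]
      have : (a + 1) ^ (2 + 1) = (a + 1) * (a + 1) ^ 2 := by ring
      rw [this]
      nlinarith [pow_pos (show 0 < a + 1 by omega) 2]
    · rw [ha]
      exact cR1 h3
    · rw [hA]
      exact cR2 h3
    · rw [ha]
      exact cKR h3
  · -- the generic dimensions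
    obtain ⟨j, rfl⟩ : ∃ j, k = j + 1 := ⟨k - 1, by omega⟩
    have hG2 : G = 1 + (a + 1) * GG (a + 1) j := by
      rw [hG, ha, GG]
    have hh : 1 ≤ GG (a + 1) j := GG_pos (by omega)
    refine hF.main_gen (c₀ := px a G + 1) (w := j + 1 + 1) hψ hN htr hw hc₀ ?_ hpp' x hg
    rw [hA, hG2]
    exact Igen h3 hh

/-- The minimal index for the plus type: the lower bound. -/
theorem plus_lower (ha : Fintype.card F = a + 1) (h3 : 3 ≤ a) (hk : 1 ≤ k) (K : Subgroup (POmega F (quadFormPlus (k + 3) F)))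
    (hK : K ≠ ⊤) : pN0 a (GG (Fintype.card F) k) ≤ K.index :=
  index_lower (Q := quadFormPlus (k + 3) F) (fun X _ act hN htr => plus_small ha h3 hk X act hN htr) K hK

/-- The minimal index for the plus type: existence. -/
theorem plus_exists (ha : Fintype.card F = a + 1) (h3 : 3 ≤ a) (hk : 1 ≤ k) :
    ∃ H : Subgroup (POmega F (quadFormPlus (k + 3) F)), H.index = pN0 a (GG (Fintype.card F) k) := by
  set hQ := nd_plusQ (F := F) (k + 3)
  obtain ⟨p, hp, hp0, hQp⟩ := exists_singular hQ (⊤ : Submodule F (Fin (k + 3) ⊕ Fin (k + 3) → F)) (by simp; omega)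
  obtain ⟨p', -, hpp'⟩ := (Nd_top hQ).exists_partner hQ hp hp0 hQp
  exact exists_index hQ (by simp; omega) hpp' (plus_Sg ha)

theorem plus_num {a k : ℕ} (h3 : 3 ≤ a) :
    ((a + 1) ^ (k + 3) - 1) * ((a + 1) ^ (k + 3 - 1) + 1) / (a + 1 - 1) = pN0 a (GG (a + 1) k) := by
  have hx : px a (GG (a + 1) k) = (a + 1) ^ k := by rw [px, GG_mul]
  have h1 : (a + 1) ^ (k + 3) - 1 = a * pg0 a (GG (a + 1) k) := by
    have h2 := E3 a (GG (a + 1) k)
    rw [hx] at h2
    have h4 : (a + 1) ^ (k + 3) = (a + 1) ^ 3 * (a + 1) ^ k := by ring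
    rw [h4, ← h2, Nat.add_sub_cancel]
  rw [h1, Nat.add_sub_cancel, show k + 3 - 1 = k + 2 by omega, mul_assoc, Nat.mul_div_cancel_left _ (by omega : 0 < a), pN0, hx]
  congr 2
  ring

end Cfsg.Agent.Lib.MinOmega
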