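/-
The odd-dimensional type: assembling the numbers.
-/
import Cfsg.Agent.Lib.MinOmega.PlusFam
import Cfsg.Agent.Lib.MinOmega.NumO
import Cfsg.Agent.Lib.GeoOmega.Planes
set_option autoImplicit false

namespace Cfsg.Agent.Lib.MinOmega

open Cfsg Cfsg.Geo Cfsg.Agent.Lib.Geo.Basic Cfsg.Agent.Lib.Geo.QForm Cfsg.Agent.Lib.GeoOmega.Basic
open Cfsg.Agent.Lib.GeoOmega.Eichler NumP NumO
open scoped MatrixGroups Matrix
open scoped _root_.Classical

universe u

variable {F : Type u} [Field F] [Fintype F] {k a : ℕ}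

/-- Vectors of given norm for the odd form. -/
theorem odd_level (hq : Fintype.card F = a + 1) (m : ℕ) (t : F) :
    Nat.card {v : Unit ⊕ (Fin m ⊕ Fin m) → F // quadFormOdd m F v = t} =
      Nat.card {x : F // x ^ 2 = t} * (a + 1) ^ m + (a + 1) * (((a + 1) ^ m - 1) * (a + 1) ^ (m - 1)) := by
  let e : {v : Unit ⊕ (Fin m ⊕ Fin m) → F // quadFormOdd m F v = t} ≃
      Σ x : F, {w : Fin m ⊕ Fin m → F // quadFormPlus m F w = t - x ^ 2} :=
    { toFun := fun v => ⟨v.1 (Sum.inl ()), ⟨fun i => v.1 (Sum.inr i), by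
        have h := v.2
        have h2 : quadFormOdd m F v.1 = v.1 (Sum.inl ()) ^ 2 + quadFormPlus m F (fun i => v.1 (Sum.inr i)) := rfl
        rw [h2] at h
        linear_combination h⟩⟩
      invFun := fun s => ⟨Sum.elim (fun _ => s.1) s.2.1, by
        have h := s.2.2
        have h2 : quadFormOdd m F (Sum.elim (fun _ => s.1) s.2.1) = s.1 ^ 2 + quadFormPlus m F s.2.1 := rfl
        rw [h2, h]
        ring⟩
      left_inv := fun v => by
        apply Subtype.ext
        funext i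
        rcases i with i | i
        · rfl
        · rfl
      right_inv := fun s => rfl }
  rw [Nat.card_congr e, Nat.card_sigma]
  simp only [Cfsg.Agent.Lib.Elusive.QuadCount.card_plus_eq hq]
  rw [Finset.sum_add_distrib, Finset.sum_const, Finset.card_univ, hq, smul_eq_mul]
  congr 1
  rw [← Finset.sum_filter, Finset.sum_const, smul_eq_mul, Nat.card_eq_fintype_card, Fintype.card_subtype]
  congr 2
  ext x
  simp only [Finset.mem_filter, Finset.mem_univ, true_and]
  exact sub_eq_zero.trans ⟨fun h => h.symm, fun h => h.symm⟩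

theorem nd_oddQ (h2 : (2 : F) ≠ 0) (m : ℕ) : IsNondegenerateQuadraticForm (quadFormOdd m F) :=
  Cfsg.Agent.Lib.GeoOmega.Planes.quadFormOdd_nondeg m F h2

section odd

variable (ha : Fintype.card F = a + 1)

include ha

theorem odd_qm : a * (1 + (a + 1) * oy a (GG (Fintype.card F) k)) + 1 = (a + 1) ^ (k + 2) := by
  rw [F8, px_eq ha, pow_add]
  ring

theorem odd_NR_ge (t : F) :
    (a * (1 + (a + 1) * oy a (GG (Fintype.card F) k))) * ((a + 1) ^ 2 * px a (GG (Fintype.card F) k)) ≤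
      NR (quadFormOdd (k + 2) F) ⊤ t := by
  rw [NR_top, odd_level ha]
  have h1 := odd_qm (k := k) ha
  have h2 : (a + 1) ^ (k + 2) - 1 = a * (1 + (a + 1) * oy a (GG (Fintype.card F) k)) := by
    rw [← h1, Nat.add_sub_cancel]
  have h3 : (a + 1) ^ 2 * px a (GG (Fintype.card F) k) = (a + 1) * (a + 1) ^ (k + 2 - 1) := by
    rw [px_eq ha, show k + 2 - 1 = k + 1 by omega]
    ring
  rw [h3, h2]
  refine le_trans (le_of_eq ?_) (Nat.le_add_left _ _)
  ring

theorem odd_Sg (h2 : (2 : F) ≠ 0) :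
    (Sg (quadFormOdd (k + 2) F) (⊤ : Submodule F (Unit ⊕ (Fin (k + 2) ⊕ Fin (k + 2)) → F))).card =
      (Fintype.card F - 1) * oN0 a (GG (Fintype.card F) k) := by
  have h1 := card_Sg_add_one (nd_oddQ (F := F) h2 (k + 2)) (R := ⊤)
  rw [NR_top, odd_level ha] at h1
  have h0 : Nat.card {x : F // x ^ 2 = 0} = 1 := by
    rw [Nat.card_eq_one_iff_unique]
    refine ⟨⟨?_⟩, ⟨⟨0, by ring⟩⟩⟩
    rintro ⟨x, hx⟩ ⟨y, hy⟩
    apply Subtype.ext
    have hx' : x = 0 := by simpa using hx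
    have hy' : y = 0 := by simpa using hy
    exact hx'.trans hy'.symm
  rw [h0, one_mul] at h1
  have h4 := F3 a (GG (Fintype.card F) k)
  rw [px_eq ha] at h4
  have h5 : (a + 1) ^ (k + 2) + (a + 1) * (((a + 1) ^ (k + 2) - 1) * (a + 1) ^ (k + 2 - 1)) =
      (a + 1) ^ 4 * ((a + 1) ^ k) ^ 2 := by
    have h6 : (a + 1) ^ (k + 2) = (a + 1) ^ 2 * (a + 1) ^ k := by ring
    have h7 : (a + 1) ^ (k + 2 - 1) = (a + 1) * (a + 1) ^ k := by
      rw [show k + 2 - 1 = k + 1 by omega]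
      ring
    rw [h7, h6]
    obtain ⟨c, hc⟩ : ∃ c, (a + 1) ^ 2 * (a + 1) ^ k = c + 1 :=
      ⟨(a + 1) ^ 2 * (a + 1) ^ k - 1, by have : 0 < (a + 1) ^ 2 * (a + 1) ^ k := by positivity
                                         omega⟩
    have h8 : (a + 1) * (((a + 1) ^ 2 * (a + 1) ^ k - 1) * ((a + 1) * (a + 1) ^ k)) =
        ((a + 1) ^ 2 * (a + 1) ^ k - 1) * ((a + 1) ^ 2 * (a + 1) ^ k) := by ring
    rw [h8, hc, Nat.add_sub_cancel]
    have h9 : (a + 1) ^ 4 * ((a + 1) ^ k) ^ 2 = ((a + 1) ^ 2 * (a + 1) ^ k) * ((a + 1) ^ 2 * (a + 1) ^ k) := by ring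
    rw [h9, hc]
    ring
  rw [h5, ← h4] at h1
  rw [ha, Nat.add_sub_cancel]
  rw [← ha]
  exact Nat.add_right_cancel h1

/-- The fine data. -/
theorem odd_fine (h2 : (2 : F) ≠ 0) (h4 : 4 ≤ a) (hk : 1 ≤ k) :
    Fine (nd_oddQ (F := F) h2 (k + 2)) (2 * k + 3) (oP2 a (GG (Fintype.card F) k))
      (oPw a (GG (Fintype.card F) k)) (oN0 a (GG (Fintype.card F) k)) (on' a (GG (Fintype.card F) k)) 2 := by
  set g := GG (Fintype.card F) k with hg
  have hg1 : 1 ≤ g := GG_pos hk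
  have hx := px_eq (k := k) ha
  rw [← hg] at hx
  have hA : Fintype.card F - 1 = a := by rw [ha, Nat.add_sub_cancel]
  have hbase : Base (nd_oddQ (F := F) h2 (k + 2)) (2 * k + 3) (oP2 a g) (oPw a g) (oN0 a g) := by
    refine ⟨?_, by omega, ?_, ?_, ?_⟩
    · simp
      omega
    · exact odd_Sg ha h2
    · rw [F4, ha, show (a + 1) ^ (2 * k + 3) = (a + 1) ^ 3 * ((a + 1) ^ k) ^ 2 by ring, hx]
    · rw [F5, ha, show 2 * k + 3 - 2 = 2 * k + 1 by omega, show (a + 1) ^ (2 * k + 1) = (a + 1) * ((a + 1) ^ k) ^ 2 by ring, hx]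
  have hqD : (a + 1) ^ (2 * k + 3) = (a + 1) ^ 3 * (px a g) ^ 2 := by
    rw [hx]
    ring
  refine ⟨hbase, ?_, ?_, fun t _ => he_odd t, by omega, by rw [hA]; omega, ?_, ?_, fun h => absurd h h2⟩
  · rw [ha, hqD, ← mul_assoc]
    exact J1 (by omega) hg1
  · intro t _
    have hqD' : Fintype.card F ^ (2 * k + 3) = (a + 1) ^ 3 * (px a g) ^ 2 := by rw [ha]; exact hqD
    have hqq : Fintype.card F * on' a g = (a + 1) * on' a g := by rw [ha]
    rw [hA, hqD', hqq]
    refine le_trans (le_of_eq ?_) (odd_NR_ge ha t)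
    rw [← hg, ← F7, mul_assoc]
  · rw [hA, ha]
    exact J2 h4 hg1
  · rw [hA]
    have hp3 := ringChar_three h2
    have hdvd := ringChar_dvd (F := F)
    have hp := CharP.char_is_prime F (ringChar F)
    have hodd := odd_card_of h2
    by_cases h8 : 8 ≤ a
    · calc 2 * oN0 a g ≤ 3 * (a * on' a g) := J3 h8 hg1
        _ ≤ _ := Nat.mul_le_mul_right _ hp3
    · have ha46 : a = 4 ∨ a = 6 := by
        rw [ha] at hodd
        omega
      rcases ha46 with rfl | rfl
      · have h5 : ringChar F = 5 := by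
          rw [ha] at hdvd
          exact (Nat.prime_dvd_prime_iff_eq hp (by norm_num)).mp hdvd
        rw [h5]
        exact J3o5 hg1
      · have h5 : ringChar F = 7 := by
          rw [ha] at hdvd
          exact (Nat.prime_dvd_prime_iff_eq hp (by norm_num)).mp hdvd
        rw [h5]
        exact J3o7 hg1

end odd

/-- The small-orbit theorem for the odd type. -/
theorem odd_small (ha : Fintype.card F = a + 1) (h2 : (2 : F) ≠ 0) (h4 : 4 ≤ a) (hk : 1 ≤ k) (X : Type u) [Fintype X]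
    (act : omegaGL (quadFormOdd (k + 2) F) →* Equiv.Perm X)
    (hN : Fintype.card X < oN0 a (GG (Fintype.card F) k))
    (htr : ∀ x y : X, ∃ g ∈ omegaGL (quadFormOdd (k + 2) F), AA act g x = y) :
    ∀ (x : X), ∀ g ∈ omegaGL (quadFormOdd (k + 2) F), AA act g x = x := by
  intro x g hg
  have hF := odd_fine ha h2 h4 hk
  set hQ := nd_oddQ (F := F) h2 (k + 2)
  obtain ⟨ψ, hψ⟩ := exists_psi (F := F)
  obtain ⟨p, hp, hp0, hQp⟩ := exists_singular hQ (⊤ : Submodule F (Unit ⊕ (Fin (k + 2) ⊕ Fin (k + 2)) → F)) (by simp; omega)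
  obtain ⟨p', -, hpp'⟩ := (Nd_top hQ).exists_partner hQ hp hp0 hQp
  have hA : Fintype.card F - 1 = a := by rw [ha, Nat.add_sub_cancel]
  set G := GG (Fintype.card F) k with hG
  have hx := px_eq (k := k) ha
  rw [← hG] at hx
  have hw : ∀ T : Submodule F (Unit ⊕ (Fin (k + 2) ⊕ Fin (k + 2)) → F), (∀ x ∈ T, quadFormOdd (k + 2) F x = 0) →
      Module.finrank F T ≤ k + 2 :=
    witt_bound hQ (by simp; omega)
  have hG1 : 1 ≤ G := GG_pos hk
  have hc₀ : ∀ c, (Fintype.card F - 1) * oP2 a G ≤ c * (Fintype.card F ^ k - 1) → px a G + 1 ≤ c := by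
    intro c hc
    have h8 : (a + 1) ^ k - 1 = a * G := by
      rw [← hx, px, Nat.add_sub_cancel]
    rw [hA, ha, h8, oP2, mul_comm c, ← mul_assoc] at hc
    exact Nat.le_of_mul_le_mul_left hc (Nat.mul_pos (by omega) hG1)
  rcases Nat.lt_or_ge k 2 with hk2 | hk2
  · obtain rfl : k = 1 := by omega
    have hG1' : G = 1 := by
      rw [hG]
      simp [GG]
    rw [hG1'] at hF hN hx hc₀
    have hpx1 : px a 1 = a + 1 := by rw [px]; ring
    refine hF.main_cand (w := 1) (κ₀ := ((a + 1) * (a + 1) + 1) * ((a + 1) + 1)) (R := (a + 1) + 1) hψ hN htr hw ?_ ?_ ?_ ?_ ?_ ?_ ?_ ?_ ?_ ?_ hpp' x hg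
    · intro c hc
      have := hc₀ c hc
      rw [hpx1] at this
      rw [ha]
      exact this
    · rw [hA, ha]
      exact dA h4
    · rw [hA, ha]
      exact dB h4
    · rw [hA, ha]
      exact dC h4
    · rw [hA, ha]
      exact dK (by omega)
    · rw [ha]
      exact dN a
    · rw [ha]
      have : (a + 1) ^ (1 + 1) = (a + 1) * (a + 1) := by ring
      rw [this]
      nlinarith
    · rw [ha]
      exact dR1 h4
    · rw [hA]
      exact dR2 h4
    · rw [ha]
      exact dKR h4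
  · obtain ⟨j, rfl⟩ : ∃ j, k = j + 1 := ⟨k - 1, by omega⟩
    have hG2 : G = 1 + (a + 1) * GG (a + 1) j := by
      rw [hG, ha, GG]
    have hh : 1 ≤ GG (a + 1) j := GG_pos (by omega)
    refine hF.main_gen (c₀ := px a G + 1) (w := j + 1) hψ hN htr hw hc₀ ?_ hpp' x hg
    rw [hA, hG2]
    exact Jgen h4 hh

/-- The minimal index for the odd type: the lower bound. -/
theorem odd_lower (ha : Fintype.card F = a + 1) (h2 : (2 : F) ≠ 0) (h4 : 4 ≤ a) (hk : 1 ≤ k)
    (K : Subgroup (POmega F (quadFormOdd (k + 2) F))) (hK : K ≠ ⊤) : oN0 a (GG (Fintype.card F) k) ≤ K.index :=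
  index_lower (Q := quadFormOdd (k + 2) F) (fun X _ act hN htr => odd_small ha h2 h4 hk X act hN htr) K hK

/-- The minimal index for the odd type: existence. -/
theorem odd_exists (ha : Fintype.card F = a + 1) (h2 : (2 : F) ≠ 0) (hk : 1 ≤ k) :
    ∃ H : Subgroup (POmega F (quadFormOdd (k + 2) F)), H.index = oN0 a (GG (Fintype.card F) k) := by
  set hQ := nd_oddQ (F := F) h2 (k + 2)
  obtain ⟨p, hp, hp0, hQp⟩ := exists_singular hQ (⊤ : Submodule F (Unit ⊕ (Fin (k + 2) ⊕ Fin (k + 2)) → F)) (by simp; omega)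
  obtain ⟨p', -, hpp'⟩ := (Nd_top hQ).exists_partner hQ hp hp0 hQp
  exact exists_index hQ (by simp; omega) hpp' (odd_Sg ha h2)

theorem odd_num {a k : ℕ} (h3 : 1 ≤ a) :
    ((a + 1) ^ (2 * (k + 2)) - 1) / (a + 1 - 1) = oN0 a (GG (a + 1) k) := by
  have hx : px a (GG (a + 1) k) = (a + 1) ^ k := by rw [px, GG_mul]
  have h1 : (a + 1) ^ (2 * (k + 2)) - 1 = a * oN0 a (GG (a + 1) k) := by
    have h2 := F3 a (GG (a + 1) k)
    rw [hx] at h2
    have h4 : (a + 1) ^ (2 * (k + 2)) = (a + 1) ^ 4 * ((a + 1) ^ k) ^ 2 := by ring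
    rw [h4, ← h2, Nat.add_sub_cancel]
  rw [h1, Nat.add_sub_cancel, Nat.mul_div_cancel_left _ (by omega : 0 < a)]

end Cfsg.Agent.Lib.MinOmega
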